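import Mathlib
import Cfsg.Agent.Lib.MinIdx.UMain

/-!
Symplectic groups acting on a small set: transitivity, weights and the stabiliser calculus.
-/

set_option autoImplicit false
set_option linter.unusedSectionVars false

namespace CfsgLib.MinIdx

open CfsgLib.Forms CfsgLib.RootMax Module Submodule

universe u v

variable {F : Type u} [Field F] {V : Type v} [AddCommGroup V] [Module F V]

variable (F) in
/-- The nonzero squares. -/
def sqs : Set F := {s | ∃ t : F, t ≠ 0 ∧ t * t = s}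

theorem zero_notMem_sqs : (0 : F) ∉ sqs F := by rintro ⟨t, h1, h2⟩; simp [h1] at h2

theorem card_sqs [Finite F] : Nat.card F ≤ 2 * (sqs F).ncard + 1 ∧
    ((2 : F) = 0 → Nat.card F ≤ (sqs F).ncard + 1) := by
  simpa only [mul_one, sqs] using card_units_le (1 : F) one_ne_zero

theorem ncard_sqs_mul [Finite F] {χ : F} (hχ : χ ≠ 0) :
    ((· * χ) '' sqs F).ncard = (sqs F).ncard :=
  Set.ncard_image_of_injective _ (mul_left_injective₀ hχ)

theorem mem_of_sq [Finite F] {E : AddSubgroup F} {d : F} (hd : d ≠ 0) (h : ∀ c : F, c * c * d ∈ E)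
    (e : F) : e ∈ E := by
  by_cases h2 : (2 : F) = 0
  · have : CharP F 2 := CharTwo.of_one_ne_zero_of_two_eq_zero one_ne_zero h2
    obtain ⟨c, hc⟩ := FiniteField.isSquare_of_char_two (ringChar.eq F 2) (e / d)
    convert h c using 1
    rw [← hc]; field_simp
  · convert sub_mem (h ((e / d + 1) / 2)) (h ((e / d - 1) / 2)) using 1
    field_simp; ring

theorem rel_sq_of_ncard_le_two {G Ω : Type*} [Group G] [MulAction G Ω] [Finite Ω] {s : Setoid Ω}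
    {g : G} (hg : ∀ a b, s a b → s (g • a) (g • b)) {S : Set (Quotient s)} (hS : S.ncard ≤ 2)
    {ω : Ω} (h0 : Quotient.mk s ω ∈ S) (h1 : Quotient.mk s (g • ω) ∈ S)
    (h2 : Quotient.mk s (g • g • ω) ∈ S) (hg' : ∀ a b, s (g • a) (g • b) → s a b) :
    s (g • g • ω) ω := by
  by_contra h
  have k1 : ¬ s (g • ω) ω := fun k => h (s.trans (hg _ _ k) k)
  have k2 := Set.ncard_le_ncard (show ({Quotient.mk s ω, Quotient.mk s (g • ω),
    Quotient.mk s (g • g • ω)} : Set _) ⊆ S by rintro _ (rfl | rfl | rfl) <;> assumption)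
  rw [Set.ncard_eq_three.2 ⟨_, _, _, fun k => k1 (s.symm (Quotient.exact k)),
    fun k => h (s.symm (Quotient.exact k)), fun k => k1 (s.symm (hg' _ _ (Quotient.exact k))),
    rfl⟩] at k2
  omega

namespace Ctx

section slices

variable {σ : F →+* F} {P : PQ σ V} {C : Ctx P} {Ω : Type*} [MulAction C.K Ω] [Finite F]
  [FiniteDimensional F V] [Finite Ω] {x : V} {Pr : Ω → Prop}

variable (C Ω) in
/-- The weight of the pairs with a given second coordinate. -/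
noncomputable def sl (x : V) (Pr : Ω → Prop) (s : F) : ℕ := ∑ᶠ v, (C.ob2 Ω x Pr (v, s)).ncard

theorem sl_two (hx : C.Pt x) (hPr : C.Inv x Pr) {k : ℕ}
    (hk : Nat.card F ^ (finrank F (C.R ⊔ span F {x} : Submodule F V) + 1) = k * Nat.card P.Λ)
    {S₁ S₂ : Set F} {μ₁ μ₂ : ℕ} (h12 : Disjoint S₁ S₂) (h1 : ∀ s ∈ S₁, μ₁ ≤ C.sl Ω x Pr s)
    (h2 : ∀ s ∈ S₂, μ₂ ≤ C.sl Ω x Pr s) :
    μ₁ * S₁.ncard + μ₂ * S₂.ncard ≤ k * {ω | Pr ω}.ncard := by
  have := C.finite_V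
  have := Fintype.ofFinite V
  have := Fintype.ofFinite F
  refine (two_le_sum _ h12 h1 h2).trans_eq ?_
  simp only [sl, finsum_eq_sum_of_fintype]
  rw [← Fintype.sum_prod_type_right (f := fun p => (C.ob2 Ω x Pr p).ncard)]
  refine sum_objs (fun a b h => by rw [D_congr hx h, E_congr hx h])
    (fun a b h h' => hPr.rel hx h h') fun ω _ => ?_
  apply Nat.eq_of_mul_eq_mul_right (Nat.card_pos (α := P.Λ))
  rw [Set.ncard_prod, ← Nat.card_coe_set_eq, ← Nat.card_coe_set_eq, SetLike.coe_sort_coe,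
    SetLike.coe_sort_coe, card_D_mul_E, hk]
  ring

theorem two_le_sl {s : F} {T₁ T₂ : Set V} {μ₁ μ₂ : ℕ} (h12 : Disjoint T₁ T₂)
    (h1 : ∀ v ∈ T₁, μ₁ ≤ (C.ob2 Ω x Pr (v, s)).ncard)
    (h2 : ∀ v ∈ T₂, μ₂ ≤ (C.ob2 Ω x Pr (v, s)).ncard) :
    μ₁ * T₁.ncard + μ₂ * T₂.ncard ≤ C.sl Ω x Pr s := by
  have := C.finite_V
  have := Fintype.ofFinite V
  rw [sl, finsum_eq_sum_of_fintype]
  exact two_le_sum _ h12 h1 h2

theorem mul_le_ob2_zero (hx : C.Pt x) (hPr : C.Inv x Pr) {s : F} {T : Set V} {μ j : ℕ}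
    (hT : ∀ v ∈ T, v ∉ span F {x}) (h1 : ∀ v ∈ T, μ ≤ (C.ob2 Ω x Pr (v, s)).ncard)
    (hj : ∀ ω, Pr ω → Nat.card (C.D x ω) ≤ j + (span F {x} : Set V).ncard) :
    T.ncard * μ ≤ (C.ob2 Ω x Pr (0, s)).ncard * j := by
  have := C.finite_V
  refine double_count (fun (v : T) o => o ∈ C.ob2 Ω x Pr (v.1, s)) _ (fun v => (h1 v v.2).trans
    (Set.ncard_le_ncard fun o ho => ⟨?_, ho⟩)) fun o ho => ?_
  · obtain ⟨ω, rfl, k1, -, k2⟩ := ho
    exact mk_mem_ob2 k1 (zero_mem _) k2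
  · obtain ⟨ω, rfl, k1, -⟩ := ho
    have k2 := Set.ncard_le_ncard (show Subtype.val '' {v : T | Quotient.mk _ ω ∈
      C.ob2 Ω x Pr (v.1, s)} ∪ (span F {x} : Set V) ⊆ C.D x ω from by
        rintro _ (⟨v, hv, rfl⟩ | hv)
        exacts [((mem_ob2 hx hPr).1 hv).2.1, mem_D_of_mem ω (mem_sup_right hv)])
    rw [Set.ncard_union_eq (Set.disjoint_left.2 (by rintro _ ⟨v, -, rfl⟩; exact hT v v.2)),
      Set.ncard_image_of_injective _ Subtype.val_injective] at k2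
    exact Nat.le_of_add_le_add_right (k2.trans (hj ω k1))

theorem inv_mv (hx : C.Pt x) (φ : ℕ → Prop) :
    C.Inv x (fun ω : Ω => ¬ C.Fx x ω ∧ φ (Nat.card (C.D x ω))) := fun g t ω ht hg h =>
  ⟨inv_not_fx hx g t ω ht hg h.1, by
    rw [card_D_twist ω hx (inv_ne_zero ht) (by rw [hg, inv_inv])]; exact h.2⟩

theorem inv_fx' (hx : C.Pt x) (φ : ℕ → Prop) :
    C.Inv x (fun ω : Ω => C.Fx x ω ∧ φ (Nat.card (C.D x ω))) := fun g t ω ht hg h =>
  ⟨inv_fx hx g t ω ht hg h.1, by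
    rw [card_D_twist ω hx (inv_ne_zero ht) (by rw [hg, inv_inv])]; exact h.2⟩

theorem one_le_ob2 {ω : Ω} (h : Pr ω) {v : V} (hv : v ∈ C.D x ω) {s : F} (hs : s ∈ C.E x ω) :
    1 ≤ (C.ob2 Ω x Pr (v, s)).ncard :=
  (Set.ncard_pos (Set.toFinite _)).2 ⟨_, mk_mem_ob2 h hv hs⟩

theorem exists_fix_of_rel {g : C.K} {ω : Ω} (h : C.rel Ω x (g • ω) ω) :
    ∃ a d, C.Val x a d ∧ (C.el x a d * g) • ω = ω := by
  simpa only [mul_smul] using rel_iff.1 ((C.rel Ω x).symm h)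

end slices

variable {P : PQ (RingHom.id F) V} {C : Ctx P} {Ω : Type*} [MulAction C.K Ω]

variable (C Ω) in
/-- The standing hypotheses for a symplectic group acting nontrivially. -/
structure SH (r c : ℕ) : Prop where
  hΛ : ∀ a, a ∈ P.Λ
  hε : P.ε = -1
  hR : C.R = ⊥
  hK : C.K = P.isom
  gen : ∀ T : Subgroup (V ≃ₗ[F] V), T ≤ P.isom → (∀ (g : V ≃ₗ[F] V) (x : V) (d : F),
    (∀ v, g v = v + (d * P.B x v) • x) → g ∈ T) → P.isom ≤ T
  h4 : 4 ≤ finrank F V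
  hq : Nat.card F = r + 1
  hc : Nat.card F ^ (finrank F V - 1) = (r + 1) * c
  nt : ∃ (g : C.K) (ω : Ω), g • ω ≠ ω

theorem bl (t : F) (x y : V) : P.B (t • x) y = t * P.B x y := P.B_smul_left t x y

variable {r c : ℕ} (h : C.SH Ω r c)
include h

theorem SH.pt (x : V) : C.Pt x := ⟨h.hΛ _, by rw [h.hR, P.perp_bot]; trivial⟩

theorem SH.val {x a : V} (h1 : P.B x a = 0) (d : F) : C.Val x a d := ⟨(h.pt a).2, h1, h.hΛ _⟩

theorem SH.bb (x : V) : P.B x x = 0 := (h.pt x).self_eq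

theorem SH.bs (x y : V) : P.B y x = -P.B x y := by rw [P.symm, h.hε]; simp

theorem SH.el_apply {x a : V} (ha : P.B x a = 0) (d : F) (v : V) :
    (C.el x a d).1 v = v + (P.B a v - d * P.B x v) • x + P.B x v • a := by
  rw [Ctx.el_apply (h.pt x) (h.val ha d), rt_def, h.hε]; simp

theorem SH.el_left {x a v : V} (ha : P.B x a = 0) (d : F) (hv : P.B x v = 0) :
    (C.el x a d).1 v = v + P.B a v • x := by rw [h.el_apply ha, hv]; simp

theorem SH.z_apply (y : V) (d : F) (v : V) : (C.el y 0 d).1 v = v - (d * P.B y v) • y :=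
  Ctx.z_apply (h.pt y) (h.hΛ d) v

theorem SH.z_fix {y v : V} (d : F) (hv : P.B v y = 0) : (C.el y 0 d).1 v = v :=
  Ctx.z_fix (h.pt y) (h.hΛ d) (P.B_eq_zero_comm.1 hv)

theorem SH.st_mul {x a a' : V} {d d' : F} {ω : Ω} (ha : P.B x a = 0) (ha' : P.B x a' = 0)
    (h1 : C.el x a d • ω = ω) (h2 : C.el x a' d' • ω = ω) :
    C.el x (a + a') (d + d' - P.B a a') • ω = ω := by
  have := el_mul (h.val ha d) (h.val ha' d')
  rw [h.hε, neg_one_mul, ← sub_eq_add_neg] at this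
  rw [← this, mul_smul, h2, h1]

theorem SH.st_neg {x a : V} {d : F} {ω : Ω} (ha : P.B x a = 0) (h1 : C.el x a d • ω = ω) :
    C.el x (-a) (-d) • ω = ω := by
  have := el_inv (h.val ha d)
  rw [h.bb, mul_zero, zero_sub] at this
  rw [← this, inv_smul_eq_iff, h1]

theorem SH.st_sub {x a a' : V} {d d' : F} {ω : Ω} (ha : P.B x a = 0) (ha' : P.B x a' = 0)
    (h1 : C.el x a d • ω = ω) (h2 : C.el x a' d' • ω = ω) :
    C.el x (a - a') (d - d' + P.B a a') • ω = ω := by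
  simpa [sub_eq_add_neg] using h.st_mul ha (by simp [ha']) h1 (h.st_neg ha' h2)

theorem SH.st_conj {x a : V} {d t : F} {ω : Ω} {k : C.K} (hk : k • ω = ω) (ht : t ≠ 0)
    (hkx : k.1 x = t • x) (ha : P.B x a = 0) (h1 : C.el x a d • ω = ω) :
    C.el x (t • k.1 a) (t * t * d) • ω = ω := by
  have h2 := (h.val ha d).map k
  have h3 := el_conj k (h.pt x) (h.val ha d)
  rw [hkx] at h2 h3
  rw [el_smul_left (h.pt x) (h2.of_smul ht)] at h3
  exact h3 ▸ mul_mem (mul_mem (MulAction.mem_stabilizer_iff.2 hk) h1)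
    (inv_mem (MulAction.mem_stabilizer_iff.2 hk))

variable [Finite F] [FiniteDimensional F V]

theorem SH.shift {x a : V} (ha : P.B x a = 0) (d t : F) :
    C.el x (a + t • x) d = C.el x a (d - 2 * t) := by
  have h1 : C.Val x (a + t • x) d := h.val (by simp [ha, h.bb]) d
  obtain ⟨-, h2⟩ := h1.sub_self (h.pt x)
  rw [h2, h.hε]
  simp [two_mul]

theorem SH.z_smul (y : V) (t d : F) : C.el (t • y) 0 d = C.el y 0 (t * t * d) := by
  simpa using el_smul_left (h.pt y) (val_zero_iff.2 (h.hΛ d)) t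

theorem SH.z_conj (g : C.K) (y : V) (d : F) : g * C.el y 0 d * g⁻¹ = C.el (g.1 y) 0 d := by
  simpa using el_conj g (h.pt y) (val_zero_iff.2 (h.hΛ d))

theorem SH.z_add {y y' : V} (hy : P.B y y' = 0) (d : F) :
    C.el (y + y') 0 d = C.el y (-d • y') d * C.el y' 0 d := ext' fun v => by
  rw [mul_apply', h.z_apply, h.z_apply, h.el_apply (by simp [hy])]
  simp only [bl]
  simp only [map_add, map_sub, map_smul, LinearMap.add_apply, hy, h.bb, smul_eq_mul]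
  module

theorem SH.fx_iff {x : V} {ω : Ω} : C.Fx x ω ↔ ∀ d, C.el x 0 d • ω = ω :=
  ⟨fun k d => (mem_Z.1 (k d (h.hΛ d))).2, fun k d hd => mem_Z.2 ⟨hd, k d⟩⟩

theorem SH.r_pos : 1 ≤ r := by
  have := one_lt_q F
  rw [h.hq] at this
  omega

theorem SH.c_ge : (r + 1) ^ 2 ≤ c := by
  have := Nat.pow_le_pow_right (Nat.card_pos (α := F)) (show 3 ≤ finrank F V - 1 by
    have := h.h4; omega)
  rw [h.hc, h.hq, pow_succ'] at this
  exact Nat.le_of_mul_le_mul_left this r.succ_pos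

theorem SH.exists_E {x : V} {ω : Ω} (hm : ¬ C.Fx x ω) : ∃ χ ∈ C.E x ω, χ ≠ 0 :=
  let ⟨χ, h1, h2⟩ := exists_E_of_not_fx hm
  ⟨χ, h1, fun k => h2 (k ▸ zero_mem _)⟩

theorem SH.witt (T : Submodule F V) {u u' : V} (hu : u ∉ T) (hu' : u' ∉ T)
    (hB : ∀ t ∈ T, P.B t u' = P.B t u) : ∃ g : C.K, (∀ t ∈ T, g.1 t = t) ∧ g.1 u = u' :=
  let ⟨g, h1, h2⟩ := P.witt_step C.nondeg T hu hu' hB (h.hΛ _)
  ⟨⟨g, h.hK.ge h1⟩, h2⟩

theorem SH.tr0 {u u' : V} (hu : u ≠ 0) (hu' : u' ≠ 0) : ∃ g : C.K, g.1 u = u' :=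
  let ⟨g, _, h1⟩ := h.witt ⊥ hu hu' (by simp)
  ⟨g, h1⟩

theorem SH.tr1 {x u u' : V} (hu : u ∉ span F {x}) (hu' : u' ∉ span F {x}) (h1 : P.B x u = 0)
    (h2 : P.B x u' = 0) : ∃ g : C.K, g.1 x = x ∧ g.1 u = u' :=
  let ⟨g, k1, k2⟩ := h.witt (span F {x}) hu hu' (fun t ht => by
    obtain ⟨s, rfl⟩ := mem_span_singleton.1 ht
    rw [bl, bl, h1, h2])
  ⟨g, k1 x (mem_span_singleton_self x), k2⟩

theorem SH.scal {x w y : V} (h1 : P.B x w = 0) (h2 : P.B x y = 0) (h3 : P.B w y = 0) {t : F}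
    (ht : t ≠ 0) : ∃ g : C.K, g.1 x = t • x ∧ g.1 w = t • w ∧ g.1 y = t • y := by
  have hT := P.ts_span (s := {x, w, y}) (fun _ _ => h.hΛ _) (by
    have := h.bs x w
    have := h.bs x y
    have := h.bs w y
    rintro _ (rfl | rfl | rfl) _ (rfl | rfl | rfl) <;> simp_all [h.bb])
  obtain ⟨g, k1, k2⟩ := P.witt C.nondeg (span F {x, w, y}) (t • (span F {x, w, y}).subtype)
    (fun a b k => Subtype.ext (smul_right_injective V ht k))
    (fun a b => by simp [hT.B_eq a.2 b.2]) fun _ => h.hΛ _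
  exact ⟨⟨g, h.hK.ge k1⟩, k2 ⟨x, subset_span (by simp)⟩, k2 ⟨w, subset_span (by simp)⟩,
    k2 ⟨y, subset_span (by simp)⟩⟩

theorem SH.dil {x y : V} (hyx : P.B y x = 1) {s : F} (hs : s ≠ 0) :
    ∃ g : C.K, g.1 x = s • x ∧ ∀ v, P.B x v = 0 → P.B y v = 0 → g.1 v = v :=
  let ⟨g, h1, _, h2⟩ := exists_dil C.nondeg (h.hΛ _ : P.Sing x) (h.hΛ _ : P.Sing y) hyx hs
  ⟨⟨g, h.hK.ge h1⟩, h2⟩

omit h in
theorem dual {x w u : V} (hu : u ∉ span F {x, w}) (C : Ctx P) :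
    ∃ y, P.B y u = 1 ∧ P.B x y = 0 ∧ P.B w y = 0 :=
  let ⟨y, h1, h2⟩ := P.exists_dual_vec C.nondeg _ hu
  ⟨y, h1, P.B_eq_zero_comm.1 (h2 x (subset_span (by simp))),
    P.B_eq_zero_comm.1 (h2 w (subset_span (by simp)))⟩

theorem SH.exists_moved {x : V} (hx0 : x ≠ 0) : ∃ ω : Ω, ¬ C.Fx x ω := by
  by_contra hn
  push Not at hn
  obtain ⟨g, ω, hg⟩ := h.nt
  obtain ⟨k, hk, hk'⟩ := h.gen ((MulAction.stabilizer C.K ω).map C.K.subtype)
    ((Subgroup.map_subtype_le _).trans C.le) (fun k y d hk => by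
      refine ⟨C.el y 0 (-d), ?_, LinearEquiv.ext fun v => by
        rw [hk]; exact (h.z_apply y _ v).trans (by simp)⟩
      by_cases hy0 : y = 0
      · rw [hy0]; exact tyF_zero ω _ _ (val_zero_iff.2 (h.hΛ _))
      obtain ⟨s, rfl⟩ := h.tr0 hx0 hy0
      simpa using h.fx_iff.1 ((hn (s⁻¹ • ω)).map (h.pt x) s) _) (C.le g.2)
  exact hg ((Subtype.ext hk' : k = g) ▸ hk)

theorem SH.hk {x : V} (hx0 : x ≠ 0) :
    Nat.card F ^ (finrank F (C.R ⊔ span F {x} : Submodule F V) + 1) = (r + 1) * Nat.card P.Λ := by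
  rw [h.hR, bot_sup_eq, finrank_span_singleton hx0, (AddSubgroup.eq_top_iff' _).2 h.hΛ,
    AddSubgroup.card_top, h.hq]
  ring

theorem SH.card_perp {x : V} (hx0 : x ≠ 0) : {v | P.B x v = 0}.ncard = (r + 1) * c := by
  have h1 := P.finrank_perp C.nondeg (span F {x})
  rw [finrank_span_singleton hx0] at h1
  rw [← h.hc, show finrank F V - 1 = finrank F (P.perp (span F {x})) by omega, ← ncard_submodule]
  exact congrArg _ (Set.ext fun v => P.mem_perp_span_singleton.symm)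

theorem SH.card_line {x : V} (hx0 : x ≠ 0) : (span F {x} : Set V).ncard = r + 1 := by
  rw [ncard_submodule, finrank_span_singleton hx0, pow_one, h.hq]

theorem SH.card_off {x : V} (hx0 : x ≠ 0) :
    {v | P.B x v = 0 ∧ v ∉ span F {x}}.ncard + (r + 1) = (r + 1) * c := by
  have := C.finite_V
  rw [← h.card_perp hx0, ← h.card_line hx0, ← Set.ncard_union_eq (Set.disjoint_left.2
    fun v k1 k2 => k1.2 k2)]
  congr 1
  ext v
  refine ⟨fun k => k.elim And.left fun k => ?_, fun k => by by_cases j : v ∈ span F {x} <;> simp_all⟩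
  obtain ⟨t, rfl⟩ := mem_span_singleton.1 k
  simp [h.bb]

/-- An additive subgroup of `x^⊥` closed under enough transvections is all of `x^⊥`. -/
theorem SH.gen_D {x : V} {D : AddSubgroup V} (hR : ∀ w ∈ D, w ∉ span F {x} → ∀ y, P.B x y = 0 →
      P.B w y = 0 → ∀ u ∈ D, ∀ d : F, (d * P.B y u) • y ∈ D) {w u : V} (hw : w ∈ D)
    (hw' : w ∉ span F {x}) (hu : u ∈ D) (hu' : u ∉ span F {x, w}) {v : V} (hv : P.B x v = 0) :
    v ∈ D := by
  have key : ∀ w ∈ D, w ∉ span F {x} → ∀ u ∈ D, u ∉ span F {x, w} → ∀ y, P.B x y = 0 →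
      P.B w y = 0 → y ∈ D := by
    intro w hw hw' u hu hu' y k1 k2
    obtain ⟨y₀, j1, j2, j3⟩ := dual hu' C
    have k3 : ∀ y, P.B x y = 0 → P.B w y = 0 → P.B y u ≠ 0 → y ∈ D := fun y k1 k2 k3 => by
      simpa [k3] using hR w hw hw' y k1 k2 u hu (P.B y u)⁻¹
    by_cases k4 : P.B y u = 0
    · simpa using sub_mem (k3 (y + y₀) (by simp [k1, j2]) (by simp [k2, j3]) (by simp [k4, j1]))
        (k3 y₀ j2 j3 (by simp [j1]))
    · exact k3 y k1 k2 k4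
  have k1 : w ∉ span F {x, u} := by
    have := notMem_exchange (x := x) (w := x) (u := w) (z := u) (by simpa using hw')
      (by simpa using hu')
    simpa using this
  obtain ⟨y, j1, j2, j3⟩ := dual k1 C
  have j4 : P.B w y = -1 := by rw [h.bs, j1]
  simpa using add_mem (key w hw hw' u hu hu' (v + P.B w v • y) (by simp [hv, j2]) (by simp [j4]))
    (key u hu (fun k => hu' (span_mono (by simp) k)) w hw k1 (-P.B w v • y) (by simp [j2])
      (by simp [j3]))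

variable [Finite Ω] {x : V} {Pr : Ω → Prop}

theorem SH.M_le (hx0 : x ≠ 0) (hPr : C.Inv x Pr) {w v : V} (hw : w ∉ span F {x})
    (h1 : P.B x w = 0) (h2 : P.B x v = 0) (χ : F) {a : F} (ha : a = 0 ∨ a ∈ sqs F) :
    (C.ob2 Ω x Pr (w, χ)).ncard ≤ (C.ob2 Ω x Pr (v, a * χ)).ncard := by
  obtain ⟨t, ht, k2⟩ : ∃ t : F, t ≠ 0 ∧ (a = 0 ∨ t * t = a) :=
    ha.elim (fun k => ⟨1, one_ne_zero, Or.inl k⟩) fun ⟨t, k1, k2⟩ => ⟨t, k1, Or.inr k2⟩
  obtain ⟨g, g1, g2, -⟩ := h.scal h1 h1 (h.bb w) (inv_ne_zero ht)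
  have k1 := ob2_le (h.pt x) ht g1 hPr w χ
  rw [g2, smul_inv_smul₀ ht] at k1
  have k3 : ∀ v', (v' = v ∨ v ∈ span F {x}) → (C.ob2 Ω x Pr (v', t * t * χ)).ncard ≤
      (C.ob2 Ω x Pr (v, a * χ)).ncard := fun v' hv' => ob2_mono fun ω j1 j2 =>
    ⟨hv'.elim (· ▸ j1) fun j => mem_D_of_mem ω (mem_sup_right j),
      k2.elim (fun j => by simp [j]) (· ▸ j2)⟩
  by_cases hv : v ∈ span F {x}
  · exact k1.trans (k3 _ (Or.inr hv))
  · obtain ⟨k, j1, j2⟩ := h.tr1 hw hv h1 h2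
    exact k1.trans ((ob2_le_fix (h.pt x) j1 hPr _ _).trans (k3 _ (Or.inl j2)))

theorem SH.le_sl (hx0 : x ≠ 0) {μ : ℕ} {s : F}
    (h1 : ∀ v, P.B x v = 0 → μ ≤ (C.ob2 Ω x Pr (v, s)).ncard) :
    μ * ((r + 1) * c) ≤ C.sl Ω x Pr s := by
  simpa [h.card_perp hx0] using two_le_sl (T₁ := {v | P.B x v = 0}) (T₂ := ∅) (μ₂ := 0) (by simp)
    h1 (by simp)

theorem SH.tor (hPr : C.Inv x Pr) {w y : V} {ω : Ω}
    (hω : Quotient.mk _ ω ∈ C.ob2 Ω x Pr (w, 0)) (xw : P.B x w = 0) (xy : P.B x y = 0)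
    (wy : P.B w y = 0) {d : F} (hn : ¬ C.rel Ω x (C.el y 0 d • ω) ω) :
    (sqs F).ncard + 1 ≤ (C.ob2 Ω x Pr (w, 0)).ncard := by
  have hx := h.pt x
  have hs : ∀ m ∈ (C.zfam y).X, ∀ a b, C.rel Ω x a b →
      C.rel Ω x ((C.zfam y).t m • a) ((C.zfam y).t m • b) := fun m _ a b =>
    (rel_fix hx (h.z_fix m xy) a b).1
  obtain ⟨ξ, h1, h2⟩ : ∃ ξ ∈ perp (pairM F) ((C.zfam y).cls _ hs ω), ξ ≠ 0 := by
    by_contra k
    push Not at k
    exact hn (mem_of_forall_perp (A := (C.zfam y).cls _ hs ω) (pairM F) mul_nondeg mul_nondeg'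
      fun t ht => by simp [k t ht]).2
  have h3 := Fam.ncard_chars_le (C.zfam y) hs (S := C.ob2 Ω x Pr (w, 0))
    (fun ω' k m _ => mk_smul_mem_ob2 hx hPr k (h.z_fix m xy) (h.z_fix m wy))
    (T := insert 0 ((· * ξ) '' sqs F)) (by
      rintro _ (rfl | ⟨_, ⟨s, hs0, rfl⟩, rfl⟩)
      · exact ⟨ω, hω, zero_mem _⟩
      obtain ⟨g, gx, gw, gy⟩ := h.scal xw xy wy hs0
      obtain ⟨k1, k2, -⟩ := (mem_ob2 hx hPr).1 hω
      have gx' := inv_twist hs0 gx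
      refine ⟨g⁻¹ • ω, mk_mem_ob2 (hPr _ _ _ (inv_ne_zero hs0) gx' k1) ?_ (zero_mem _),
        fun m hm => ?_⟩
      · have := D_twist hx hs0 gx' k2
        rwa [inv_twist hs0 gw, smul_inv_smul₀ hs0] at this
      have j6 := (rel_smul_iff hx hs0 gx _ _).1 hm.2
      rw [smul_inv_smul, ← mul_smul, ← mul_smul] at j6
      have j8 := h1 (s * s * m) ⟨h.hΛ _, by
        change C.rel Ω x (C.el y 0 _ • ω) ω
        rw [← h.z_smul, ← gy, ← h.z_conj]; exact j6⟩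
      convert j8 using 1
      simp only [pairM_apply]; ring)
  have h4 := card_mul_card_perp (pairM F) mul_nondeg (C.zfam y).X
  rw [show (C.zfam y).X = ⊤ from (AddSubgroup.eq_top_iff' _).2 h.hΛ] at h3 h4
  rw [AddSubgroup.card_top, Nat.mul_eq_left Nat.card_pos.ne'] at h4
  rwa [h4, one_mul, Set.ncard_insert_of_notMem (by
    rintro ⟨_, ⟨t, k1, rfl⟩, k2⟩; simp [k1, h2] at k2), ncard_sqs_mul h2] at h3

theorem SH.z_mem {ω : Ω} {y : V} (xy : P.B x y = 0) {d : F} (H : C.rel Ω x (C.el y 0 d • ω) ω)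
    {u : V} (hu : u ∈ C.D x ω) : (d * P.B y u) • y ∈ C.D x ω := by
  have := D_of_rel (h.pt x) (h.z_fix d xy) H hu
  rw [h.z_apply] at this
  simpa using sub_mem hu this

end Ctx

end CfsgLib.MinIdx
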