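import Mathlib
import Cfsg.Agent.Lib.MinIdx.SpBase

/-!
Symplectic groups in characteristic two: root group orbits given by quadratic forms, and the
field with two elements.
-/

set_option autoImplicit false
set_option linter.unusedSectionVars false

namespace CfsgLib.MinIdx

open CfsgLib.Forms CfsgLib.RootMax Module Submodule

universe u v

variable {F : Type u} [Field F] {V : Type v} [AddCommGroup V] [Module F V] [Finite F]

theorem sqs_of_two (h2 : (2 : F) = 0) (a : F) : a = 0 ∨ a ∈ sqs F := by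
  have : CharP F 2 := CharTwo.of_one_ne_zero_of_two_eq_zero one_ne_zero h2
  obtain ⟨c, rfl⟩ := FiniteField.isSquare_of_char_two (ringChar.eq F 2) a
  by_cases hc : c = 0
  · simp [hc]
  · exact Or.inr ⟨c, hc, rfl⟩

theorem two_eq_zero_of_card (hF : Nat.card F = 2) : (2 : F) = 0 :=
  (eq_zero_or_one_of_card hF 2).resolve_right fun h => one_ne_zero (by linear_combination h)

/-- The Gauss sum of a quadratic function over the field with two elements. -/
theorem gauss (hF : Nat.card F = 2) {X : Type*} [AddCommGroup X] [Finite X] (β : X → X → F)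
    (hβ : ∀ a a' b, β (a + a') b = β a b + β a' b) (θ : X → F)
    (hθ : ∀ a b, θ (a + b) = θ a + θ b + β a b) (hrad : ∀ b, (∀ a, β a b = 0) → θ b = 0) :
    (2 * ({a | θ a = 0}.ncard : ℤ) - Nat.card X) ^ 2 =
      Nat.card X * {b | ∀ a, β a b = 0}.ncard := by
  classical
  have := Fintype.ofFinite X
  let s : F → ℤ := fun c => if c = 0 then 1 else -1
  have h2 : (1 : F) + 1 = 0 := by linear_combination two_eq_zero_of_card hF
  have hs : ∀ c d, s (c + d) = s c * s d := fun c d => by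
    rcases eq_zero_or_one_of_card hF c with rfl | rfl <;>
    rcases eq_zero_or_one_of_card hF d with rfl | rfl <;> simp [s, h2]
  have hs2 : ∀ c, s c * s c = 1 := fun c => by by_cases h : c = 0 <;> simp [s, h]
  have cnt : ∀ p : X → Prop, ∑ a, (if p a then (1 : ℤ) else 0) = {a | p a}.ncard := fun p => by
    exact_mod_cast (sum_indicator_eq {a | p a} 1).trans (one_mul _)
  have h1 : ∑ a, s (θ a) = 2 * ({a | θ a = 0}.ncard : ℤ) - Nat.card X := by
    rw [← cnt, Finset.mul_sum, Nat.card_eq_fintype_card, Fintype.card, Finset.card_eq_sum_ones,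
      Nat.cast_sum, ← Finset.sum_sub_distrib]
    exact Finset.sum_congr rfl fun a _ => by by_cases h : θ a = 0 <;> simp [s, h]
  have h3 : ∀ b, s (θ b) * ∑ a, s (β a b) = Nat.card X * if ∀ a, β a b = 0 then 1 else 0 := by
    intro b
    split_ifs with h
    · simp [s, h, hrad b h]
    · push Not at h
      obtain ⟨a₀, h⟩ := h
      have h4 := Equiv.sum_comp (Equiv.addRight a₀) fun a => s (β a b)
      simp only [Equiv.coe_addRight, hβ, hs, ← Finset.sum_mul, show s (β a₀ b) = -1 by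
        simp [s, h]] at h4
      rw [show ∑ a, s (β a b) = 0 by linarith, mul_zero, mul_zero]
  rw [← h1, ← cnt, Finset.mul_sum, sq, Finset.sum_mul]
  refine Eq.trans ?_ (Finset.sum_congr rfl fun b _ => (h3 b).trans (by congr))
  simp only [Finset.mul_sum]
  rw [Finset.sum_comm (f := fun b a => s (θ b) * s (β a b))]
  refine Finset.sum_congr rfl fun a _ => ?_
  rw [← Equiv.sum_comp (Equiv.addLeft a)]
  refine Finset.sum_congr rfl fun b _ => ?_
  rw [Equiv.coe_addLeft, hθ, hs, hs]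
  linear_combination s (θ b) * s (β a b) * hs2 (θ a)

namespace Ctx

variable {P : PQ (RingHom.id F) V} {C : Ctx P} {Ω : Type*} [MulAction C.K Ω]
  [FiniteDimensional F V] {r c : ℕ} (h : C.SH Ω r c) {x : V} {Pr : Ω → Prop}
include h

theorem SH.exists_st {ω : Ω} (hD : ∀ v ∈ C.D x ω, v ∈ span F {x}) {a : V} (ha : P.B x a = 0) :
    ∃ d, C.el x a d • ω = ω :=
  let ⟨d, _, k⟩ := mem_A_of_orth (C := C) (x := x) (ω := ω) (a := a) fun v hv => by
    obtain ⟨t, rfl⟩ := mem_span_singleton.1 (hD v hv)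
    simp [P.B_eq_zero_comm.1 ha]
  ⟨d, k⟩

theorem SH.st_congr (h2 : (2 : F) = 0) {ω ω' : Ω} (hr : C.rel Ω x ω ω') {a : V} {d : F}
    (ha : P.B x a = 0) (h1 : C.el x a d • ω' = ω') : C.el x a d • ω = ω := by
  obtain ⟨b, e, hb, rfl⟩ := rel_iff.1 hr
  rw [← mul_smul, el_mul (h.val ha d) hb, add_comm a, add_comm d, show P.B a b = P.B b a by
    rw [h.bs]; linear_combination -P.B b a * h2, ← el_mul hb (h.val ha d), mul_smul, h1]

theorem SH.st_map {ω : Ω} {g : C.K} (hg : g.1 x = x) {a : V} {d : F} (ha : P.B x a = 0)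
    (h1 : C.el x a d • ω = ω) : C.el x (g.1 a) d • g • ω = g • ω := by
  have := el_conj g (h.pt x) (h.val ha d)
  rw [hg] at this
  rw [← this, mul_smul, mul_smul, inv_smul_smul, h1]

theorem SH.st_z {ω : Ω} {v a : V} {e d d' : F} (hv : P.B x v = 0) (ha : P.B x a = 0)
    (h1 : C.el x a d • ω = ω) (h3 : C.el x ((e * P.B v a) • v) d' • ω = ω) :
    C.el x a (d + d' + e * P.B v a * P.B v a) • C.el v 0 e • ω = C.el v 0 e • ω := by
  have h4 := h.st_map (h.z_fix e hv) (by simp [ha, hv]) (h.st_mul ha (by simp [hv]) h1 h3)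
  convert h4 using 3
  · rw [h.z_apply]; simp [h.bb]
  · rw [map_smul, h.bs v a]; simp

theorem SH.mem_κ {ω : Ω} {χ : F} (hχ : χ ∈ C.E x ω) {a : V} {d d' : F} (ha : P.B x a = 0)
    (h1 : C.el x a d • ω = ω) (h3 : C.el x a d' • ω = ω) : (d - d') * χ ∈ κ F :=
  mem_E.1 hχ _ (mem_Z.2 ⟨h.hΛ _, by simpa [h.bb] using h.st_sub ha ha h1 h3⟩)

variable [Finite Ω]

theorem SH.all_sl (hx0 : x ≠ 0) (hPr : C.Inv x Pr) {w : V} (hw : w ∉ span F {x})
    (xw : P.B x w = 0) {μ : ℕ} (H : ∀ s, μ ≤ (C.ob2 Ω x Pr (w, s)).ncard) :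
    μ * ((r + 1) * c) ≤ {ω | Pr ω}.ncard := by
  have h1 := sl_two (h.pt x) hPr (h.hk hx0) (S₁ := Set.univ) (S₂ := ∅) (μ₂ := 0) (by simp)
    (fun s _ => h.le_sl hx0 fun v hv => (H s).trans (by
      simpa using h.M_le hx0 hPr hw xw hv s (Or.inr ⟨1, one_ne_zero, rfl⟩))) (by simp)
  rw [Set.ncard_univ, h.hq, zero_mul, add_zero, mul_comm] at h1
  exact Nat.le_of_mul_le_mul_left h1 r.succ_pos

theorem SH.even_le (h2 : (2 : F) = 0) (hx0 : x ≠ 0) (hPr : C.Inv x Pr) {w : V}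
    (hw : w ∉ span F {x}) (xw : P.B x w = 0) {χ : F} (hχ : χ ≠ 0) (s : F) :
    (C.ob2 Ω x Pr (w, χ)).ncard ≤ (C.ob2 Ω x Pr (w, s)).ncard := by
  simpa [hχ] using h.M_le hx0 hPr hw xw xw χ (sqs_of_two h2 (s / χ))

theorem SH.zero_sl (hx0 : x ≠ 0) (hPr : C.Inv x Pr) {w : V} (hw : w ∉ span F {x})
    (xw : P.B x w = 0) : (C.ob2 Ω x Pr (w, 0)).ncard * c ≤ {ω | Pr ω}.ncard := by
  have h1 := sl_two (h.pt x) hPr (h.hk hx0) (S₁ := {0}) (S₂ := ∅) (μ₂ := 0) (by simp)
    (by rintro _ rfl; exact h.le_sl hx0 fun v hv => by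
          simpa using h.M_le hx0 hPr hw xw hv 0 (Or.inl rfl)) (by simp)
  rw [Set.ncard_singleton, zero_mul, add_zero, mul_one, mul_left_comm] at h1
  exact Nat.le_of_mul_le_mul_left h1 r.succ_pos

theorem SH.theta_sl (h2 : (2 : F) = 0) (hx0 : x ≠ 0) (hPr : C.Inv x Pr) {χ : F} (hχ : χ ≠ 0) :
    (C.ob2 Ω x Pr (0, χ)).ncard * (r + 1) ≤ {ω | Pr ω}.ncard := by
  have h1 := sl_two (h.pt x) hPr (h.hk hx0) (S₁ := Set.univ) (S₂ := ∅) (μ₂ := 0)
    (μ₁ := (C.ob2 Ω x Pr (0, χ)).ncard * (r + 1)) (by simp) (fun s _ => by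
      refine le_trans ?_ (two_le_sl (T₁ := span F {x}) (T₂ := ∅) (μ₂ := 0)
        (μ₁ := (C.ob2 Ω x Pr (0, χ)).ncard) (by simp) (fun v hv => ?_) (by simp))
      · simp [h.card_line hx0]
      rcases sqs_of_two h2 (s / χ) with k | ⟨t, ht, k⟩
      · exact ob2_mono fun ω _ _ => ⟨mem_D_of_mem ω (mem_sup_right hv), by
          rw [show s = 0 by simpa [hχ] using k]; exact zero_mem _⟩
      · obtain ⟨g, hg⟩ := h.tr0 hx0 (smul_ne_zero (inv_ne_zero ht) hx0)
        exact (ob2_le (h.pt x) ht hg hPr 0 χ).trans (ob2_mono fun ω _ j =>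
          ⟨mem_D_of_mem ω (mem_sup_right hv), by simpa [k, hχ] using j⟩)) (by simp)
  rw [Set.ncard_univ, h.hq, zero_mul, add_zero, mul_comm] at h1
  exact Nat.le_of_mul_le_mul_left h1 r.succ_pos

theorem SH.mem_span_of_orth {u : V} (hu : ∀ a, P.B x a = 0 → P.B u a = 0) : u ∈ span F {x} := by
  rw [← P.perp_perp C.nondeg (span F {x})]
  exact fun a ha => P.B_eq_zero_comm.1 (hu a (P.mem_perp_span_singleton.1 ha))

theorem SH.theta_two (hr : r = 1) (hx0 : x ≠ 0) (hPr : C.Inv x Pr) {ω : Ω} (h0 : Pr ω)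
    (hm : ¬ C.Fx x ω) (hD : ∀ v ∈ C.D x ω, v ∈ span F {x}) {Q : ℕ} (hQ : c = Q ^ 2) :
    c ≤ {ω | Pr ω}.ncard + Q := by
  have := C.finite_V
  subst hr
  have h2 := two_eq_zero_of_card h.hq
  obtain ⟨χ, hχ, hχ0⟩ := h.exists_E hm
  have hκ : ∀ d : F, d * χ ∈ κ F → d = 0 := fun d hd => eq_zero_of_forall_mul_mem_κ fun t => by
    obtain rfl := (eq_zero_or_one_of_card h.hq χ).resolve_left hχ0
    rcases eq_zero_or_one_of_card h.hq t with rfl | rfl
    exacts [by simp, by simpa using hd]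
  have hp : ∀ a : P.perp (span F {x}), P.B x a = 0 := fun a => P.mem_perp_span_singleton.1 a.2
  choose θ hθ using fun a : P.perp (span F {x}) => h.exists_st hD (hp a)
  have uq : ∀ a d, C.el x a.1 d • ω = ω → θ a = d := fun a d k =>
    sub_eq_zero.1 (hκ _ (h.mem_κ hχ (hp a) (hθ a) k))
  have hsub : ∀ b : P.perp (span F {x}), (∀ a : P.perp (span F {x}), P.B a b = 0) →
      b.1 ∈ span F {x} := fun b hb => h.mem_span_of_orth fun a ha =>
    P.B_eq_zero_comm.1 (hb ⟨a, P.mem_perp_span_singleton.2 ha⟩)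
  have h3 := gauss h.hq (fun a b : P.perp (span F {x}) => P.B a b) (fun _ _ _ => by simp) θ
    (fun a b => uq _ _ (by
      rw [show θ a + θ b + P.B a b = θ a + θ b - P.B a b by linear_combination P.B a b * h2]
      exact h.st_mul (hp a) (hp b) (hθ a) (hθ b))) fun b hb => uq _ _ (by
        obtain ⟨t, ht⟩ := mem_span_singleton.1 (hsub b hb)
        rw [← ht, ← zero_add (t • x), h.shift (by simp), h2, zero_mul, sub_zero, el_zero, one_smul])
  have h4 : Nat.card (P.perp (span F {x})) = 2 * c := (congrArg Set.ncard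
    (Set.ext fun v => P.mem_perp_span_singleton)).trans (h.card_perp hx0)
  have h5 : {b : P.perp (span F {x}) | ∀ a : P.perp (span F {x}), P.B a b = 0}.ncard ≤ 2 :=
    (Set.ncard_le_ncard_of_injOn Subtype.val hsub Subtype.val_injective.injOn).trans
      (h.card_line hx0).le
  have h6 := card_le_mul_of_fiber (fun v : {a | θ a = 0} => Quotient.mk (C.rel Ω x)
    (C.el v.1.1 0 1 • ω)) (C.ob2 Ω x Pr (0, χ)) (Set.toFinite _)
    (fun v => mk_smul_mem_ob2 (h.pt x) hPr (mk_mem_ob2 h0 (zero_mem _) hχ) (h.z_fix 1 (hp _))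
      (map_zero _)) 2 fun v => by
      refine (Set.ncard_le_ncard_of_injOn (fun v' => v'.1.1 - v.1.1) (fun v' hv' => ?_)
        fun _ _ _ _ k => Subtype.ext (Subtype.ext (sub_left_injective k))).trans
        (h.card_line hx0).le
      refine h.mem_span_of_orth fun a ha => ?_
      have key : ∀ u : {a | θ a = 0}, C.el x a (θ ⟨a, P.mem_perp_span_singleton.2 ha⟩ + 0 +
          1 * P.B u.1.1 a * P.B u.1.1 a) • C.el u.1.1 0 1 • ω = C.el u.1.1 0 1 • ω := fun u =>
        h.st_z (hp _) ha (hθ ⟨a, _⟩) (by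
          rcases eq_zero_or_one_of_card h.hq (P.B u.1.1 a) with k | k
          · simp [k, el_zero]
          · simpa [k, show θ u.1 = 0 from u.2] using hθ u.1)
      have k1 := hκ _ (h.mem_κ (E_fix (h.pt x) (h.z_fix 1 (hp _)) hχ) ha
        (h.st_congr h2 ((C.rel Ω x).symm (Quotient.exact hv')) ha (key v')) (key v))
      rw [P.B_sub_left]
      refine pow_eq_zero_iff two_ne_zero |>.1 ?_
      linear_combination k1 + (P.B v.1.1 a * P.B v.1.1 a - P.B v'.1.1 a * P.B v.1.1 a) * h2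
  have h7 := h.theta_sl h2 hx0 hPr hχ0
  rw [Nat.card_coe_set_eq] at h6
  rw [h4, hQ] at h3
  have h8 : (2 * ({a | θ a = 0}.ncard : ℤ) - (2 * Q ^ 2 : ℕ)) ^ 2 ≤ (2 * Q) ^ 2 := by
    rw [h3]
    have : ({b : P.perp (span F {x}) | ∀ a : P.perp (span F {x}), P.B a b = 0}.ncard : ℤ) ≤ 2 := by
      exact_mod_cast h5
    push_cast
    nlinarith [sq_nonneg (Q : ℤ)]
  have h9 := (abs_le_of_sq_le_sq' h8 (by positivity)).1
  push_cast at h9
  rw [hQ]
  zify at h6 h7 ⊢
  linarith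

theorem SH.fx_of_small (h6 : 6 ≤ finrank F V) {ω : Ω}
    (hD : ∀ y, y ≠ 0 → ∀ v ∈ C.D y ω, v ∈ span F {y}) (hx0 : x ≠ 0) : C.Fx x ω := by
  have key : ∀ y, P.B x y = 0 → y ∉ span F {x} → C.el x y 0 • ω = ω := by
    intro y xy hy
    obtain ⟨a, ha, ha'⟩ := exists_mem_notMem (W := P.perp (span F {x, y})) (W' := span F {x, y}) (by
      have := P.finrank_perp C.nondeg (span F {x, y})
      have := finrank_two_le (F := F) x y
      omega)
    have xa := P.mem_perp_span.1 ha x (by simp)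
    have ya := P.mem_perp_span.1 ha y (by simp)
    obtain ⟨v, k1, k2, k3⟩ := dual ha' C
    obtain ⟨e, he⟩ := h.exists_st (hD y fun k => hy (k ▸ zero_mem _)) ya
    obtain ⟨d, hd⟩ := h.exists_st (hD x hx0) k2
    have k4 := h.st_conj he one_ne_zero (by
      rw [h.el_left ya e (P.B_eq_zero_comm.1 xy), h.bs, xa]; simp) k2 hd
    rw [h.el_left ya e k3, h.bs, k1] at k4
    simpa [k3, h.bb, h.bs y v] using h.st_sub k2 (by simp [k2, xy]) hd k4
  obtain ⟨y, hy, hy'⟩ := exists_mem_notMem (W := P.perp (span F {x})) (W' := span F {x}) (by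
    have := P.finrank_perp C.nondeg (span F {x})
    have := finrank_one_le (F := F) x
    omega)
  rw [PQ.mem_perp_span_singleton] at hy
  obtain ⟨y', k1, k2, -⟩ := dual (x := x) (w := x) (u := y) (by simpa using hy') C
  refine h.fx_iff.2 fun d => ?_
  by_cases hd : d = 0
  · rw [hd, el_zero, one_smul]
  have ns : ∀ u, P.B u y ≠ 0 → u ∉ span F {x} := fun u k j => by
    obtain ⟨t, rfl⟩ := mem_span_singleton.1 j
    exact k (by simp [hy])
  have k3 := h.st_mul (by simp [k2]) hy (key (d • y') (by simp [k2]) (ns _ (by simp [k1, hd])))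
    (key y hy hy')
  simpa [k1, h.bb, h.bs y' y] using h.st_sub (by simp [k2, hy]) (by simp [k2, hy]) (key (d • y' + y)
    (by simp [k2, hy]) (ns _ (by simp [k1, hd, h.bb]))) k3

theorem SH.two_false (hr : r = 1) (h6 : 6 ≤ finrank F V) {Q : ℕ} (hQ : c = Q ^ 2)
    (hN : Nat.card Ω + Q < 2 * c) : False := by
  have h2 : (2 : F) = 0 := two_eq_zero_of_card (by rw [h.hq, hr])
  have mv : ∀ x, x ≠ 0 → ∀ ω : Ω, ¬ C.Fx x ω → ∀ v ∈ C.D x ω, v ∈ span F {x} := by
    intro x hx0 ω hm w hw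
    by_contra hw'
    obtain ⟨χ, hχ, hχ0⟩ := h.exists_E hm
    have k1 := (h.all_sl hx0 (inv_true x) hw' (D_orth (h.pt x) hw) fun s =>
      (one_le_ob2 trivial hw hχ).trans (h.even_le h2 hx0 (inv_true x) hw' (D_orth (h.pt x) hw)
        hχ0 s)).trans (ncard_le_card' _)
    subst hr
    omega
  obtain ⟨x, -, hx0⟩ := exists_mem_notMem (W := (⊤ : Submodule F V)) (W' := ⊥) (by simp; omega)
  obtain ⟨ω, hm⟩ := h.exists_moved hx0
  refine hm (h.fx_of_small h6 (fun y hy0 w hw => ?_) hx0)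
  by_cases hf : C.Fx y ω
  swap
  · exact mv y hy0 ω hf w hw
  by_contra hw'
  obtain ⟨ω', hm'⟩ := h.exists_moved hy0
  have k1 := h.theta_two hr hy0 (inv_not_fx (h.pt y)) hm' hm' (mv y hy0 ω' hm') hQ
  have k2 := (Nat.le_mul_of_pos_left c (one_le_ob2 hf hw (zero_mem _))).trans
    (h.zero_sl hy0 (inv_fx (h.pt y)) hw' (D_orth (h.pt y) hw))
  have k3 := ncard_add_ncard_le (S := {ω : Ω | C.Fx y ω}) (T := {ω : Ω | ¬ C.Fx y ω})
    (Set.disjoint_left.2 fun _ k1 k2 => k2 k1)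
  omega

end Ctx

end CfsgLib.MinIdx
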