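import Mathlib
import Cfsg.Agent.Lib.MinIdx.SpTwo
import Cfsg.Agent.Lib.MinIdx.OFinal
import Cfsg.Agent.Lib.RootMax.GL
import Cfsg.Agent.Lib.Symp.Basic

/-!
Transfer to the matrix symplectic group, and the stabiliser of a quadratic form over the field
with two elements.
-/

set_option autoImplicit false
set_option linter.unusedSectionVars false

namespace CfsgLib.MinIdx

open CfsgLib.Forms CfsgLib.RootMax Module Submodule

universe u v

variable {F : Type u} [Field F] [Finite F]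

theorem exists_form_stab (hF : Nat.card F = 2) {V : Type v} [AddCommGroup V] [Module F V]
    [FiniteDimensional F V] {P : PQ (RingHom.id F) V} (hP : P.Nondeg) (hΛ : ∀ a, a ∈ P.Λ)
    {θ : V → F} (hθ : ∀ a b, θ (a + b) = θ a + θ b + P.B a b)
    (hn : 2 * {a | θ a = 0}.ncard ≠ Nat.card V) :
    ∃ H : Subgroup P.isom, H.index = {a | θ a = 0}.ncard := by
  have : Finite V := Module.finite_of_finite F
  have h2 := two_eq_zero_of_card hF
  have h0 : θ 0 = 0 := by simpa using hθ 0 0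
  let _ : MulAction P.isom (V → F) := arrowAction
  refine ⟨MulAction.stabilizer P.isom θ, ?_⟩
  rw [MulAction.index_stabilizer, ← Set.ncard_image_of_injective (f := fun v a => θ a + P.B v a) _
    fun v v' h => sub_eq_zero.1 (hP _ fun a => by simpa [sub_eq_zero] using congrFun h a)]
  congr 1
  ext φ
  constructor
  · rintro ⟨g, rfl⟩
    obtain ⟨v, hv⟩ := P.exists_B_eq hP
      { toFun := fun a => θ ((g⁻¹).1 a) - θ a
        map_add' := fun a b => by rw [map_add, hθ, hθ, (g⁻¹).2.B_eq]; ring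
        map_smul' := fun t a => by
          rcases eq_zero_or_one_of_card hF t with rfl | rfl <;> simp }
    have h1 : ∀ a, θ ((g⁻¹).1 a) = θ a + P.B v a := fun a => by rw [hv]; simp
    refine ⟨v, ?_, funext fun a => (h1 a).symm⟩
    refine (eq_zero_or_one_of_card hF _).resolve_right fun h3 => hn ?_
    have h4 : (fun a => v + g.1 a) '' {a | θ a = 0} = {a | θ a = 0}ᶜ := by
      ext b
      simp only [Set.mem_image, Set.mem_ofPred_eq, Set.mem_compl_iff]
      have h5 : ∀ a, θ (v + g.1 a) = θ a + 1 := fun a => by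
        have := h1 (g.1 a)
        rw [show (g⁻¹).1 (g.1 a) = a from g.1.symm_apply_apply a] at this
        rw [hθ, h3, this]; ring
      refine ⟨by rintro ⟨a, k, rfl⟩; simp [h5, k], fun k => ⟨g.1.symm (b - v), ?_, by simp⟩⟩
      have := h5 (g.1.symm (b - v))
      rw [g.1.apply_symm_apply, add_sub_cancel, (eq_zero_or_one_of_card hF _).resolve_left k] at this
      simpa using this
    rw [two_mul, ← Set.ncard_add_ncard_compl {a | θ a = 0}, ← h4, Set.ncard_image_of_injective _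
      fun _ _ k => g.1.injective (add_left_cancel k)]
  · rintro ⟨v, hv, rfl⟩
    have h1 := P.qrefl_isIso v 1 (hΛ _)
    refine ⟨(⟨h1.toEquiv hP, h1.toEquiv_isIso hP⟩ : P.isom)⁻¹, funext fun a => ?_⟩
    change θ (P.qrefl v 1 a) = θ a + P.B v a
    rw [PQ.qrefl_apply, hθ, one_mul]
    rcases eq_zero_or_one_of_card hF (P.B v a) with k | k
    · simp [k, h0]
    · rw [k, one_smul, show θ v = 0 from hv, add_zero,
        (eq_zero_or_one_of_card hF (P.B a v)).resolve_left
          fun j => by simp [P.B_eq_zero_comm.1 j] at k]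

variable {m : ℕ}

theorem sp_SH (hm : 2 ≤ m) {r : ℕ} (hr : Nat.card F = r + 1)
    {H : Subgroup (spPQ (Fin m) F).isom} (hH : H ≠ ⊤) :
    (ctxOf (spPQ_nondeg (Fin m) F) (rootGroup_sp m)).SH (_ ⧸ H) r ((r + 1) ^ (2 * m - 2)) where
  hΛ _ := trivial
  hε := rfl
  hR := rfl
  hK := rfl
  gen T h1 h2 g hg := alt_mem_of_transvections _ _ (spB_nondegenerate _ _) T h1 h2 g hg
  h4 := by simp; omega
  hq := hr
  hc := by
    rw [hr, ← pow_succ']
    congr 1
    simp; omega
  nt := by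
    obtain ⟨y, -, h1⟩ := ctxOf_not_tyF (spPQ_nondeg (Fin m) F) (rootGroup_sp m) hH
      (QuotientGroup.mk 1)
    by_contra k
    push Not at k
    exact h1 fun _ _ _ => k _ _

theorem psp_min {d : ℕ} (h1 : ∀ H : Subgroup (spPQ (Fin m) F).isom, H ≠ ⊤ → d ≤ H.index)
    {H : Subgroup (spPQ (Fin m) F).isom} (h2 : ∀ g, (∀ v, g.1 v = -v) → g ∈ H) (h3 : H.index = d) :
    (∀ H : Subgroup (Cfsg.PSp m F), H ≠ ⊤ → d ≤ H.index) ∧
      ∃ H : Subgroup (Cfsg.PSp m F), H.index = d := by
  refine min_index_of_surjective ((QuotientGroup.mk' _).comp (spEquiv (Fin m) F).symm.toMonoidHom)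
    ((QuotientGroup.mk'_surjective _).comp (spEquiv (Fin m) F).symm.surjective) h1
    ⟨H, fun g hg => ?_, h3⟩
  obtain ⟨A, rfl⟩ := (spEquiv (Fin m) F).surjective g
  rcases Symp.mem_center_iff.1 (show A ∈ Subgroup.center _ by simpa using hg) with rfl | rfl
  · simp
  · exact h2 _ Symp.spNegOne_smul

theorem sp_two (hF : Nat.card F = 2) {k : ℕ} (hk : 2 ≤ k) :
    (∀ H : Subgroup (Cfsg.PSp (k + 1) F), H ≠ ⊤ → 2 ^ k * (2 ^ (k + 1) - 1) ≤ H.index) ∧
      ∃ H : Subgroup (Cfsg.PSp (k + 1) F), H.index = 2 ^ k * (2 ^ (k + 1) - 1) := by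
  have h2 := two_eq_zero_of_card hF
  have hP := spPQ_nondeg (Fin (k + 1)) F
  have e1 : 2 ^ k * (2 ^ (k + 1) - 1) + 2 ^ k = 2 * (2 ^ k) ^ 2 := by
    zify [Nat.one_le_two_pow (n := k + 1)]; ring
  have hV : Nat.card (Fin (k + 1) ⊕ Fin (k + 1) → F) = 4 * (2 ^ k) ^ 2 := by
    simp [Nat.card_fun, hF]; ring
  obtain ⟨θ, hθ, hn⟩ : ∃ θ : (Fin (k + 1) ⊕ Fin (k + 1) → F) → F,
      (∀ a b, θ (a + b) = θ a + θ b + (spPQ (Fin (k + 1)) F).B a b) ∧
      {a | θ a = 0}.ncard + 2 ^ k = 2 * (2 ^ k) ^ 2 := by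
    let θ : (Fin (k + 1) ⊕ Fin (k + 1) → F) → F := fun a => ∑ i, a (Sum.inl i) * a (Sum.inr i)
    have hθ : ∀ a b, θ (a + b) = θ a + θ b + (spPQ (Fin (k + 1)) F).B a b := fun a b => by
      simp only [θ, spPQ_B, spB_eq_sum, ← Finset.sum_add_distrib, Pi.add_apply]
      exact Finset.sum_congr rfl fun i _ => by
        linear_combination a (Sum.inl i) * b (Sum.inr i) * h2
    have h3 := gauss hF _ (fun _ _ _ => by simp) θ hθ fun b hb => by simp [hP.right b hb, θ]
    rw [show {b | ∀ a, (spPQ (Fin (k + 1)) F).B a b = 0} = {0} from Set.ext fun b =>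
      ⟨hP.right b, by rintro rfl; simp⟩, Set.ncard_singleton, hV] at h3
    push_cast at h3
    rw [show (4 * (2 ^ k) ^ 2 * 1 : ℤ) = (2 * 2 ^ k) ^ 2 by ring, sq_eq_sq_iff_eq_or_eq_neg] at h3
    rcases h3 with h3 | h3
    swap
    · exact ⟨θ, hθ, by zify; linarith⟩
    obtain ⟨v, hv⟩ : ∃ v, θ v = 1 := ⟨fun i => if i = Sum.inl 0 ∨ i = Sum.inr 0 then 1 else 0,
      by simp [θ]⟩
    refine ⟨fun a => θ (v + a) + 1, fun a b => by
      simp only [hθ, hv, map_add]; linear_combination -h2, ?_⟩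
    have h4 : (v + ·) '' {a | θ (v + a) + 1 = 0} = {a | θ a = 0}ᶜ := by
      ext b
      simp only [Set.mem_image, Set.mem_ofPred_eq, Set.mem_compl_iff]
      refine ⟨by rintro ⟨a, k, rfl⟩ j; simp [j] at k, fun k => ⟨b - v, ?_, by simp⟩⟩
      rw [add_sub_cancel, (eq_zero_or_one_of_card hF _).resolve_left k]
      linear_combination h2
    have h5 := Set.ncard_add_ncard_compl {a | θ a = 0}
    rw [← h4, Set.ncard_image_of_injective _ (add_right_injective v), hV] at h5
    zify at h5 ⊢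
    linarith
  obtain ⟨H, hH⟩ := exists_form_stab hF hP (fun _ => trivial) hθ (by
    have := Nat.one_le_two_pow (n := k)
    omega)
  refine psp_min (fun H hH => le_of_not_gt fun hlt => ?_) (H := H) (fun g hg => ?_) (by omega)
  · have hfin : Finite (spPQ (Fin (k + 1)) F).isom :=
      Ctx.finite_K (C := ctxOf hP (rootGroup_sp (k + 1)))
    refine (sp_SH (by omega) (r := 1) hF hH).two_false rfl (by simp; omega) (Q := 2 ^ k)
      (by rw [← pow_mul]; congr 1; omega) ?_
    rw [show 2 * (k + 1) - 2 = k * 2 by omega, pow_mul]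
    change H.index + _ < 2 * (2 ^ k) ^ 2
    omega
  · rw [show g = 1 from Subtype.ext (LinearEquiv.ext fun v => (hg v).trans
      (funext fun i => by simp; linear_combination -v i * h2))]
    exact one_mem _

end CfsgLib.MinIdx
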