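import Mathlib
import Cfsg.Agent.Lib.MinIdx.SpTwo
import Cfsg.Agent.Lib.MinIdx.OBad

/-!
Symplectic groups over fields with at least three elements acting on a small set: the shape of
the root group stabilisers at a moved point.
-/

set_option autoImplicit false
set_option linter.unusedSectionVars false

namespace CfsgLib.MinIdx

open CfsgLib.Forms CfsgLib.RootMax Module Submodule

universe u v

theorem mem_of_fpf {G : Type*} [Group G] [Finite G] {H Q : Subgroup G} {k g q : G} (hk : k ∈ H)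
    (hQ : ∀ y ∈ Q, k * y * k⁻¹ ∈ Q) (hC : ∀ y ∈ Q, k * y * k⁻¹ = y → y = 1)
    (hg : k * g * k⁻¹ = g) (hq : q ∈ Q) (h : q * g ∈ H) : g ∈ H := by
  have key : ∀ y ∈ Q, ∀ z ∈ Q, k * y * k⁻¹ * y⁻¹ = k * z * k⁻¹ * z⁻¹ → y = z := fun y hy z hz e =>
    (inv_mul_eq_one.1 (hC _ (mul_mem (inv_mem hz) hy) (by
      rw [show k * (z⁻¹ * y) * k⁻¹ = (k * z * k⁻¹)⁻¹ * (k * y * k⁻¹ * y⁻¹) * y by group, e]
      group))).symm
  obtain ⟨y, hy⟩ := Finite.surjective_of_injective (f := fun y : (Q ⊓ H :) =>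
    (⟨k * y * k⁻¹ * y.1⁻¹, Q.mul_mem (hQ _ y.2.1) (Q.inv_mem y.2.1),
      H.mul_mem (H.mul_mem (H.mul_mem hk y.2.2) (H.inv_mem hk)) (H.inv_mem y.2.2)⟩ : (Q ⊓ H :)))
    (fun y z e => Subtype.ext (key _ y.2.1 _ z.2.1 (congrArg Subtype.val e)))
    ⟨k * q * k⁻¹ * q⁻¹, Q.mul_mem (hQ _ hq) (Q.inv_mem hq), by
      have := mul_mem (mul_mem (mul_mem hk h) (inv_mem hk)) (inv_mem h)
      rwa [show k * (q * g) * k⁻¹ = k * q * k⁻¹ * (k * g * k⁻¹) by group, hg, mul_inv_rev,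
        mul_assoc _ g, mul_inv_cancel_left] at this⟩
  exact (H.mul_mem_cancel_left (key _ y.2.1 _ hq (congrArg Subtype.val hy) ▸ y.2.2)).1 h

theorem spA {r c a M j N : ℕ} (h1 : a + (r + 1) = (r + 1) * c) (h2 : a ≤ M * j)
    (h3 : 2 * (j + (r + 1)) ≤ (r + 1) ^ 2) (hN : r * N + 1 < (r + 1) ^ 2 * c)
    (h4 : (r + 1) ^ 2 ≤ c) (hr : 1 ≤ r) : N + 1 ≤ a + M * (r + 1) := by
  by_contra k
  have k1 : r * M < c + r := Nat.lt_of_mul_lt_mul_left (a := r + 1) (by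
    nlinarith [Nat.mul_le_mul_left r (show a + M * (r + 1) ≤ N by omega)])
  have k2 : 2 * c + M ≤ M * r + 2 := Nat.le_of_mul_le_mul_left (c := r + 1) (by
    nlinarith [Nat.mul_le_mul_left M h3]) r.succ_pos
  nlinarith [Nat.mul_le_mul_left r k2]

theorem sum_ncard_comm {α β : Type*} [Fintype α] [Fintype β] (r : α → β → Prop) :
    ∑ a, {b | r a b}.ncard = ∑ b, {a | r a b}.ncard := by
  classical
  simp only [Set.ncard_eq_toFinset_card', Set.toFinset_setOf, Finset.card_filter]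
  exact Finset.sum_comm

variable {F : Type u} [Field F] {V : Type v} [AddCommGroup V] [Module F V] [Finite F]

theorem char_le_card {E : AddSubgroup F} {χ : F} (h : χ ∈ E) (h0 : χ ≠ 0) :
    ringChar F ≤ Nat.card E := by
  have : Fact (ringChar F).Prime := ⟨CharP.char_is_prime F _⟩
  rw [← addOrderOf_eq_prime (p := ringChar F) (by simp) h0]
  exact E.addOrderOf_le_card (Set.toFinite _) h

theorem char_mul_sqs : Nat.card F + 2 ≤ ringChar F * ((sqs F).ncard + 1) ∧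
    (4 ≤ Nat.card F → Nat.card F + 2 ≤ ringChar F * (sqs F).ncard) := by
  have hp : Fact (ringChar F).Prime := ⟨CharP.char_is_prime F _⟩
  obtain ⟨h1, h2⟩ := card_sqs (F := F)
  have h3 := one_lt_q F
  obtain ⟨k, hk⟩ : ringChar F ∣ Nat.card F := Ctx.char_dvd_card
  rcases hp.out.two_le.eq_or_lt with h | h
  · have := h2 (by simpa [← h] using CharP.cast_eq_zero F (ringChar F))
    rw [← h]
    omega
  rcases (show ringChar F = 3 ∨ 4 ≤ ringChar F by omega) with h | h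
  · rw [h] at hk ⊢
    omega
  · exact ⟨le_trans (by omega) (Nat.mul_le_mul_right _ h),
      fun _ => le_trans (by omega) (Nat.mul_le_mul_right _ h)⟩

namespace Ctx

variable {P : PQ (RingHom.id F) V} {C : Ctx P} {Ω : Type*} [MulAction C.K Ω]
  [FiniteDimensional F V] {r c : ℕ} (h : C.SH Ω r c) {x : V} {ω : Ω}
include h

theorem SH.fx_smul {y : V} (hy : C.Fx y ω) (t : F) : C.Fx (t • y) ω :=
  h.fx_iff.2 fun d => by rw [h.z_smul]; exact h.fx_iff.1 hy _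

theorem SH.fx_map {y : V} (hy : C.Fx y ω) {g : C.K} (hg : g • ω = ω) : C.Fx (g.1 y) ω :=
  hg ▸ hy.map (h.pt y) g

theorem SH.fx_add {y y' : V} (hy : C.Fx y ω) (hy' : C.Fx y' ω) (hB : P.B y' y ≠ 0) (s : F) :
    C.Fx (y + s • y') ω := by
  have := h.fx_map hy (h.fx_iff.1 hy' (-s / P.B y' y))
  rwa [h.z_apply, div_mul_cancel₀ _ hB, neg_smul, sub_neg_eq_add] at this

theorem SH.fx_two {v : V} (hv : C.Fx v ω) (xv : P.B x v = 0) {τ : F} (hτ : τ ≠ 0)
    (hv' : C.Fx (v + τ • x) ω) (e : F) : C.el x (-e • v) (τ * e) • ω = ω := by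
  have h1 := h.fx_iff.1 hv' (e / τ)
  rw [add_comm, h.z_add (by simp [bl, xv]), mul_smul, h.fx_iff.1 hv,
    el_smul_left (h.pt x) (h.val (by simp [xv]) _)] at h1
  convert h1 using 3
  · simp [smul_smul]; field_simp
  · simp; field_simp

theorem SH.fx_three {v : V} (hv : C.Fx v ω) (xv : P.B x v = 0) {τ τ' : F} (hτ : τ ≠ 0)
    (hτ' : τ' ≠ 0) (hne : τ ≠ τ') (h1 : C.Fx (v + τ • x) ω) (h2 : C.Fx (v + τ' • x) ω) :
    C.Fx x ω := h.fx_iff.2 fun d => by
  have := h.st_sub (by simp [xv]) (by simp [xv]) (h.fx_two hv xv hτ h1 (d / (τ - τ')))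
    (h.fx_two hv xv hτ' h2 (d / (τ - τ')))
  rwa [sub_self, h.bb, add_zero, ← sub_mul, mul_div_cancel₀ _ (sub_ne_zero.2 hne)] at this

theorem SH.fx_of_sq {d : F} (hd : d ≠ 0) (H : ∀ β : F, C.el x 0 (β * β * d) • ω = ω) :
    C.Fx x ω := fun e _ => mem_of_sq hd (fun β => mem_Z.2 ⟨h.hΛ _, H β⟩) e

theorem SH.perp_le_D (h2 : (2 : F) ≠ 0) (hm : ¬ C.Fx x ω) {S : Submodule F V}
    (hS : ∀ v ∈ C.D x ω, v ∈ S) {b : V} (hb : b ∈ P.perp S) : b ∈ C.D x ω :=
  mem_D.2 fun a ha => by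
    by_cases k : P.B a b = 0
    · rw [k]; exact zero_mem _
    refine absurd (fun d _ => ?_) hm
    have := comm_mem_Z ha (mem_A_of_orth (a := (d / (-2 * P.B a b)) • b) fun v hv => by
      rw [bl, P.B_eq_zero_comm.1 (hb v (hS v hv)), mul_zero])
    convert this using 1
    rw [h.hε, bl, h.bs a b, map_smul, smul_eq_mul]
    field_simp; ring

theorem SH.exists_off (x : V) : ∃ y, P.B x y = 0 ∧ y ∉ span F {x} := by
  obtain ⟨y, hy, hy'⟩ := exists_mem_notMem (W := P.perp (span F {x})) (W' := span F {x}) (by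
    have := P.finrank_perp C.nondeg (span F {x})
    have := finrank_one_le (F := F) x
    have := h.h4
    omega)
  exact ⟨y, P.mem_perp_span_singleton.1 hy, hy'⟩

theorem SH.fx_of_short (key : ∀ y, P.B x y = 0 → y ∉ span F {x} → C.el x y 0 • ω = ω) :
    C.Fx x ω := by
  obtain ⟨y, hy, hy'⟩ := h.exists_off x
  obtain ⟨y', k1, k2, -⟩ := dual (x := x) (w := x) (u := y) (by simpa using hy') C
  refine h.fx_iff.2 fun d => ?_
  by_cases hd : d = 0
  · rw [hd, el_zero, one_smul]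
  have ns : ∀ u, P.B u y ≠ 0 → u ∉ span F {x} := fun u k j => by
    obtain ⟨t, rfl⟩ := mem_span_singleton.1 j
    exact k (by simp [hy])
  have k3 := h.st_mul (by simp [k2]) hy (key (d • y') (by simp [k2]) (ns _ (by simp [k1, hd])))
    (key y hy hy')
  simpa [k1, h.bb, h.bs y' y] using h.st_sub (by simp [k2, hy]) (by simp [k2, hy]) (key (d • y' + y)
    (by simp [k2, hy]) (ns _ (by simp [k1, hd, h.bb]))) k3

theorem SH.theta_conj (h2 : (2 : F) = 0) (hD : ∀ v ∈ C.D x ω, v ∈ span F {x}) {y : V}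
    (xy : P.B x y = 0) (hy : y ∉ span F {x}) {u e : F} (he : C.el y (u • x) e • ω = ω) (β : F) :
    C.el x ((e * β) • y) (e * β * β) • ω = ω := by
  obtain ⟨a, k1, k2, -⟩ := dual (x := x) (w := x) (u := y) (by simpa using hy) C
  have yx := P.B_eq_zero_comm.1 xy
  have ya : P.B y a = -1 := by rw [h.bs, k1]
  obtain ⟨d, hd⟩ := h.exists_st hD (a := -β • a) (by simp [k2])
  have k3 := h.st_conj he one_ne_zero (by
    rw [h.el_left (by simp [yx]) e yx, bl, h.bb]; simp) (by simp [k2]) hd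
  rw [one_smul, h.el_apply (by simp [yx]), smul_smul, h.shift (by simp [k2, xy]), h2] at k3
  convert h.st_sub (by simp [k2]) (by simp [k2, xy]) hd k3 using 3
  · simp [k2, ya, bl]
  · simp [k2, ya, bl, h.bb, k1, mul_comm]

theorem SH.theta_uniq (h2 : (2 : F) = 0) (hm : ¬ C.Fx x ω) (hD : ∀ v ∈ C.D x ω, v ∈ span F {x})
    {y : V} (xy : P.B x y = 0) (hy : y ∉ span F {x}) {u u' e e' : F}
    (he : C.el y (u • x) e • ω = ω) (he' : C.el y (u' • x) e' • ω = ω) (h0 : e ≠ 0) (h0' : e' ≠ 0) :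
    e = e' := by
  by_contra hne
  refine hm (h.fx_of_sq (d := e * (e' - e) / e') (by simp [h0, h0', sub_ne_zero, Ne.symm hne])
    fun β => ?_)
  have := h.st_sub (by simp [xy]) (by simp [xy]) (h.theta_conj h2 hD xy hy he β)
    (h.theta_conj h2 hD xy hy he' (e * β / e'))
  rw [mul_div_cancel₀ _ h0', sub_self, h.bb] at this
  convert this using 3
  field_simp; ring

theorem SH.not_all_theta (h2 : (2 : F) = 0) (hr : 3 ≤ r) (hx0 : x ≠ 0)
    (hall : ∀ y, y ≠ 0 → ¬ C.Fx y ω → ∀ v ∈ C.D y ω, v ∈ span F {y}) : C.Fx x ω := by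
  by_contra hm
  obtain ⟨μ, hμ0, hμ⟩ := exists_mul_self_ne_one (F := F) (by rw [h.hq]; omega)
  refine hm (h.fx_of_short fun y xy hy => ?_)
  have yx := P.B_eq_zero_comm.1 xy
  have hy0 : y ≠ 0 := fun k => hy (k ▸ zero_mem _)
  have hym : ¬ C.Fx y ω := fun k => hμ (h.theta_uniq h2 hm (hall x hx0 hm) xy hy (u := 0) (u' := 0)
    (by simpa using h.fx_iff.1 k _) (by simpa using h.fx_iff.1 k _) (mul_ne_zero hμ0 hμ0)
    one_ne_zero)
  obtain ⟨e, he⟩ := h.exists_st (hall y hy0 hym) yx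
  have he0 : e = 0 := by
    by_contra k
    have k1 := h.theta_conj h2 (hall x hx0 hm) xy hy (u := 1) (by simpa using he)
    exact hμ (mul_left_cancel₀ k (by simpa [mul_assoc] using (h.theta_uniq h2 hym (hall y hy0 hym)
      yx (notMem_swap hx0 hy) (k1 μ) (k1 1) (by simp [k, hμ0]) (by simp [k]))))
  rw [el_swap (h.pt x) (h.pt y) xy, h.hε]
  simpa [he0] using he

variable [Finite Ω]

theorem SH.mv_cnt (hx0 : x ≠ 0) {w : V} (hw : w ∉ span F {x}) (xw : P.B x w = 0) :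
    (C.ob2 Ω x (¬ C.Fx x ·) (w, 0)).ncard * ringChar F * c ≤ Nat.card Ω := by
  have := C.finite_V
  have := Fintype.ofFinite V
  have := Fintype.ofFinite F
  have := Fintype.ofFinite (Quotient (C.rel Ω x))
  have hPr := inv_not_fx (Ω := Ω) (h.pt x)
  have h1 : ∑ s, C.sl Ω x (¬ C.Fx x ·) s = (r + 1) * {ω : Ω | ¬ C.Fx x ω}.ncard := by
    simp only [sl, finsum_eq_sum_of_fintype]
    rw [← Fintype.sum_prod_type_right (f := fun p => (C.ob2 Ω x (¬ C.Fx x ·) p).ncard)]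
    refine sum_objs (fun a b k => by rw [D_congr (h.pt x) k, E_congr (h.pt x) k])
      (fun a b k k' => hPr.rel (h.pt x) k k') fun ω _ => ?_
    apply Nat.eq_of_mul_eq_mul_right (Nat.card_pos (α := P.Λ))
    rw [Set.ncard_prod, ← Nat.card_coe_set_eq, ← Nat.card_coe_set_eq, SetLike.coe_sort_coe,
      SetLike.coe_sort_coe, card_D_mul_E, h.hk hx0]
    ring
  have h2 := two_le_sum (fun o => {s | o ∈ C.ob2 Ω x (¬ C.Fx x ·) (w, s)}.ncard)
    (T₁ := C.ob2 Ω x (¬ C.Fx x ·) (w, 0)) (T₂ := ∅) (μ₁ := ringChar F) (μ₂ := 0) (by simp) (by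
      rintro _ ⟨ω, rfl, k1, k2, -⟩
      obtain ⟨χ, k3, k4⟩ := h.exists_E k1
      exact (char_le_card k3 k4).trans (Set.ncard_le_ncard fun s hs => mk_mem_ob2 k1 k2 hs))
    (by simp)
  rw [← sum_ncard_comm fun s o => o ∈ C.ob2 Ω x (¬ C.Fx x ·) (w, s)] at h2
  have h3 := Finset.sum_le_sum (s := Finset.univ) fun s _ => h.le_sl (s := s) hx0 fun v hv => by
    simpa using h.M_le hx0 hPr hw xw hv s (Or.inr ⟨1, one_ne_zero, rfl⟩)
  rw [h1, ← Finset.sum_mul] at h3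
  refine (Nat.le_of_mul_le_mul_left ?_ r.succ_pos).trans (ncard_le_card' {ω : Ω | ¬ C.Fx x ω})
  refine le_trans ?_ ((Nat.mul_le_mul_right _ h2).trans h3)
  simp only [Nat.succ_eq_add_one]
  exact le_of_eq (by ring)

variable (hN : r * Nat.card Ω + 1 < (r + 1) ^ 2 * c)
include hN

theorem SH.mv_lt (hx0 : x ≠ 0) {w : V} (hw : w ∉ span F {x}) (xw : P.B x w = 0) :
    (C.ob2 Ω x (¬ C.Fx x ·) (w, 0)).ncard * ringChar F < Nat.card F + 2 := by
  by_contra k
  have h1 := (Nat.mul_le_mul_right c (not_lt.1 k)).trans (h.mv_cnt hx0 hw xw)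
  rw [h.hq] at h1
  have := h.r_pos
  nlinarith [Nat.mul_le_mul_left r h1, Nat.mul_le_mul_right c this]

theorem SH.rel_z (hx0 : x ≠ 0) (hm : ¬ C.Fx x ω) {w y : V} (hw : w ∈ C.D x ω)
    (hw' : w ∉ span F {x}) (xy : P.B x y = 0) (wy : P.B w y = 0) (d : F) :
    C.rel Ω x (C.el y 0 d • ω) ω := by
  by_contra hn
  have h1 := h.tor (inv_not_fx (h.pt x)) (mk_mem_ob2 hm hw (zero_mem _)) (D_orth (h.pt x) hw)
    xy wy hn
  have h2 := h.mv_lt hN hx0 hw' (D_orth (h.pt x) hw)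
  nlinarith [char_mul_sqs (F := F).1, Nat.mul_le_mul_right (ringChar F) h1]

theorem SH.big_or (hx0 : x ≠ 0) (hm : ¬ C.Fx x ω) {w : V} (hw : w ∈ C.D x ω) :
    (∀ v, P.B x v = 0 → v ∈ C.D x ω) ∨ w ∈ span F {x} ∨ ∀ v ∈ C.D x ω, v ∈ span F {x, w} := by
  by_contra k
  push Not at k
  obtain ⟨⟨v, k1, k2⟩, k3, u, k4, k5⟩ := k
  exact k2 (h.gen_D (fun w j1 j2 y j3 j4 u j5 d => h.z_mem j3 (h.rel_z hN hx0 hm j1 j2 j3 j4 d) j5)
    hw k3 k4 k5 k1)

theorem SH.fat_of_two (h2 : (2 : F) = 0) (hx0 : x ≠ 0) (hm : ¬ C.Fx x ω) {w : V}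
    (hw : w ∈ C.D x ω) (hw' : w ∉ span F {x}) (hD : ∀ v ∈ C.D x ω, v ∈ span F {x, w}) (t : F) :
    t • w ∈ C.D x ω := by
  by_contra hn
  have := C.finite_V
  have xw := D_orth (h.pt x) hw
  obtain ⟨χ, hχ, hχ0⟩ := h.exists_E hm
  have hPr := inv_mv (Ω := Ω) (h.pt x) (· ≤ Nat.card (C.D x ω))
  obtain ⟨j, hj⟩ := Nat.exists_eq_add_of_le' ((h.card_line hx0).ge.trans
    (Set.ncard_le_ncard (t := C.D x ω) fun v hv => mem_D_of_mem ω (mem_sup_right hv)))
  have hle : C.D x ω ≤ (span F {x, w}).toAddSubgroup := hD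
  have h1 : 2 * Nat.card (C.D x ω) ≤ (r + 1) ^ 2 := by
    obtain ⟨i, hi⟩ := AddSubgroup.card_dvd_of_le hle
    have k1 : i ≠ 1 := fun k => hn ((AddSubgroup.eq_of_le_of_card_ge hle (by rw [hi, k, mul_one])).ge
      (smul_mem (span F {x, w}) t (subset_span (by simp))))
    have k2 := (card_le_pow (A := (span F {x, w}).toAddSubgroup) fun _ k => k).trans
      (Nat.pow_le_pow_right Nat.card_pos (finrank_two_le x w))
    have k3 : i ≠ 0 := fun k => Nat.card_pos.ne' (by simpa [k] using hi)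
    rw [hi, h.hq] at k2
    exact le_trans (by rw [mul_comm]; exact Nat.mul_le_mul_left _ (by omega)) k2
  have h3 := sl_two (h.pt x) hPr (h.hk hx0) (S₁ := Set.univ) (S₂ := ∅) (μ₂ := 0)
    (μ₁ := Nat.card Ω + 1) (by simp) (fun s _ => by
      have k1 : ∀ v, P.B x v = 0 ∧ v ∉ span F {x} → 1 ≤ _ := fun v hv =>
        ((one_le_ob2 ⟨hm, le_rfl⟩ hw hχ).trans (h.even_le h2 hx0 hPr hw' xw hχ0 s)).trans (by
          simpa using h.M_le hx0 hPr hw' xw hv.1 s (Or.inr ⟨1, one_ne_zero, rfl⟩))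
      have k2 := mul_le_ob2_zero (h.pt x) hPr (j := j) (fun v hv => hv.2) k1 fun ω' k =>
        k.2.trans_eq (hj.trans (by rw [h.card_line hx0]))
      refine le_trans ?_ (two_le_sl (T₂ := span F {x}) (Set.disjoint_left.2 fun v j1 j2 => j1.2 j2)
        k1 fun v hv => ob2_mono (v := 0) fun ω' _ j => ⟨mem_D_of_mem ω' (mem_sup_right hv), j⟩)
      rw [h.card_line hx0, one_mul]
      exact spA (h.card_off hx0) (by rwa [mul_one] at k2) (by rw [← hj]; exact h1) hN h.c_ge h.r_pos) (by simp)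
  rw [Set.ncard_univ, h.hq] at h3
  nlinarith [ncard_le_card' {ω' : Ω | ¬ C.Fx x ω' ∧ Nat.card (C.D x ω') ≤ Nat.card (C.D x ω)}]

end Ctx

end CfsgLib.MinIdx
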