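import Mathlib
import Cfsg.Agent.Lib.MinIdx.SpK

/-!
Symplectic groups over fields with at least three elements acting on a small set: the point
stabiliser contains many full transvection groups.
-/

set_option autoImplicit false
set_option linter.unusedSectionVars false

namespace CfsgLib.MinIdx

open CfsgLib.Forms CfsgLib.RootMax Module Submodule

universe u v

variable {F : Type u} [Field F] {V : Type v} [AddCommGroup V] [Module F V] [Finite F]

theorem three_eq_zero_of_card (hF : Nat.card F = 3) : (3 : F) = 0 := by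
  have := Fintype.ofFinite F
  simpa [← Nat.card_eq_fintype_card, hF] using FiniteField.cast_card_eq_zero F

theorem two_ne_zero_of_card (hF : Nat.card F = 3) : (2 : F) ≠ 0 := fun h =>
  one_ne_zero (by linear_combination three_eq_zero_of_card hF - h : (1 : F) = 0)

namespace Ctx

variable {P : PQ (RingHom.id F) V} {C : Ctx P} {Ω : Type*} [MulAction C.K Ω]
  [FiniteDimensional F V] {r c : ℕ} (h : C.SH Ω r c) {x : V} {ω : Ω} {k : C.K} {t : F}
  [Finite Ω]

variable (C) in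
/-- An element fixing `ω`, scaling `x` nontrivially and acting trivially on `x^⊥ / x`. -/
structure Tor (x : V) (ω : Ω) (k : C.K) (t : F) : Prop where
  fix : k • ω = ω
  t0 : t ≠ 0
  t1 : t ≠ 1
  kx : k.1 x = t • x
  rep : ∀ v, P.B x v = 0 → ∃ τ : F, k.1 (v + τ • x) = v + τ • x

theorem Tor.orth (hk : C.Tor x ω k t) {v : V} (hv : k.1 v = v) : P.B x v = 0 := by
  have := B_map k x v
  rw [hv, hk.kx, bl] at this
  exact (mul_left_eq_self₀.1 this).resolve_left hk.t1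

theorem Tor.eq_zero (hk : C.Tor x ω k t) {v : V} (hv : k.1 v = v) (hv' : v ∈ span F {x}) :
    v = 0 := by
  obtain ⟨s, rfl⟩ := mem_span_singleton.1 hv'
  rw [map_smul, hk.kx, smul_comm] at hv
  exact (smul_eq_zero_iff_right (sub_ne_zero.2 hk.t1)).1 (by rw [sub_smul, hv, one_smul, sub_self])

include h

theorem SH.conj_el (hk : C.Tor x ω k t) {a : V} (ha : k.1 a = a) (d : F) :
    k * C.el x a d * k⁻¹ = C.el x (t • a) (t * t * d) := by
  rw [el_conj k (h.pt x) (h.val (hk.orth ha) d), hk.kx, ha,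
    el_smul_left (h.pt x) (h.val (hk.orth ha) d)]
  rfl

theorem SH.exists_rep (hk : C.Tor x ω k t) {a : V} (ha : P.B x a = 0) (d : F) :
    ∃ a' d', k.1 a' = a' ∧ C.el x a d = C.el x a' d' :=
  let ⟨τ, h1⟩ := hk.rep a ha
  ⟨_, d + 2 * τ, h1, by rw [h.shift ha, add_sub_cancel_right]⟩

theorem SH.fix_of_tor (hx0 : x ≠ 0) (hk : C.Tor x ω k t) (ht : t * t ≠ 1) {g : C.K}
    (hg : k * g * k⁻¹ = g) (H : C.rel Ω x (g • ω) ω) : g • ω = ω := by
  have := finite_K (C := C)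
  obtain ⟨a, d, h1, h2⟩ := exists_fix_of_rel H
  refine mem_of_fpf (H := MulAction.stabilizer C.K ω) hk.fix
    (fun _ => conj_mem_range (h.pt x) hk.t0 hk.kx) ?_ hg (el_mem_range h1) h2
  rintro _ ⟨⟨⟨b, e⟩, h3⟩, rfl⟩ h4
  obtain ⟨b', e', h5, h6⟩ := h.exists_rep hk h3.2.1 e
  change C.el x b e = 1
  change k * C.el x b e * k⁻¹ = C.el x b e at h4
  rw [h6] at h4 ⊢
  have h7 := hk.orth h5
  obtain ⟨v, hv, -⟩ := P.exists_dual_vec C.nondeg ⊥ hx0
  replace hv : P.B x v = -1 := by rw [h.bs, hv]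
  have h8 := congrArg (fun g : C.K => g.1 v) h4
  simp only [h.conj_el hk h5, h.el_apply h7, h.el_apply (show P.B x (t • b') = 0 by simp [h7]),
    hv] at h8
  obtain rfl : b' = 0 := hk.eq_zero h5 ((smul_mem_iff _ (sub_ne_zero.2 hk.t1)).1
    (mem_span_singleton.2 ⟨P.B (t • b') v + t * t * e' - (P.B b' v + e'), by
      linear_combination (norm := module) h8⟩))
  rw [(mul_left_eq_self₀.1 (show t * t * e' = e' by simpa [hx0] using h8)).resolve_left ht, el_zero]

theorem SH.z_comm {y : V} (hy : k.1 y = y) (d : F) : k * C.el y 0 d * k⁻¹ = C.el y 0 d := by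
  rw [h.z_conj, hy]

theorem SH.A_le (hD : ∀ v, P.B x v = 0 → v ∈ C.D x ω) {a : V} {d : F} (ha : P.B x a = 0)
    (H : C.el x a d • ω = ω) : a ∈ span F {x} :=
  h.mem_span_of_orth fun _ hv => B_zero_of_mem_A (U := P.perp (span F {x}))
    (fun s hs => hD s (P.mem_perp_span_singleton.1 hs)) ⟨d, h.val ha d, H⟩
    (P.mem_perp_span_singleton.2 hv)

theorem SH.exists_z (hk : C.Tor x ω k t) (hD : ∀ v, P.B x v = 0 → v ∈ C.D x ω) {g : C.K}
    (hg : k * g * k⁻¹ = g) (H : C.rel Ω x (g • ω) ω) : ∃ d, (C.el x 0 d * g) • ω = ω := by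
  obtain ⟨a, d, h1, h2⟩ := exists_fix_of_rel H
  obtain ⟨b, e, h5, h6⟩ := h.exists_rep hk h1.2.1 d
  rw [h6] at h2
  have h7 := hk.orth h5
  have h3 : (C.el x (t • b) (t * t * e) * (C.el x b e)⁻¹) • ω = ω := by
    have := mul_mem (mul_mem (mul_mem (MulAction.mem_stabilizer_iff.2 hk.fix) h2)
      (inv_mem (MulAction.mem_stabilizer_iff.2 hk.fix))) (inv_mem (MulAction.mem_stabilizer_iff.2 h2))
    rwa [show k * (C.el x b e * g) * k⁻¹ = k * C.el x b e * k⁻¹ * (k * g * k⁻¹) by group, hg,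
      mul_inv_rev, mul_assoc _ g, mul_inv_cancel_left, h.conj_el hk h5] at this
  rw [el_inv (h.val h7 e), el_mul (h.val (by simp [h7]) _) (h.val (by simp [h7]) _)] at h3
  obtain rfl : b = 0 := hk.eq_zero h5 ((smul_mem_iff _ (sub_ne_zero.2 hk.t1)).1 (by
    simpa [sub_smul, sub_eq_add_neg, add_smul] using h.A_le hD (by simp [h7]) h3))
  exact ⟨e, h2⟩

variable (hN : r * Nat.card Ω + 1 < (r + 1) ^ 2 * c)
include hN

theorem SH.exists_tor (hr : 2 ≤ r) (hx0 : x ≠ 0) (hm : ¬ C.Fx x ω) {w : V}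
    (hw : ∀ s : F, s • w ∈ C.D x ω) (hw' : w ∉ span F {x}) :
    ∃ k t, C.Tor x ω k t ∧ (3 ≤ r → t * t ≠ 1) := by
  have xw : P.B x w = 0 := by simpa using D_orth (h.pt x) (hw 1)
  obtain ⟨x', h1, h2, -⟩ := dual (x := w) (w := w) (u := x) (by simpa using notMem_swap hx0 hw') C
  choose! g g1 g2 using fun s (hs : s ≠ 0) => h.dil h1 hs
  have h3 : ∀ s, s ≠ 0 → Quotient.mk _ (g s • ω) ∈ C.ob2 Ω x (¬ C.Fx x ·) (w, 0) := fun s hs =>
    mk_mem_ob2 (inv_not_fx (h.pt x) _ _ _ hs (g1 s hs) hm) (by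
      simpa [g2 s hs w xw (P.B_eq_zero_comm.1 h2), hs] using D_twist (g := g s) (h.pt x)
        (inv_ne_zero hs) (by rw [g1 s hs, inv_inv]) (hw s)) (zero_mem _)
  have h4 := h.mv_lt hN hx0 hw' xw
  obtain ⟨s, s', hs, hs', k1, k2, k3⟩ : ∃ s s', s ≠ 0 ∧ s' ≠ 0 ∧ s ≠ s' ∧ (3 ≤ r → s * s ≠ s' * s') ∧
      C.rel Ω x (g s • ω) (g s' • ω) := by
    rcases hr.eq_or_lt with rfl | hr
    · have k1 : ringChar F = 3 := CharP.ringChar_of_prime_eq_zero Nat.prime_three
        (by simpa using three_eq_zero_of_card h.hq)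
      rw [k1, h.hq] at h4
      exact ⟨-1, 1, by simp, by simp, fun k => two_ne_zero_of_card h.hq (by linear_combination -k),
        by simp, rel_of_ncard_le_one (by omega) (h3 _ (by simp)) (h3 _ (by simp))⟩
    by_contra k
    push Not at k
    choose! f f1 f2 using fun a (ha : a ∈ sqs F) => ha
    have k1 := Set.ncard_le_ncard_of_injOn (s := sqs F) (fun a => Quotient.mk _ (g (f a) • ω))
      (fun a ha => h3 _ (f1 a ha)) fun a ha b hb j => by
        by_contra j1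
        rw [← f2 a ha, ← f2 b hb] at j1
        exact k _ _ (f1 a ha) (f1 b hb) (fun j2 => j1 (by rw [j2])) (fun _ => j1) (Quotient.exact j)
    nlinarith [char_mul_sqs (F := F).2 (by rw [h.hq]; omega), Nat.mul_le_mul_right (ringChar F) k1]
  have gi := inv_twist hs' (g1 s' hs')
  have k4 := rel_smul (h.pt x) (inv_ne_zero hs') gi k3
  rw [inv_smul_smul, ← mul_smul] at k4
  obtain ⟨a, d, k5, k6⟩ := exists_fix_of_rel k4
  have k7 : (C.el x a d * ((g s')⁻¹ * g s)).1 x = (s / s') • x := by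
    rw [mul_apply', mul_apply', g1 s hs, map_smul, gi, smul_smul, map_smul,
      el_apply_self (h.pt x) k5, div_eq_mul_inv]
  have k8 : s / s' ≠ 1 := by rwa [Ne, div_eq_one_iff_eq hs']
  refine ⟨_, s / s', ⟨k6, div_ne_zero hs hs', k8, k7, fun v hv => ?_⟩, fun j1 j2 => k2 j1 ?_⟩
  · have j1 : P.B x (v - P.B x' v • x) = 0 := by simp [hv, h.bb]
    have j2 : P.B x' (v - P.B x' v • x) = 0 := by simp [h1]
    refine ⟨P.B a (v - P.B x' v • x) / (1 - s / s') - P.B x' v, ?_⟩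
    rw [sub_smul, add_sub, add_sub_right_comm, map_add, map_smul, k7, mul_apply', mul_apply',
      g2 s hs _ j1 j2, inv_apply_eq' (g2 s' hs' _ j1 j2), h.el_left k5.2.1 d j1]
    have := sub_ne_zero.2 k8.symm
    match_scalars <;> field_simp <;> ring
  · field_simp at j2
    linear_combination j2

theorem SH.rel_big (hx0 : x ≠ 0) (hm : ¬ C.Fx x ω) (hD : ∀ v, P.B x v = 0 → v ∈ C.D x ω) {y : V}
    (xy : P.B x y = 0) (d : F) : C.rel Ω x (C.el y 0 d • ω) ω := by
  by_cases hy : y ∈ span F {x}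
  · obtain ⟨s, rfl⟩ := mem_span_singleton.1 hy
    rw [h.z_smul]
    exact rel_el (h.val (by simp) _) ω
  · exact h.rel_z hN hx0 hm (hD y xy) hy xy (h.bb y) d

theorem SH.fx_three_field (hr : r = 2) (h6 : 6 ≤ finrank F V) (hx0 : x ≠ 0) (hm : ¬ C.Fx x ω)
    (hD : ∀ v, P.B x v = 0 → v ∈ C.D x ω) (hk : C.Tor x ω k t) {y : V} (hy : k.1 y = y) :
    C.Fx y ω := by
  have hF : Nat.card F = 3 := by rw [h.hq, hr]
  have hz : ∀ y, k.1 y = y → ∀ δ, ∃ d, (C.el x 0 d * C.el y 0 δ) • ω = ω := fun y hy δ =>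
    h.exists_z hk hD (h.z_comm hy δ) (h.rel_big hN hx0 hm hD (hk.orth hy) δ)
  refine h.fx_iff.2 fun δ => ?_
  by_cases hy0 : y = 0
  · rw [hy0]; exact tyF_zero ω _ _ (val_zero_iff.2 (h.hΛ _))
  obtain ⟨d, hd⟩ := hz y hy δ
  have tr : ∀ a b, k.1 a = a → k.1 b = b → P.B a b ≠ 0 → (C.el x 0 d * C.el a 0 δ) • ω = ω →
      (C.el x 0 d * C.el b 0 δ) • ω = ω := fun a b ha hb hab H => by
    obtain ⟨e, he⟩ := hz (a - b) (by rw [map_sub, ha, hb]) (P.B a b)⁻¹
    have k1 := mul_mem (mul_mem (MulAction.mem_stabilizer_iff.2 he) H)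
      (inv_mem (MulAction.mem_stabilizer_iff.2 he))
    have xa := hk.orth ha
    have xb := hk.orth hb
    rwa [← conj_mul, h.z_conj, h.z_conj, mul_apply', mul_apply',
      h.z_fix (v := x) _ (by simp [xa, xb]), h.z_fix _ (h.bb x), h.z_apply (a - b), P.B_sub_left, h.bb,
      h.bs a b, zero_sub, neg_neg, inv_mul_cancel₀ hab, one_smul, sub_sub_cancel,
      h.z_fix _ (P.B_eq_zero_comm.1 xb)] at k1
  have rep : ∀ v, P.B x v = 0 → ∃ v', k.1 v' = v' ∧ ∀ a, P.B x a = 0 → P.B v' a = P.B v a :=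
    fun v hv => let ⟨τ, h1⟩ := hk.rep v hv
      ⟨_, h1, fun a ha => by simp [ha]⟩
  have xy := hk.orth hy
  obtain ⟨z, hz1, hz2⟩ := exists_mem_notMem (W := P.perp (span F {x, y})) (W' := span F {x, y}) (by
    have := P.finrank_perp C.nondeg (span F {x, y})
    have := finrank_two_le (F := F) x y
    omega)
  have xz := P.mem_perp_span.1 hz1 x (by simp)
  have yz := P.mem_perp_span.1 hz1 y (by simp)
  obtain ⟨u, u1, u2, u3⟩ := dual (x := x) (w := z) (u := y) (by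
    simpa using notMem_exchange (x := x) (w := x) (u := y) (z := z)
      (by simpa using fun j => hy0 (hk.eq_zero hy j)) (by simpa using hz2)) C
  obtain ⟨v, v1, v2, v3⟩ := dual hz2 C
  obtain ⟨z', z1, z2⟩ := rep z xz
  obtain ⟨u', u4, u5⟩ := rep u u2
  obtain ⟨v', v4, v5⟩ := rep v v2
  have xz' := hk.orth z1
  have e1 : P.B u' y = 1 := by rw [u5 y xy, u1]
  have e2 : P.B u' z' = 0 := by rw [u5 _ xz', h.bs, z2 _ u2, u3, neg_zero]
  have e3 : P.B v' z' = 1 := by rw [v5 _ xz', h.bs, z2 _ v2, ← h.bs, v1]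
  have e4 : P.B v' y = 0 := by rw [v5 _ xy, h.bs, v3, neg_zero]
  have e5 : P.B z' y = 0 := by rw [z2 _ xy, h.bs, yz, neg_zero]
  have p1 := tr _ _ hy u4 (by simp [h.bs u' y, e1]) hd
  have p2 := tr _ (y + z') u4 (by rw [map_add, hy, z1]) (by simp [e1, e2]) p1
  have p3 := tr _ (y - z') u4 (by rw [map_sub, hy, z1]) (by simp [e1, e2]) p1
  have p4 := tr _ _ v4 z1 (by simp [e3]) (tr _ _ (by rw [map_add, hy, z1]) v4
    (by rw [h.bs]; simp [e3, e4]) p2)
  have p5 : C.el x 0 (2 * d) * (C.el x 0 d * C.el (y + z') 0 δ * (C.el x 0 d * C.el (y - z') 0 δ)) =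
      C.el x 0 d * C.el y 0 δ * (C.el x 0 d * C.el y 0 δ) *
        (C.el x 0 d * C.el z' 0 δ * (C.el x 0 d * C.el z' 0 δ)) := ext' fun a => by
    simp only [mul_apply', h.z_apply, map_sub, map_add, map_smul, LinearMap.add_apply,
      LinearMap.sub_apply, smul_eq_mul, xy, xz', e5, h.bb, P.B_eq_zero_comm.1 xy,
      P.B_eq_zero_comm.1 xz', P.B_eq_zero_comm.1 e5]
    module
  have p6 := congrArg (· • ω) p5
  simp only [mul_smul (_ : C.K) (_ * _), mul_smul (_ * _ : C.K), hd, p2, p3, p4] at p6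
  by_cases h0 : d = 0
  · simpa [h0, el_zero] using hd
  refine absurd (h.fx_of_sq (mul_ne_zero (two_ne_zero_of_card hF) h0) fun β => ?_) hm
  by_cases hβ : β = 0
  · simp [hβ, el_zero]
  have := Fintype.ofFinite F
  have := FiniteField.pow_card_sub_one_eq_one β hβ
  rw [← Nat.card_eq_fintype_card, hF] at this
  rwa [← sq, this, one_mul]

end Ctx

end CfsgLib.MinIdx
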