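import Mathlib
import Cfsg.Agent.Lib.MinIdx.SpY
import Cfsg.Agent.Lib.MinIdx.SpFin2

/-!
The minimal degree of the symplectic groups over fields with at least three elements.
-/

set_option autoImplicit false
set_option linter.unusedSectionVars false

namespace CfsgLib.MinIdx

open CfsgLib.Forms CfsgLib.RootMax Module Submodule

universe u v

theorem ncard_orbit_le {G X Ω : Type*} [Group G] [Finite G] [MulAction G X] [MulAction G Ω]
    [Finite Ω] (p : X) (ω : Ω) : (MulAction.orbit G p).ncard ≤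
      (MulAction.orbit (MulAction.stabilizer G ω) p).ncard * Nat.card Ω := by
  rw [← MulAction.index_stabilizer, ← MulAction.index_stabilizer]
  have h1 := Subgroup.relIndex_mul_index
    (inf_le_right : MulAction.stabilizer G p ⊓ MulAction.stabilizer G ω ≤ _)
  rw [Subgroup.inf_relIndex_right, MulAction.index_stabilizer] at h1
  exact (index_le_of_le inf_le_left).trans (h1.ge.trans (Nat.mul_le_mul_left _ (ncard_le_card' _)))

variable {F : Type u} [Field F] {V : Type v} [AddCommGroup V] [Module F V] [Finite F]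

namespace Ctx

variable {P : PQ (RingHom.id F) V} {C : Ctx P} {Ω : Type*} [MulAction C.K Ω]
  [FiniteDimensional F V] {r c : ℕ} (h : C.SH Ω r c) {x : V} {ω : Ω} {k : C.K} {t : F}
  [Finite Ω]
include h

theorem SH.card_ne : {v : V | v ≠ 0}.ncard + 1 = (r + 1) ^ 2 * c := by
  have := C.finite_V
  have h1 := Set.ncard_add_ncard_compl ({0} : Set V)
  rw [Set.ncard_singleton, Module.natCard_eq_pow_finrank (K := F), add_comm,
    show finrank F V = finrank F V - 1 + 1 by have := h.h4; omega, pow_succ, h.hc, h.hq] at h1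
  exact h1.trans (by ring)

theorem SH.Y_inv {g : C.K} (hg : g • ω = ω) {v : V} (hv : v ∈ span F {y | C.Fx y ω}) :
    g.1 v ∈ span F {y | C.Fx y ω} :=
  span_le.2 (show _ ⊆ ((span F {y | C.Fx y ω}).comap g.1.toLinearMap : Set V) from
    fun _ hy => subset_span (h.fx_map hy hg)) hv

theorem SH.le_of_norm {T : Submodule F V} (h0 : ∀ y, C.Fx y ω → P.B x y = 0 → y ∈ T)
    (h1 : ∀ y, C.Fx y ω → P.B x y = 1 → y ∈ T) : span F {y | C.Fx y ω} ≤ T :=
  span_le.2 fun y hy => (em _).elim (h0 y hy) fun k =>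
    (smul_mem_iff T (inv_ne_zero k)).1 (h1 _ (h.fx_smul hy _) (by simp [k]))

variable (hN : r * Nat.card Ω + 1 < (r + 1) ^ 2 * c)
include hN

theorem SH.inv_false {S : Submodule F V} (hS : ∀ g : C.K, g • ω = ω → ∀ v ∈ S, g.1 v ∈ S) {a : V}
    (ha : a ∈ S) (ha0 : a ≠ 0) (h2 : finrank F S ≤ 2) : False := by
  have := C.finite_V
  have := finite_K (C := C)
  have h3 := h.card_ne
  have key : ∀ {U : Submodule F V} {j : ℕ}, U ≤ S → finrank F S ≤ j →
      ((S : Set V) \ U).ncard + (U : Set V).ncard ≤ (r + 1) ^ j := fun k1 k2 => by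
    rw [Set.ncard_diff_add_ncard_of_subset k1, ncard_submodule, h.hq]
    exact Nat.pow_le_pow_right r.succ_pos k2
  have nz : ∀ (g : C.K) {u : V}, u ≠ 0 → g.1 u ≠ 0 := fun g u hu => g.1.map_ne_zero_iff.2 hu
  by_cases hb : S ≤ span F {a}
  · have k1 := key bot_le ((Submodule.finrank_mono hb).trans (finrank_one_le a))
    have k2 := (Set.ncard_le_ncard (show {v : V | v ≠ 0} ⊆ _ from fun v hv => h.tr0 ha0 hv)).trans
      ((ncard_orbit_le (G := C.K) a ω).trans (Nat.mul_le_mul_right _ (Set.ncard_le_ncard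
        (t := (S : Set V) \ (⊥ : Submodule F V)) (by
          rintro _ ⟨g, rfl⟩; exact ⟨hS g g.2 a ha, nz g ha0⟩))))
    simp only [bot_coe, Set.ncard_singleton, pow_one, add_le_add_iff_right] at k1 k2
    nlinarith [Nat.mul_le_mul_right (Nat.card Ω) k1]
  obtain ⟨b, hb, hb'⟩ := Set.not_subset.1 hb
  have ns : ∀ g : C.K, g.1 b ∉ span F {g.1 a} := fun g k => by
    obtain ⟨s, k⟩ := mem_span_singleton.1 k
    exact hb' (mem_span_singleton.2 ⟨s, g.1.injective (by rw [map_smul, k])⟩)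
  have k1 := mul_ncard_le_of_fiber Prod.fst (MulAction.orbit C.K (a, b)) {v | v ≠ 0}
    (k := (r + 1) * (c - 1)) fun v hv => by
      obtain ⟨g, rfl⟩ := h.tr0 ha0 hv
      rw [Nat.mul_sub_one, ← h.card_off hv, Nat.add_sub_cancel]
      obtain ⟨u₀, j1⟩ : ∃ u₀, ∀ u, P.B (g.1 a) u = 0 ∧ u ∉ span F {g.1 a} →
          u + u₀ ∉ span F {g.1 a} ∧ P.B (g.1 a) (u + u₀) = P.B (g.1 a) (g.1 b) := by
        by_cases j : P.B (g.1 a) (g.1 b) = 0
        · exact ⟨0, fun u hu => by simpa [j] using hu.symm⟩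
        refine ⟨g.1 b, fun u hu => ⟨fun j1 => ?_, by simp [hu.1]⟩⟩
        obtain ⟨s, j1⟩ := mem_span_singleton.1 j1
        simpa [h.bb, hu.1, Ne.symm j] using congrArg (P.B (g.1 a)) j1
      refine Set.ncard_le_ncard_of_injOn (fun u => (g.1 a, u + u₀)) (fun u hu => ⟨?_, rfl⟩)
        fun _ _ _ _ k => by simpa using k
      obtain ⟨g', j2, j3⟩ := h.witt _ (ns g) (j1 u hu).1 fun s hs => by
        obtain ⟨s, rfl⟩ := mem_span_singleton.1 hs
        rw [bl, bl, (j1 u hu).2]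
      exact ⟨g' * g, Prod.ext (j2 _ (mem_span_singleton_self _)) j3⟩
  have k2 := card_le_mul_of_fiber (fun p : MulAction.orbit (MulAction.stabilizer C.K ω) (a, b) =>
    p.1.1) ((S : Set V) \ (⊥ : Submodule F V)) (Set.toFinite _) (by
      rintro ⟨_, g, rfl⟩; exact ⟨hS g g.2 a ha, nz g ha0⟩) ((r + 1) * r) (by
      rintro ⟨_, g, rfl⟩
      have j1 := key ((span_singleton_le_iff_mem _ _).2 (hS g g.2 a ha)) h2
      rw [h.card_line (nz g ha0)] at j1
      refine le_trans (Set.ncard_le_ncard_of_injOn (t := (S : Set V) \ span F {g.1.1 a})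
        (fun p => p.1.2) ?_ fun p hp p' hp' k => Subtype.ext (Prod.ext (hp.trans hp'.symm) k))
        (by nlinarith)
      rintro ⟨_, g', rfl⟩ (k : g'.1.1 a = g.1.1 a)
      exact ⟨hS g' g'.2 b hb, k ▸ ns g'⟩)
  have k3 := key bot_le h2
  have k4 := (k1.trans (Set.ncard_le_ncard fun _ k => k.1)).trans ((ncard_orbit_le (G := C.K)
    (a, b) ω).trans (Nat.mul_le_mul_right _ k2))
  obtain ⟨e, rfl⟩ := Nat.exists_eq_add_of_le' ((Nat.one_le_pow _ _ r.succ_pos).trans h.c_ge)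
  have k5 : r * (r + 2) ≤ e := by nlinarith [h.c_ge]
  simp only [bot_coe, Set.ncard_singleton, Nat.add_sub_cancel] at k3 k4
  have k6 : r * (r + 2) * ((r + 1) * {v : V | v ≠ 0}.ncard) ≤
      r * (r + 2) * ((r + 1) * (r * Nat.card Ω)) := by
    calc _ ≤ e * ((r + 1) * {v : V | v ≠ 0}.ncard) := Nat.mul_le_mul_right _ k5
      _ ≤ _ := (by ring : _ = _).trans_le k4
      _ ≤ (r + 1) * r * (r * (r + 2)) * Nat.card Ω := by gcongr; nlinarith
      _ = _ := by ring
  have k7 := Nat.le_of_mul_le_mul_left (Nat.le_of_mul_le_mul_left k6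
    (Nat.mul_pos h.r_pos (by omega))) r.succ_pos
  omega

theorem SH.big_false (hx0 : x ≠ 0) (hm : ¬ C.Fx x ω) (hD : ∀ v, P.B x v = 0 → v ∈ C.D x ω)
    (hk : C.Tor x ω k t) (hY : ∀ y, k.1 y = y → C.Fx y ω) : False := by
  let U := LinearMap.eqLocus k.1.toLinearMap LinearMap.id
  have n0 : ∀ v (τ : F), k.1 v = v → C.Fx (v + τ • x) ω → τ = 0 := fun v τ hv H => by
    by_contra hτ
    have := hk.eq_zero hv (by
      simpa using h.A_le hD (by simp [hk.orth hv]) (h.fx_two (hY v hv) (hk.orth hv) hτ H 1))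
    exact hm (by simpa [this, hτ] using h.fx_smul H τ⁻¹)
  have n1 : ∀ y, C.Fx y ω → P.B x y = 0 → y ∈ U := fun y hy xy => by
    obtain ⟨τ, k1⟩ := hk.rep y xy
    have := n0 _ (-τ) k1 (by simpa using hy)
    rwa [neg_eq_zero.1 this, zero_smul, add_zero] at k1
  obtain ⟨T, h1, h2⟩ : ∃ T : Submodule F V, span F {y | C.Fx y ω} ≤ T ∧ x ∉ T := by
    by_cases H : ∃ y, C.Fx y ω ∧ P.B x y = 1
    swap
    · exact ⟨U, h.le_of_norm n1 fun y k1 k2 => absurd ⟨y, k1, k2⟩ H,
        fun j => hx0 (hk.eq_zero j (mem_span_singleton_self x))⟩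
    obtain ⟨y, hy, xy⟩ := H
    refine ⟨U ⊔ span F {y}, h.le_of_norm (fun z k1 k2 => mem_sup_left (n1 z k1 k2))
      fun z hz xz => mem_sup_one.2 ⟨z - y, ?_, 1, by simp⟩, fun j => ?_⟩
    · by_cases k1 : P.B y z = 0
      swap
      · exact n1 _ (by simpa [sub_eq_add_neg] using h.fx_add hz hy k1 (-1)) (by simp [xy, xz])
      obtain ⟨τ, k2⟩ := hk.rep (z - y) (by simp [xy, xz])
      have k3 : P.B y (z - y + τ • x) = -τ := by simp [k1, h.bb, h.bs x y, xy]
      have k4 : P.B (z - y + τ • x) z = τ := by simp [k1, h.bb, xz]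
      by_cases hτ : τ = 0
      · rwa [hτ, zero_smul, add_zero] at k2
      have k5 := h.fx_add (h.fx_add hz (hY _ k2) (k4.trans_ne hτ) 1) hy (by simp [k1, k3, hτ]) (-1)
      exact absurd (n0 ((2 : F) • (z - y + τ • x)) (-τ) (by rw [map_smul, k2])
        (by convert k5 using 1; module)) (by simpa using hτ)
    · obtain ⟨u, k1, s, k2⟩ := mem_sup_one.1 j
      have k3 := congrArg (P.B x) k2
      simp only [h.bb, map_add, map_smul, hk.orth k1, xy, smul_eq_mul, mul_one, zero_add] at k3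
      rw [← k3, zero_smul, add_zero] at k2
      exact hx0 (hk.eq_zero (k2 ▸ k1) (mem_span_singleton_self x))
  obtain ⟨u, k1, k2⟩ := P.exists_dual_vec C.nondeg T h2
  refine h.inv_false hN (S := P.perp (span F {y | C.Fx y ω})) (ω := ω) (fun g hg v hv y hy => ?_)
    (a := u) (fun y hy => P.B_eq_zero_comm.1 (k2 y (h1 hy))) (by rintro rfl; simp at k1) ?_
  · rw [← apply_inv' g y, B_map]
    exact hv _ (h.Y_inv (inv_smul_eq_iff.2 hg.symm) hy)
  · have j1 := Submodule.finrank_mono (show P.perp (span F {x}) ≤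
        span F {y | C.Fx y ω} ⊔ span F {x} from fun v hv =>
      let ⟨τ, j⟩ := hk.rep v (P.mem_perp_span_singleton.1 hv)
      mem_sup_one.2 ⟨_, subset_span (hY _ j), -τ, by simp⟩)
    have := finrank_sup_le (span F {y | C.Fx y ω}) (span F {x})
    have := finrank_one_le (F := F) x
    have := P.finrank_perp C.nondeg (span F {x})
    have := P.finrank_perp C.nondeg (span F {y | C.Fx y ω})
    omega

theorem SH.line_false (hm : ¬ C.Fx x ω) (hk : C.Tor x ω k t) {y : V} (hy : k.1 y = y)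
    (hy0 : y ≠ 0) (hyD : y ∈ C.D x ω) (hD : ∀ v ∈ C.D x ω, v ∈ span F {x, y})
    (hY : ∀ v, k.1 v = v → P.B y v = 0 → C.Fx v ω) : False := by
  have xy := hk.orth hy
  have yx := P.B_eq_zero_comm.1 xy
  have fy := hY y hy (h.bb y)
  have l1 : ∀ n, P.B x n = 0 → P.B y n = 0 → n ∈ span F {x, y} := fun n k1 k2 => by
    by_contra hn
    obtain ⟨a, j1, j2, j3⟩ := dual hn C
    obtain ⟨τ, j4⟩ := hk.rep n k1
    have j5 := hY _ j4 (by simp [k2, yx])
    have j6 : ∀ s : F, C.Fx (n + τ • x + s • x) ω := fun s => by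
      obtain ⟨d, j7, j8⟩ := mem_A_of_orth (C := C) (x := x) (ω := ω) (a := s • a) fun v hv => by
        obtain ⟨α, β, rfl⟩ := mem_span_pair.1 (hD v hv)
        simp [P.B_eq_zero_comm.1 j2, P.B_eq_zero_comm.1 j3]
      simpa [h.el_left j7.2.1 d (hk.orth j4), j1, P.B_eq_zero_comm.1 j2] using h.fx_map j5 j8
    exact hm (h.fx_three j5 (hk.orth j4) hk.t0 one_ne_zero hk.t1 (j6 t) (j6 1))
  have l2 : ∀ z, C.Fx z ω → P.B x z = 0 → z ∈ span F {y} := fun z hz xz => by
    obtain ⟨α, β, rfl⟩ := mem_span_pair.1 ((em (P.B z y = 0)).elim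
      (fun j => l1 z xz (P.B_eq_zero_comm.1 j)) fun j => (smul_mem_iff _ j).1 (hD _ (by
        simpa using h.z_mem xz (d := 1) (by rw [h.fx_iff.1 hz]) hyD)))
    by_cases hα : α = 0
    · exact mem_span_singleton.2 ⟨β, by simp [hα]⟩
    refine absurd (h.fx_three (h.fx_smul fy β) (by simp [xy]) hα (mul_ne_zero hα hk.t0)
      (fun j => hk.t1 (mul_left_cancel₀ hα (by rw [← j, mul_one]))) (add_comm (α • x) _ ▸ hz) ?_) hm
    simpa [hy, hk.kx, smul_smul, add_comm] using h.fx_map hz hk.fix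
  have l3 : ∀ z, C.Fx z ω → P.B x z = 1 → P.B y z = 0 := fun z hz xz => by
    by_contra j
    have j1 : P.B y (t • k.1 z) = t * P.B y z := by rw [map_smul, ← hy, B_map, hy, smul_eq_mul]
    have j2 : P.B x (t • k.1 z) = 1 := by rw [map_smul, smul_eq_mul, ← bl, ← hk.kx, B_map, xz]
    have j3 := mul_ne_zero hk.t0 j
    obtain ⟨s, j4⟩ := mem_span_singleton.1 (l2 _ (h.fx_add (h.fx_smul (h.fx_map hz hk.fix) t)
      (h.fx_add hz fy j ((1 - P.B z (t • k.1 z)) / (t * P.B y z)))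
      (by rw [P.B_add_left, bl, j1, div_mul_cancel₀ _ j3]; simp) (-1))
      (by rw [map_add, j2]; simp [xz, xy]))
    have j5 := congrArg (P.B y) j4
    rw [map_add, j1] at j5
    simp only [map_smul, map_add, h.bb, smul_eq_mul, mul_zero, add_zero] at j5
    exact hk.t1 (mul_right_cancel₀ j (by linear_combination -j5))
  obtain ⟨z, hz⟩ : ∃ z, span F {y | C.Fx y ω} ≤ span F {y, z} := by
    have l4 : ∀ z v, C.Fx v ω → P.B x v = 0 → v ∈ span F {y, z} := fun z v k1 k2 =>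
      span_mono (by simp) (l2 v k1 k2)
    by_cases H : ∃ z, C.Fx z ω ∧ P.B x z = 1
    swap
    · exact ⟨0, h.le_of_norm (l4 0) fun v k1 k2 => absurd ⟨v, k1, k2⟩ H⟩
    obtain ⟨z, hz, xz⟩ := H
    refine ⟨z, h.le_of_norm (l4 z) fun v hv xv => ?_⟩
    rw [← sub_add_cancel v z]
    refine add_mem ?_ (subset_span (by simp))
    by_cases k1 : P.B z v = 0
    swap
    · exact l4 _ _ (by simpa [sub_eq_add_neg] using h.fx_add hv hz k1 (-1)) (by simp [xv, xz])
    obtain ⟨α, β, k2⟩ := mem_span_pair.1 (l1 (v - z) (by simp [xv, xz])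
      (by simp [l3 v hv xv, l3 z hz xz]))
    have k3 := congrArg (P.B z) k2
    simp only [map_add, map_smul, map_sub, k1, h.bb, h.bs x z, xz, h.bs y z, l3 z hz xz] at k3
    exact mem_span_pair.2 ⟨β, 0, by rw [← k2, show α = 0 by simpa using k3]; simp⟩
  exact h.inv_false hN (fun g hg v => h.Y_inv hg) (subset_span fy) hy0
    ((Submodule.finrank_mono hz).trans (finrank_two_le y z))

theorem SH.small_false (hr : 2 ≤ r) (h6 : r = 2 → 6 ≤ finrank F V) : False := by
  obtain ⟨x₀, -, hx₀⟩ := exists_mem_notMem (W := (⊤ : Submodule F V)) (W' := ⊥) (by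
    have := h.h4
    simp; omega)
  obtain ⟨ω, hm₀⟩ := h.exists_moved hx₀
  have h3 : (2 : F) = 0 → 3 ≤ r := fun h2 => hr.lt_of_ne fun j =>
    two_ne_zero_of_card (by rw [h.hq, ← j]) h2
  obtain ⟨x, hx0, hm, w, hw, hw'⟩ : ∃ x, x ≠ 0 ∧ ¬ C.Fx x ω ∧ ∃ w ∈ C.D x ω, w ∉ span F {x} := by
    by_contra H
    push Not at H
    by_cases h2 : (2 : F) = 0
    · exact hm₀ (h.not_all_theta h2 (h3 h2) hx₀ H)
    · obtain ⟨y, k1, k2⟩ := h.exists_off x₀
      exact k2 (H _ hx₀ hm₀ _ (h.perp_le_D h2 hm₀ (H _ hx₀ hm₀) (P.mem_perp_span_singleton.2 k1)))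
  have xw := D_orth (h.pt x) hw
  rcases h.big_or hN hx0 hm hw with hD | hD | hD
  · obtain ⟨k, t, hk, ht⟩ := h.exists_tor hN hr hx0 hm (fun s => hD _ (by simp [xw])) hw'
    refine h.big_false hN hx0 hm hD hk fun y hy => ?_
    rcases hr.eq_or_lt with rfl | hr
    · exact h.fx_three_field hN rfl (h6 rfl) hx0 hm hD hk hy
    · exact h.fx_iff.2 fun d => h.fix_of_tor hx0 hk (ht hr) (h.z_comm hy d)
        (h.rel_big hN hx0 hm hD (hk.orth hy) d)
  · exact hw' hD
  rcases hr.eq_or_lt with rfl | hr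
  · obtain ⟨z, k1, k2⟩ := exists_mem_notMem (W := P.perp (span F {x, w})) (W' := span F {x, w}) (by
      have := P.finrank_perp C.nondeg (span F {x, w})
      have := finrank_two_le (F := F) x w
      have := h6 rfl
      omega)
    exact k2 (hD _ (h.perp_le_D (two_ne_zero_of_card h.hq) hm hD k1))
  obtain ⟨k, t, hk, ht⟩ := h.exists_tor hN hr.le hx0 hm (fun s => (em _).elim
    (h.fat_of_two hN · hx0 hm hw hw' hD s) fun h2 => h.perp_le_D h2 hm hD
      (P.mem_perp_span.2 (by rintro _ (rfl | rfl) <;> simp [xw, h.bb]))) hw'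
  obtain ⟨τ, hτ⟩ := hk.rep w xw
  have k1 := add_mem hw (smul_mem_D x ω τ)
  have k2 : w + τ • x ∉ span F {x} := fun j =>
    hw' (by simpa using sub_mem j (smul_mem _ τ (mem_span_singleton_self x)))
  refine h.line_false hN hm hk hτ (fun j => k2 (j ▸ zero_mem _)) k1 (fun v hv => ?_)
    fun v k3 k4 => h.fx_iff.2 fun d => h.fix_of_tor hx0 hk (ht hr) (h.z_comm k3 d)
      (h.rel_z hN hx0 hm k1 k2 (hk.orth k3) k4 d)
  obtain ⟨α, β, rfl⟩ := mem_span_pair.1 (hD v hv)
  exact mem_span_pair.2 ⟨α - β * τ, β, by module⟩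

end Ctx

theorem sp_big {m q : ℕ} (hF : Nat.card F = q) (hm : 2 ≤ m) (hq : 3 ≤ q)
    (hexc : ¬ (m = 2 ∧ q = 3)) :
    (∀ H : Subgroup (Cfsg.PSp m F), H ≠ ⊤ → (q ^ (2 * m) - 1) / (q - 1) ≤ H.index) ∧
      ∃ H : Subgroup (Cfsg.PSp m F), H.index = (q ^ (2 * m) - 1) / (q - 1) := by
  obtain ⟨r, rfl⟩ : ∃ r, q = r + 1 := ⟨q - 1, by omega⟩
  have e1 : (r + 1) ^ 2 * (r + 1) ^ (2 * m - 2) = (r + 1) ^ (2 * m) := by
    rw [← pow_add]; congr 1; omega
  have hfin : Finite (spPQ (Fin m) F).isom :=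
    Ctx.finite_K (C := ctxOf (spPQ_nondeg (Fin m) F) (rootGroup_sp m))
  have low : ∀ H : Subgroup (spPQ (Fin m) F).isom, H ≠ ⊤ →
      ((r + 1) ^ (2 * m) - 1) / (r + 1 - 1) ≤ H.index := fun H hH => by
    have := not_lt.1 fun k => (sp_SH hm hF hH).small_false k (by omega) fun _ => by simp; omega
    rw [e1] at this
    exact Nat.div_le_of_le_mul (Nat.sub_le_of_le_add this)
  obtain ⟨v, hv⟩ : ∃ v : Fin m ⊕ Fin m → F, v ≠ 0 := ⟨fun _ => 1, fun k => by
    simpa using congrFun k (Sum.inl ⟨0, by omega⟩)⟩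
  have h := sp_SH hm hF (H := ⊥) fun k => one_ne_zero (Ctx.eq_zero_of_el_eq_one
    (C := ctxOf (spPQ_nondeg (Fin m) F) (rootGroup_sp m)) (c := 1) ⟨trivial, by rintro _ rfl; simp⟩
    hv trivial (k.ge trivial))
  refine psp_min low (H := lineStab (spPQ (Fin m) F).isom.subtype v)
    (fun g hg => ⟨-1, by simp, by simpa using hg v⟩) ?_
  have h1 := index_lineStab_mul (spPQ (Fin m) F).isom.subtype hv
  have h2 := h.card_ne
  have h3 := Set.ncard_add_ncard_compl ({0} : Set F)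
  rw [show {c : F | ∃ g, (spPQ (Fin m) F).isom.subtype g v = c • v} = {0}ᶜ from Set.ext fun c =>
      ⟨by rintro ⟨g, k⟩ rfl; exact g.1.map_ne_zero_iff.2 hv (by simpa using k),
        fun k => h.tr0 hv (smul_ne_zero k hv)⟩,
    show {u | ∃ g, (spPQ (Fin m) F).isom.subtype g v = u} = {u | u ≠ 0} from Set.ext fun u =>
      ⟨by rintro ⟨g, rfl⟩; exact g.1.map_ne_zero_iff.2 hv, h.tr0 hv⟩,
    show ({0}ᶜ : Set F).ncard = r by rw [Set.ncard_singleton, hF] at h3; omega] at h1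
  rw [← e1, ← h2, ← h1, Nat.add_sub_cancel, Nat.add_sub_cancel, Nat.mul_div_cancel _ (by omega)]

end CfsgLib.MinIdx
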