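import Mathlib
import Cfsg.Agent.Lib.MinIdx.OFinal

/-!
Small actions of the six-dimensional orthogonal group of minus type: counting of root group orbits.
-/

set_option autoImplicit false
set_option linter.unusedSectionVars false

namespace CfsgLib.MinIdx

open CfsgLib.Forms CfsgLib.RootMax Module Submodule

universe u v

variable {F : Type u} [Field F] {V : Type v} [AddCommGroup V] [Module F V]
  {Q : QuadraticForm F V} [FiniteDimensional F V] [Finite F]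

local notation "𝔅" => PQ.B (ofQuad Q)

variable (Q) in
/-- Witt index at most two. -/
def WI2 : Prop := ∀ S : Submodule F V, (∀ v ∈ S, Q v = 0) → finrank F S ≤ 2

theorem WI2.aniso (h : WI2 Q) {x y a : V} (hx : Q x = 0) (hx0 : x ≠ 0) (hy : Q y = 0)
    (hxy : 𝔅 x y = 0) (hyx : y ∉ span F {x}) (ha : Q a = 0) (hxa : 𝔅 x a = 0)
    (hya : 𝔅 y a = 0) : a ∈ span F {x, y} := by
  by_contra hne
  have h1 := h (span F {x, y, a}) fun v hv => by
    obtain ⟨s, t, u, rfl⟩ := mem_span_triple.1 hv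
    simp [q_add, q_smul, hx, hy, ha, hxy, hxa, hya]
  have h2 : span F {x} < span F {x, y} :=
    lt_of_le_of_ne (span_mono (by simp)) fun k => hyx (k ▸ subset_span (by simp))
  have h3 : span F {x, y} < span F {x, y, a} :=
    lt_of_le_of_ne (span_mono (by intro z; simp; tauto)) fun k => hne (k ▸ subset_span (by simp))
  have h4 := finrank_lt_finrank_of_lt h2
  have h5 := finrank_lt_finrank_of_lt h3
  rw [finrank_span_singleton hx0] at h4
  omega

theorem WI2.aniso' (h : WI2 Q) {x y y' a : V} (hx : Q x = 0) (hx0 : x ≠ 0) (hy : Q y = 0)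
    (hxy : 𝔅 x y = 0) (hxy' : 𝔅 x y' = 0) (hyy : 𝔅 y' y = 1) (ha : Q a = 0) (hxa : 𝔅 x a = 0)
    (hya : 𝔅 y a = 0) (hya' : 𝔅 y' a = 0) : a ∈ span F {x} := by
  obtain ⟨s, t, rfl⟩ := mem_span_pair.1 (h.aniso hx hx0 hy hxy (fun k => by
    obtain ⟨t, rfl⟩ := mem_span_singleton.1 k
    simp [qz hxy'] at hyy) ha hxa hya)
  have : t = 0 := by simpa [qz hxy', hyy] using hya'
  exact mem_span_singleton.2 ⟨s, by simp [this]⟩

theorem q_exists_eq (hQ : (ofQuad Q).Nondeg) {U : Submodule F V}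
    (h : 2 * finrank F U + 2 ≤ finrank F V) (c : F) : ∃ a ∈ (ofQuad Q).perp U, Q a = c := by
  obtain ⟨Z, h1, h2, h3⟩ := exists_sub_perp hQ U
  by_cases ha : ∀ z ∈ Z, Q z = 0 → z = 0
  · obtain ⟨v, hv⟩ := OrthE.exists_eq_of_anisotropic (Q := Q.comp Z.subtype) (by omega)
      (fun v hv => Subtype.ext (ha v v.2 hv)) c
    exact ⟨v, h1 v.2, hv⟩
  · push Not at ha
    obtain ⟨z, hz, hz0, hz1⟩ := ha
    obtain ⟨z', h4, h5, h6⟩ := (ofQuad Q).exists_partner hQ U (q_sing.2 hz0)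
      (fun k => hz1 (Submodule.disjoint_def.1 h2 z hz k)) ((ofQuad Q).mem_perp'.1 (h1 hz))
    refine ⟨z' + c • z, add_mem ((ofQuad Q).mem_perp'.2 h6) (smul_mem _ _ (h1 hz)), ?_⟩
    simp [q_add, q_smul, hz0, q_sing.1 h4, h5]

theorem om_witt6 (hQ : OrthE.Nondeg Q) (h5 : 5 ≤ finrank F V) (T : Submodule F V)
    (hT : 2 * finrank F T + 4 ≤ finrank F V)
    {u u' : V} (hu : u ∉ T) (hu' : u' ∉ T) (hB : ∀ h ∈ T, 𝔅 h u' = 𝔅 h u) (hN : Q u' = Q u) :
    ∃ g ∈ Om Q, (∀ h ∈ T, g h = h) ∧ g u = u' := by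
  obtain ⟨g, hg, h1, h2⟩ := (ofQuad Q).witt_step hQ T hu hu' hB
    ((ofQuad_mem Q _).2 (sub_eq_zero.2 hN))
  have hg' : g ∈ OrthE.O Q := by rw [OrthE.O_eq_isom]; exact hg
  have hE := hQ.E_eq_commutator_of_finite h5
  let S : Subgroup (OrthE.O Q) := (linFix (T ⊔ span F {u'})).comap (OrthE.O Q).subtype
  have htop : S ⊔ OrthE.E Q = ⊤ := by
    refine OrthE.eq_top_of_refl_of_siegel hQ _ (fun v hv => ?_)
      fun a b _ _ _ => Subgroup.mem_sup_right (OrthE.eich_mem_E a b)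
    obtain ⟨a, k4, k5⟩ := q_exists_eq hQ.ofQuad (U := T ⊔ span F {u'}) (by
      have := finrank_sup_le T (span F {u'})
      have := finrank_one_le (F := F) u'
      omega) (Q v)
    obtain ⟨k, k6⟩ := om_tr0 hQ h5 (u := v) (u' := a) (by rintro rfl; exact hv (map_zero _))
      (by rintro rfl; exact hv (by rw [← k5, map_zero])) k5
    let k' : OrthE.O Q := ⟨k.1, Om_le Q k.2⟩
    have hk : k' ∈ OrthE.E Q := hE ▸ (mem_Om_iff k').1 k.2
    have k7 : OrthE.refl Q v = k'⁻¹ * OrthE.refl Q (k'.1 v) * k' := by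
      rw [← OrthE.conj_refl]; group
    rw [k7]
    refine mul_mem (mul_mem (Subgroup.mem_sup_right (inv_mem hk)) (Subgroup.mem_sup_left ?_))
      (Subgroup.mem_sup_right hk)
    intro z hz
    refine OrthE.refl_apply_of_orth ?_
    change QuadraticMap.polar Q z (k.1 v) = 0
    rw [k6, ← ofQuad_B, k4 z hz]
  have := OrthE.E_normal (Q := Q)
  obtain ⟨s, hs, k, hk, h3⟩ := Subgroup.mem_sup_of_normal_right.1
    (htop ▸ Subgroup.mem_top (⟨g, hg'⟩ : OrthE.O Q))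
  have h4 : ∀ v, s.1 (k.1 v) = g v := fun v => congrArg (fun t : OrthE.O Q => t.1 v) h3
  refine ⟨k.1, (mem_Om_iff k).2 (hE ▸ hk), fun h hh => s.1.injective ?_, s.1.injective ?_⟩
  · rw [h4, h1 h hh]; exact (hs h (mem_sup_left hh)).symm
  · rw [h4, h2]; exact (hs u' (mem_sup_right (mem_span_singleton_self _))).symm

theorem o6_ncard_Lv (hQ : OrthE.Nondeg Q) (h6 : finrank F V = 6) (hw : WI2 Q) {r : ℕ}
    (hr : Nat.card F = r + 1) {x : V} (hx : Q x = 0) (hx0 : x ≠ 0) :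
    (Lv Q x 0).ncard = (r + 1) * (r * ((r + 1) ^ 2 + 1)) ∧
      ∀ c, c ≠ 0 → (Lv Q x c).ncard = (r + 1) * ((r + 1) ^ 3 + (r + 1)) := by
  obtain ⟨x', h⟩ := hQ.exists_hyp hx hx0
  have h1 := h.finrank_eq
  have hQ' := h.nondeg_W hQ
  obtain ⟨e, f, h'⟩ := hQ'.exists_hyp_of_three (by omega)
  have h2 := h'.finrank_eq
  have h3 : finrank F (OrthE.W (OrthE.QW Q x x') e f) = 2 := by omega
  have ha : ∀ v, OrthE.QW (OrthE.QW Q x x') e f v = 0 → v = 0 := by
    intro v hv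
    obtain ⟨t, ht⟩ := mem_span_singleton.1 (hw.aniso' (y := e.1) (y' := f.1) (a := v.1.1) hx hx0
      h'.he (qz e.2.1) (qz f.2.1) h'.hfe hv (qz v.1.2.1) (qz v.2.1) (qz v.2.2))
    have h4 := v.1.2.2
    rw [← ht, QuadraticMap.polar_smul_left, h.hef, smul_eq_mul, mul_one] at h4
    exact Subtype.ext (Subtype.ext (by rw [← ht, h4, zero_smul]; rfl))
  refine ⟨?_, fun c hc => ?_⟩
  · have h4 := ncard_Lv_add h 0 1 (Or.inr ⟨rfl, rfl⟩)
    rw [h'.card_level, OrthE.card_zeros_of_anisotropic ha, h3, hr, Nat.add_sub_cancel] at h4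
    nlinarith
  · have h4 := ncard_Lv_add h c 0 (Or.inl ⟨rfl, hc⟩)
    rw [h'.card_level, OrthE.card_level_of_anisotropic (h'.nondeg_W hQ') h3 ha hc, h3, hr,
      Nat.add_sub_cancel] at h4
    nlinarith

theorem small_of_level {D : AddSubgroup V} {x : V} {c : F} (hc : c ≠ 0)
    (hall : ∀ u ∈ D, u ∉ span F {x} → Q u = c) :
    ((2 : F) ≠ 0 → Nat.card D ≤ Nat.card F ^ 2) ∧ Nat.card D ≤ Nat.card F ^ 3 := by
  have hq := (one_lt_q F).le
  have hall' : ∀ u ∈ D, ∀ w ∈ D, u ∉ span F {x, w} → w ∉ span F {x} →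
      𝔅 u w = -c ∧ 𝔅 u w = c := by
    intro u hu w hw hu' hw'
    have k0 : ∀ s, s ∈ span F {x} → s ∈ span F {x, w} := fun s hs => span_mono (by simp) hs
    have k1 : w ∈ span F {x, w} := subset_span (by simp)
    have k2 := hall u hu fun k => hu' (k0 _ k)
    have k3 := hall _ (add_mem hu hw) fun k => hu' (by simpa using sub_mem (k0 _ k) k1)
    have k4 := hall _ (sub_mem hu hw) fun k => hu' (by simpa using add_mem (k0 _ k) k1)
    rw [q_add, k2, hall w hw hw'] at k3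
    rw [q_sub, k2, hall w hw hw'] at k4
    exact ⟨by linear_combination k3, by linear_combination -k4⟩
  by_cases h0 : ∃ v, ∀ u ∈ D, u ∈ span F {x, v}
  · obtain ⟨v, hv⟩ := h0
    have := (card_le_pow hv).trans (Nat.pow_le_pow_right hq (finrank_two_le x v))
    exact ⟨fun _ => this, this.trans (Nat.pow_le_pow_right hq (by norm_num))⟩
  push Not at h0
  obtain ⟨v, hv, hv0⟩ := h0 0
  have hv' : v ∉ span F {x} := fun k => hv0 (span_mono (by simp) k)
  obtain ⟨u, hu, hu'⟩ := h0 v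
  refine ⟨fun h2 => absurd ?_ h2, (card_le_pow (S := span F {x, v, u}) fun s hs => ?_).trans
    (Nat.pow_le_pow_right hq (finrank_three_le x v u))⟩
  · obtain ⟨k1, k2⟩ := hall' u hu v hv hu' hv'
    exact (mul_eq_zero.1 (show 2 * c = 0 by linear_combination k1 - k2)).resolve_right hc
  · by_contra hs'
    have k0 : ∀ w ∈ span F {x, v, u}, s ∉ span F {x, w} := fun w hw k =>
      hs' ((span_le.2 (by
        rintro _ (rfl | rfl)
        exacts [subset_span (by simp), hw])) k)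
    have k1 : v ∈ span F {x, v, u} := subset_span (by simp)
    have k2 : u ∈ span F {x, v, u} := subset_span (by simp)
    have k3 : ∀ s, s ∈ span F {x} → s ∈ span F {x, v} := fun s hs => span_mono (by simp) hs
    have k4 : v ∈ span F {x, v} := subset_span (by simp)
    have k5 := (hall' s hs v hv (k0 v k1) hv').2
    have k6 := (hall' s hs u hu (k0 u k2) fun k => hu' (k3 _ k)).2
    have k7 := (hall' s hs _ (add_mem hu hv) (k0 _ (add_mem k2 k1))
      fun k => hu' (by simpa using sub_mem (k3 _ k) k4)).2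
    rw [map_add, k5, k6] at k7
    exact hc (by linear_combination k7)

namespace Ctx

variable (C : Ctx (ofQuad Q)) (Ω : Type*) [MulAction C.K Ω]

/-- Hypotheses on a small action of the six-dimensional orthogonal group of minus type. -/
structure O6 (r : ℕ) : Prop where
  hR : C.R = ⊥
  h6 : finrank F V = 6
  wi : WI2 Q
  hr : Nat.card F = r + 1
  tr0 : ∀ u u', u ≠ 0 → u' ≠ 0 → Q u' = Q u → ∃ g : C.K, g.1 u = u'
  tr1 : ∀ x u u', u ∉ span F {x} → u' ∉ span F {x} → 𝔅 x u' = 𝔅 x u → Q u' = Q u →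
    ∃ g : C.K, g.1 x = x ∧ g.1 u = u'
  n1 : Nat.card Ω < (r + 2) * ((r + 1) ^ 3 + 1)

variable {C Ω} [Finite Ω] {r : ℕ} {x : V}

theorem O6.r_pos (h : C.O6 Ω r) : 1 ≤ r := by
  have := one_lt_q F
  have := h.hr
  omega

theorem O6.fr (h : C.O6 Ω r) (hx0 : x ≠ 0) :
    Nat.card F ^ finrank F (C.R ⊔ span F {x} : Submodule F V) = r + 1 := by
  rw [h.hR, bot_sup_eq, finrank_span_singleton hx0, pow_one, h.hr]

theorem O6.low (h : C.O6 Ω r) (hx : C.Pt x) {φ : ℕ → Prop} {c : F} {v : V} (hv : v ∈ Lv Q x c)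
    {μ : ℕ} (hμ : μ ≤ (C.ob Ω x φ v).ncard) : ∀ v' ∈ Lv Q x c, μ ≤ (C.ob Ω x φ v').ncard := by
  intro v' hv'
  obtain ⟨g, h1, rfl⟩ := h.tr1 x v v' hv.2.1 hv'.2.1 (by rw [hv.1, hv'.1]) (by rw [hv.2.2, hv'.2.2])
  exact hμ.trans (ob_le_fix hx h1 φ v)

theorem ob_le_span {φ : ℕ → Prop} (v : V) {u : V} (hu : u ∈ span F {x}) :
    (C.ob Ω x φ v).ncard ≤ (C.ob Ω x φ u).ncard :=
  Set.ncard_le_ncard (by
    rintro _ ⟨ω, rfl, h3, -⟩
    exact mk_mem_ob h3 (mem_D_of_mem ω (mem_sup_right hu)))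

theorem O6.cnt3 (h : C.O6 Ω r) (hx : C.Pt x) (hx0 : x ≠ 0) {c c' : F} (hcc : c ≠ c') {v v' : V}
    (hv : v ∈ Lv Q x c) (hv' : v' ∈ Lv Q x c') {μ μ' : ℕ}
    (hμ : μ ≤ (C.ob Ω x (fun _ => True) v).ncard) (hμ' : μ' ≤ (C.ob Ω x (fun _ => True) v').ncard) :
    μ * (Lv Q x c).ncard + μ' * (Lv Q x c').ncard + μ * (r + 1) ≤ (r + 1) * Nat.card Ω := by
  have := C.finite_V
  have := Fintype.ofFinite V
  have h1 := three_le_sum (fun u => (C.ob Ω x (fun _ => True) u).ncard) (T₃ := span F {x})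
    (Set.disjoint_left.2 fun v k1 k2 => hcc (k1.2.2.symm.trans k2.2.2))
    (Set.disjoint_left.2 fun v k1 => k1.2.1) (Set.disjoint_left.2 fun v k1 => k1.2.1)
    (h.low hx hv hμ) (h.low hx hv' hμ') fun u hu => hμ.trans (ob_le_span v hu)
  rw [qsum_ob hx, h.fr hx0, ncard_submodule, finrank_span_singleton hx0, pow_one, h.hr] at h1
  exact h1.trans (Nat.mul_le_mul_left _ (ncard_le_card' _))

variable {p : ℕ} [hp : Fact p.Prime] [CharP F p]

theorem O6.le_two_of_bad (h : C.O6 Ω r) (hx : C.Pt x) (hx0 : x ≠ 0) {c : F} (hc : c ≠ 0)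
    {v : V} (hv : v ∈ Lv Q x c) (hlt : p ≤ (C.ob Ω x (fun _ => True) v).ncard) : r ≤ 2 := by
  have := C.finite_V
  have hL := (o6_ncard_Lv C.nondeg h.h6 h.wi h.hr hx.q_eq hx0).2
  set S := {s | ∃ t : F, t ≠ 0 ∧ t * t * c = s} with hS
  have h1 := mul_ncard_le_of_fiber (fun v => Q v) {v | 𝔅 x v = 0 ∧ v ∉ span F {x}} S
    (k := (r + 1) * ((r + 1) ^ 3 + (r + 1))) fun s ⟨t, ht, hs⟩ =>
      (hL s (hs ▸ mul_ne_zero (mul_ne_zero ht ht) hc)).ge.trans
        (Set.ncard_le_ncard fun v hv => ⟨⟨hv.1, hv.2.1⟩, hv.2.2⟩)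
  have h2 := qcount (Ω := Ω) hx (fun _ => True) (μ := p)
    (T := {v | v ∈ {v | 𝔅 x v = 0 ∧ v ∉ span F {x}} ∧ Q v ∈ S}) (by
      rintro v' ⟨⟨k1, k2⟩, t, ht, k3⟩
      obtain ⟨g, hg⟩ := h.tr0 x (t⁻¹ • x) hx0 (smul_ne_zero (inv_ne_zero ht) hx0)
        (by rw [q_smul, hx.q_eq, mul_zero])
      have k4 : g.1 (t • x) = x := by rw [map_smul, hg, smul_smul, mul_inv_cancel₀ ht, one_smul]
      refine h.low hx (c := Q v') (v := t • g.1 v) ⟨?_, fun k5 => hv.2.1 ?_, ?_⟩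
        (hlt.trans (ob_le hx ht hg _ v)) v' ⟨k1, k2, rfl⟩
      · rw [map_smul, ← k4, B_map, qB_smul_left, hv.1]; simp
      · obtain ⟨s, hs⟩ := mem_span_singleton.1 ((smul_mem_iff _ ht).1 k5)
        rw [← k4, ← map_smul, smul_smul] at hs
        exact mem_span_singleton.2 ⟨_, g.1.injective hs⟩
      · rw [q_smul, q_map, hv.2.2, k3])
  rw [h.fr hx0] at h2
  have h3 : p * S.ncard * ((r + 1) ^ 3 + (r + 1)) ≤ Nat.card Ω := by
    refine core_le r.succ_pos (L := (r + 1) * ((r + 1) ^ 3 + (r + 1))) ?_ le_rfl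
    calc _ = p * ((r + 1) * ((r + 1) ^ 3 + (r + 1)) * S.ncard) := by ring
      _ ≤ _ := (Nat.mul_le_mul_left _ h1).trans (h2.trans (Nat.mul_le_mul_left _ (ncard_le_card' _)))
  obtain ⟨h4, h5⟩ := card_units_le c hc
  rw [← hS, h.hr] at h4 h5
  have hd : p ∣ r + 1 := h.hr ▸ char_dvd_card
  have hn := h3.trans_lt h.n1
  by_contra hr
  by_cases hp2 : p = 2
  · subst hp2
    have h6 : r ≤ S.ncard := by
      have := h5 (by exact_mod_cast CharP.cast_eq_zero F 2)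
      omega
    have h7 := (Nat.mul_le_mul_right ((r + 1) ^ 3 + (r + 1)) (Nat.mul_le_mul_left 2 h6)).trans_lt hn
    obtain ⟨s, rfl⟩ : ∃ s, r = s + 3 := ⟨r - 3, by omega⟩
    ring_nf at h7
    omega
  · have h6 : r ≤ 2 * S.ncard := by omega
    have h7 : 3 ≤ p := by have := hp.out.two_le; omega
    have h8 : 3 * r * ((r + 1) ^ 3 + (r + 1)) < 2 * ((r + 2) * ((r + 1) ^ 3 + 1)) :=
      calc _ ≤ p * (2 * S.ncard) * ((r + 1) ^ 3 + (r + 1)) := by gcongr
        _ = 2 * (p * S.ncard * ((r + 1) ^ 3 + (r + 1))) := by ring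
        _ < _ := by omega
    rcases Nat.lt_or_ge r 4 with h9 | h9
    · obtain rfl : r = 3 := by omega
      have := (Nat.prime_dvd_prime_iff_eq hp.out Nat.prime_two).1
        (hp.out.dvd_of_dvd_pow (show p ∣ 2 ^ 2 from hd))
      omega
    · obtain ⟨s, rfl⟩ : ∃ s, r = s + 4 := ⟨r - 4, by omega⟩
      ring_nf at h8
      omega

theorem O6.good (h : C.O6 Ω r) (hx : C.Pt x) (hx0 : x ≠ 0) {c : F} (hc : c ≠ 0)
    {v : V} (hv : v ∈ Lv Q x c) : (C.ob Ω x (fun _ => True) v).ncard < p := by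
  by_contra hlt
  push Not at hlt
  have hr := h.le_two_of_bad hx hx0 hc hv hlt
  have hr1 := h.r_pos
  have hn := h.n1
  have hd : p ∣ r + 1 := h.hr ▸ char_dvd_card
  obtain ⟨L0, L1⟩ := o6_ncard_Lv C.nondeg h.h6 h.wi h.hr hx.q_eq hx0
  have hpr : p = r + 1 := by
    interval_cases r
    · exact (Nat.prime_dvd_prime_iff_eq hp.out Nat.prime_two).1 hd
    · exact (Nat.prime_dvd_prime_iff_eq hp.out Nat.prime_three).1 hd
  have hall : ∀ ω : Ω, ∀ u ∈ C.D x ω, u ∉ span F {x} → Q u = c := by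
    intro ω u hu hu'
    by_contra hne
    have h1 := h.cnt3 hx hx0 (Ne.symm hne) hv ⟨D_orth hx hu, hu', rfl⟩ hlt (μ' := 1)
      ((Set.ncard_pos (Set.toFinite _)).2 ⟨_, mk_mem_ob (ω := ω) trivial hu⟩)
    rw [L1 c hc, hpr] at h1
    by_cases h0 : Q u = 0
    · rw [h0, L0] at h1
      interval_cases r <;> omega
    · rw [L1 _ h0] at h1
      interval_cases r <;> omega
  have key : ∀ δ, (∀ ω : Ω, Nat.card (C.D x ω) ≤ (r + 1) * δ) →
      ∃ B, B ≤ Nat.card Ω ∧ δ * (p * ((r + 1) * ((r + 1) ^ 3 + (r + 1)))) + (r + 1) * B ≤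
        δ * ((r + 1) * B) := by
    intro δ hδ
    have h1 := qcount_ref (Ω := Ω) hx (fun k => k ≤ (r + 1) * δ) (δ := δ) (T := Lv Q x c) (μ := p)
      (by rw [h.fr hx0]; exact fun k hk => hk)
      (fun v hv => by rw [h.hR, bot_sup_eq]; exact hv.2.1)
      (h.low hx hv (hlt.trans (Set.ncard_le_ncard (by
        rintro _ ⟨ω, rfl, -, h3⟩
        exact mk_mem_ob (hδ ω) h3))))
    rw [h.fr hx0, L1 c hc] at h1
    exact ⟨_, ncard_le_card' _, h1⟩
  interval_cases r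
  · obtain ⟨B, h1, h2⟩ := key 4 fun ω => by
      simpa [h.hr] using (small_of_level hc (hall ω)).2
    rw [hpr] at h2
    omega
  · obtain ⟨B, h1, h2⟩ := key 3 fun ω => by
      have h3 : (2 : F) ≠ 0 := fun k => by
        have := (CharP.cast_eq_zero_iff F p 2).1 (by exact_mod_cast k)
        rw [hpr] at this
        omega
      simpa [h.hr] using (small_of_level hc (hall ω)).1 h3
    rw [hpr] at h2
    omega

end Ctx

end CfsgLib.MinIdx
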