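import Mathlib
import Cfsg.Agent.Lib.MinIdx.O6A

/-!
Small actions of the six-dimensional orthogonal group of minus type: the types of root group orbits.
-/

set_option autoImplicit false
set_option linter.unusedSectionVars false

namespace CfsgLib.MinIdx

open CfsgLib.Forms CfsgLib.RootMax Module Submodule

universe u v

variable {F : Type u} [Field F] {V : Type v} [AddCommGroup V] [Module F V]
  {Q : QuadraticForm F V} [FiniteDimensional F V] [Finite F]

local notation "𝔅" => PQ.B (ofQuad Q)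

namespace Ctx

variable {C : Ctx (ofQuad Q)} {Ω : Type*} [MulAction C.K Ω] [Finite Ω] {r : ℕ} {x : V}

theorem O6.inv (h : C.O6 Ω r) (hx : C.Pt x) (hx0 : x ≠ 0) {ω : Ω} {w : V} (hw : w ∈ C.D x ω)
    (hw0 : Q w ≠ 0) (y a : V) (h3 : Q y = 0) (h4 : y ∈ (ofQuad Q).perp (span F {x, w}))
    (h5 : a ∈ (ofQuad Q).perp (span F {x, w})) (h6 : 𝔅 y a = 0) (u : V) (hu : u ∈ C.D x ω) :
    (C.ρ y a).1 u ∈ C.D x ω := by
  obtain ⟨p, hp⟩ := CharP.exists F
  have hpp : Fact p.Prime := ⟨CharP.char_is_prime F p⟩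
  obtain ⟨k1, k2⟩ := mem_perp_pair.1 h4
  obtain ⟨k3, k4⟩ := mem_perp_pair.1 h5
  have hw' : w ∉ span F {x} := fun k => by
    obtain ⟨t, rfl⟩ := mem_span_singleton.1 k
    exact hw0 (by rw [q_smul, hx.q_eq, mul_zero])
  exact D_of_rel hx (ρ_fix (pt_of h.hR h3) (dir_of h.hR h6) (qz k1) (qz k3))
    (qgood hx trivial hw (h.good (p := p) hx hx0 hw0 ⟨D_orth hx hw, hw', rfl⟩) (pt_of h.hR h3)
      (dir_of h.hR h6) (qz k1) (qz k2) (qz k3) (qz k4)) hu

theorem O6.key (h : C.O6 Ω r) (hx : C.Pt x) (hx0 : x ≠ 0) {ω : Ω} {w : V} (hw : w ∈ C.D x ω)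
    (hw0 : Q w ≠ 0) {y a : V} (h3 : Q y = 0) (h4 : y ∈ (ofQuad Q).perp (span F {x, w}))
    (h5 : a ∈ (ofQuad Q).perp (span F {x, w})) (h6 : 𝔅 y a = 0) {u : V} (hu : u ∈ C.D x ω) :
    (𝔅 a u - Q a * 𝔅 y u) • y - 𝔅 y u • a ∈ C.D x ω := by
  have h7 := (C.D x ω).sub_mem (h.inv hx hx0 hw hw0 y a h3 h4 h5 h6 u hu) hu
  rw [ρ_apply (pt_of h.hR h3) (dir_of h.hR h6)] at h7
  convert h7 using 1
  abel

theorem O6.not_exc (h : C.O6 Ω 1) (hx : C.Pt x) (hx0 : x ≠ 0) {ω : Ω} {w u : V}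
    (hw : w ∈ C.D x ω) (hw0 : Q w ≠ 0) (hu : u ∈ C.D x ω) (hu0 : Q u = 0) (huw : 𝔅 u w = 1)
    (hcls : ∀ a ∈ C.D x ω, 𝔅 u a = 0 → a ∈ span F {x, u}) : False := by
  have := C.finite_V
  have hxu := D_orth hx hu
  have hxw := D_orth hx hw
  have pu : C.Pt u := pt_of h.hR hu0
  set U : Submodule F V := (ofQuad Q).perp (span F {x, u}) with hU
  have hd : ∀ a ∈ U, C.Dir u a := fun a ha => dir_of h.hR (mem_perp_pair.1 ha).2
  have fx : ∀ a ∈ U, (C.ρ u a).1 x = x := fun a ha => ρ_fix pu (hd a ha) (qz hxu)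
    (qz (mem_perp_pair.1 ha).1)
  have h2 := (C.ρfam u U hd).card_le_cls (s := C.rel Ω x)
    (fun a ha b c h => (rel_fix hx (fx a ha) b c).1 h) ω (S := C.ob Ω x (fun _ => True) u)
    fun a ha => mk_smul_mem_ob hx trivial hu (fx a ha) (ρ_self pu (hd a ha))
  have h3 := card_le_pow (A := (C.ρfam u U hd).cls (C.rel Ω x)
    (fun a ha b c h => (rel_fix hx (fx a ha) b c).1 h) ω) (S := span F {x, u}) (by
      rintro a ⟨ha, ha'⟩
      have h4 := (C.D x ω).sub_mem hw (D_of_rel hx (fx a ha) ha' hw)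
      rw [ρ_apply pu (hd a ha), huw] at h4
      have h5 : (𝔅 a w - Q a * 1) • u ∈ C.D x ω := by
        rcases eq_zero_or_one_of_card h.hr (𝔅 a w - Q a * 1) with k | k <;> rw [k] <;> simp [hu]
      refine hcls a ?_ (hd a ha).2
      convert (C.D x ω).add_mem h4 h5 using 1
      module)
  have h5 := (ofQuad Q).finrank_perp C.nondeg (span F {x, u})
  have h7 := finrank_two_le (F := F) x u
  have h8 : Nat.card (C.ρfam u U hd).X = Nat.card F ^ finrank F U :=
    Module.natCard_eq_pow_finrank (K := F) (V := U)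
  have h6 := h.h6
  have h9 : 2 ^ 4 ≤ 2 ^ finrank F U := Nat.pow_le_pow_right (by norm_num) (by rw [hU]; omega)
  have h10 : 2 ^ finrank F (span F {x, u}) ≤ 2 ^ 2 := Nat.pow_le_pow_right (by norm_num) h7
  rw [h8, h.hr] at h2
  rw [h.hr] at h3
  have h11 : 4 ≤ (C.ob Ω x (fun _ => True) u).ncard := by
    have := h2.trans (Nat.mul_le_mul_left _ (h3.trans h10))
    norm_num at this h9
    omega
  have nx : ∀ v z, 𝔅 x z = 0 → 𝔅 v z = 1 → v ∉ span F {x} := fun v z k1 k2 k => by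
    obtain ⟨t, rfl⟩ := mem_span_singleton.1 k
    simp [k1] at k2
  obtain ⟨L0, L1⟩ := o6_ncard_Lv C.nondeg h.h6 h.wi h.hr hx.q_eq hx0
  have h12 := h.cnt3 hx hx0 (Ne.symm hw0) ⟨hxu, nx u w hxw huw, hu0⟩
    ⟨hxw, nx w u hxu (by rw [qB_comm, huw]), rfl⟩ h11 (μ' := 1)
    ((Set.ncard_pos (Set.toFinite _)).2 ⟨_, mk_mem_ob (ω := ω) trivial hw⟩)
  have := h.n1
  rw [L0, L1 _ hw0] at h12
  omega

theorem O6.line (h : C.O6 Ω r) (hx : C.Pt x) (hx0 : x ≠ 0) {ω : Ω} {w : V} (hw : w ∈ C.D x ω)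
    (hw0 : Q w ≠ 0) (y : V) (hy : Q y = 0) (hyT : y ∈ (ofQuad Q).perp (span F {x, w}))
    (u : V) (hu : u ∈ C.D x ω) (hyu : 𝔅 y u ≠ 0) (t : F) : t • y ∈ C.D x ω := by
  have hxw := D_orth hx hw
  obtain ⟨hxy, hwy⟩ := mem_perp_pair.1 hyT
  have h6 := h.h6
  by_cases h2 : (2 : F) = 0
  swap
  · obtain ⟨a, ha, ha0⟩ : ∃ a ∈ (ofQuad Q).perp (span F {x, w} ⊔ span F {y}), Q a ≠ 0 := by
      by_contra k
      push Not at k
      have := h.wi _ k
      have := (ofQuad Q).finrank_perp C.nondeg (span F {x, w} ⊔ span F {y})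
      have := finrank_sup_le (span F {x, w}) (span F {y})
      have := finrank_two_le (F := F) x w
      have := finrank_one_le (F := F) y
      omega
    have key : ∀ s : F, (𝔅 (s • a) u - Q (s • a) * 𝔅 y u) • y - 𝔅 y u • s • a ∈ C.D x ω :=
      fun s => h.key hx hx0 hw hw0 hy hyT (smul_mem _ _ (mem_perp_one.1 ha).1)
        (by rw [map_smul, (mem_perp_one.1 ha).2, smul_zero]) hu
    set s := t / (2 * Q a * 𝔅 y u) with hs
    have h3 : t = s * (2 * Q a * 𝔅 y u) := by rw [hs]; field_simp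
    convert (C.D x ω).sub_mem ((C.D x ω).add_mem (key 1) (key s)) (key (1 + s)) using 1
    simp only [q_smul, qB_smul_left]
    rw [h3]
    module
  have hww : 𝔅 w w = 0 := by rw [qB_self, h2, zero_mul]
  have hwT : ∀ s : F, s • w ∈ (ofQuad Q).perp (span F {x, w}) := fun s =>
    smul_mem _ _ (mem_perp_pair.2 ⟨hxw, hww⟩)
  obtain ⟨y', hy', hyy, hy'T⟩ := (ofQuad Q).exists_partner C.nondeg (span F {x, w}) (q_sing.2 hy)
    (fun k => by
      obtain ⟨s, s', rfl⟩ := mem_span_pair.1 k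
      have : s' = 0 := by simpa [q_add, q_smul, hx.q_eq, hxw, hw0] using hy
      exact hyu (by simp [this, D_orth hx hu])) ((ofQuad Q).mem_perp'.1 hyT)
  replace hy'T := (ofQuad Q).mem_perp'.2 hy'T
  replace hy' := q_sing.1 hy'
  obtain ⟨hxy', hwy'⟩ := mem_perp_pair.1 hy'T
  have hyy' : 𝔅 y y' = 1 := (qB_comm _ _).trans hyy
  have hyy0 : 𝔅 y y = 0 := by rw [qB_self, hy, mul_zero]
  have hyy0' : 𝔅 y' y' = 0 := by rw [qB_self, hy', mul_zero]
  have key : ∀ z, Q z = 0 → z ∈ (ofQuad Q).perp (span F {x, w}) → ∀ u ∈ C.D x ω, ∀ s : F,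
      (s * 𝔅 w u - s * s * Q w * 𝔅 z u) • z - (𝔅 z u * s) • w ∈ C.D x ω := by
    intro z h3 h4 u hu s
    have := h.key hx hx0 hw hw0 h3 h4 (hwT s)
      (by rw [map_smul, qz (mem_perp_pair.1 h4).2, smul_zero]) hu
    rwa [q_smul, qB_smul_left, smul_smul] at this
  rcases Nat.lt_or_ge r 2 with hr | hr
  · obtain rfl : r = 1 := by have := h.r_pos; omega
    have h01 := eq_zero_or_one_of_card h.hr
    have h11 : (1 : F) + 1 = 0 := by linear_combination h2
    have hw1 : Q w = 1 := (h01 _).resolve_left hw0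
    have K1 : ∀ z, Q z = 0 → z ∈ (ofQuad Q).perp (span F {x, w}) → z ∉ C.D x ω →
        ∀ u ∈ C.D x ω, 𝔅 z u = 𝔅 w u := by
      intro z h3 h4 h5 u hu
      by_contra hne
      have k1 := key z h3 h4 u hu 1
      have k2 : (𝔅 z u * 1) • w ∈ C.D x ω := by rcases h01 (𝔅 z u * 1) with k | k <;> simp [k, hw]
      have k3 : 1 * 𝔅 w u - 1 * 1 * Q w * 𝔅 z u = 1 :=
        (h01 _).resolve_left fun k => hne (by rw [hw1] at k; linear_combination -k)
      rw [k3] at k1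
      exact h5 (by simpa using (C.D x ω).add_mem k1 k2)
    suffices y ∈ C.D x ω by rcases h01 t with rfl | rfl <;> simp [this]
    by_contra hyD
    have k1 := K1 y hy hyT hyD
    have k2 := K1 y' hy' hy'T fun k => by simpa [hyy', hwy'] using k1 y' k
    have k3 : 𝔅 y u = 1 := (h01 _).resolve_left hyu
    have k4 : 𝔅 w u = 1 := (k1 u hu).symm.trans k3
    have k5 : 𝔅 y' u = 1 := (k2 u hu).trans k4
    have an : ∀ a, Q a = 0 → 𝔅 x a = 0 → 𝔅 y a = 0 → 𝔅 y' a = 0 → a ∈ span F {x} :=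
      fun a => h.wi.aniso' hx.q_eq hx0 hy hxy hxy' hyy
    have nx : ∀ z v, 𝔅 x z = 0 → v ∈ span F {x} → 𝔅 z v = 0 := fun z v j1 j2 => by
      obtain ⟨t, rfl⟩ := mem_span_singleton.1 j2
      simp [qz j1]
    have hxu := D_orth hx hu
    have k6 : Q u = 0 := by
      refine (h01 _).resolve_right fun k => ?_
      have := nx w _ hxw (an (u + y + y') (by
        simp only [q_add, map_add, LinearMap.add_apply, k, hy, hy', hyy', qB_comm u, k3, k5]
        linear_combination 2 * h11) (by simp [hxu, hxy, hxy']) (by simp [k3, hyy0, hyy', h11])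
        (by simp [k5, hyy0', hyy, h11]))
      simp [k4, hwy, hwy'] at this
    have huw : 𝔅 u w = 1 := (qB_comm _ _).trans k4
    have k7 : ∀ a ∈ C.D x ω, 𝔅 u a = 0 → 𝔅 w a = 0 → a ∈ span F {x} := by
      intro a ha j1 j2
      rcases h01 (Q a) with k | k
      · exact an a k (D_orth hx ha) ((k1 a ha).trans j2) ((k2 a ha).trans j2)
      · have := nx u _ hxu (an (a + w) (by simp [q_add, k, hw1, qz j2, h11])
          (by simp [D_orth hx ha, hxw]) (by simp [k1 a ha, j2, qz hwy])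
          (by simp [k2 a ha, j2, qz hwy']))
        simp [j1, huw] at this
    refine h.not_exc hx hx0 hw hw0 hu k6 huw fun a ha j1 => ?_
    rcases h01 (𝔅 w a) with k | k
    · exact span_mono (by simp) (k7 a ha j1 k)
    · have j2 := k7 (a + u) (add_mem ha hu) (by simp [j1, qB_self, k6]) (by simp [k, k4, h11])
      simpa using sub_mem (span_mono (show ({x} : Set V) ⊆ {x, u} by simp) j2)
        (subset_span (show u ∈ ({x, u} : Set V) by simp))
  obtain ⟨μ, hμ0, hμ1⟩ : ∃ μ : F, μ ≠ 0 ∧ μ ≠ 1 := by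
    by_contra k
    push Not at k
    have : Nat.card F ≤ 2 := by
      classical
      have := Fintype.ofFinite F
      have h1 : (Finset.univ : Finset F) ⊆ {0, 1} := fun μ _ => by
        by_cases h0 : μ = 0
        · simp [h0]
        · simp [k μ h0]
      have h2 := (Finset.card_le_card h1).trans Finset.card_le_two
      rwa [Finset.card_univ, ← Nat.card_eq_fintype_card] at h2
    have := h.hr
    omega
  obtain ⟨s, hs⟩ : ∃ s : F, s * 𝔅 w u - s * s * Q w * 𝔅 y u ≠ 0 := by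
    by_contra k
    push Not at k
    have k1 := k 1
    have k2 := k μ
    have : μ * (μ - 1) * (Q w * 𝔅 y u) = 0 := by linear_combination μ * k1 - k2
    simp [hμ0, sub_eq_zero, hμ1, hw0, hyu] at this
  have k1 := key y hy hyT u hu s
  set δ := s * 𝔅 w u - s * s * Q w * 𝔅 y u
  have sq : ∀ c : F, ∃ e : F, e * e = c := fun c => by
    have : Function.Injective fun e : F => e * e := fun a b hab => by
      have : (a - b) ^ 2 = 0 := by
        have hab' : a * a = b * b := hab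
        linear_combination hab' + (b * b - a * b) * h2
      exact sub_eq_zero.1 (pow_eq_zero_iff two_ne_zero |>.1 this)
    exact Finite.injective_iff_surjective.1 this c
  have k2 : ∀ c s' : F, (s' * s' * Q w * c) • y - (c * s') • w ∈ C.D x ω := by
    intro c s'
    obtain ⟨e, he⟩ := sq (c / (Q w * δ))
    have k3 := key y hy hyT _ (key y' hy' hy'T _ k1 e) s'
    have k4 : e * e * Q w * δ = c := by rw [he]; field_simp
    simp only [map_sub, map_smul, smul_eq_mul, hwy, hwy', hww, hyy, hyy', qz hwy, qz hwy', mul_zero,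
      mul_one, sub_zero, zero_sub, k4] at k3
    convert k3 using 1
    match_scalars
    · ring
    · linear_combination (-(c * s')) * h2
  have hμ2 : Q w * (1 - μ) ≠ 0 := mul_ne_zero hw0 (sub_ne_zero.2 hμ1.symm)
  convert (C.D x ω).sub_mem (k2 (t / (Q w * (1 - μ))) 1) (k2 (t / (Q w * (1 - μ)) / μ) μ) using 1
  match_scalars <;> field_simp <;> ring

theorem O6.lemI (h : C.O6 Ω r) (hx : C.Pt x) (hx0 : x ≠ 0) {ω : Ω} (hS : ¬ C.Sm x ω) {w : V}
    (hw : w ∈ C.D x ω) (hw0 : Q w ≠ 0) :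
    (∃ z, (ofQuad Q).Sing z ∧ z ∈ (ofQuad Q).perp (span F {x, w}) ∧ z ∉ span F {x, w}) ∧
      ∀ a ∈ (ofQuad Q).perp (span F {x, w}), a ∈ C.D x ω := by
  obtain ⟨u, hu, hu'⟩ := exists_of_not_sm hS hw
  obtain ⟨x', -, hxx', -⟩ := (ofQuad Q).exists_partner C.nondeg ⊥ hx.1 hx0 (by simp)
  obtain ⟨z, hz, hz0, hz1⟩ := quad_exists_sing Q
    (Z := (ofQuad Q).perp (span F {x, w} ⊔ span F {x'})) (by
      have := (ofQuad Q).finrank_perp C.nondeg (span F {x, w} ⊔ span F {x'})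
      have := finrank_sup_le (span F {x, w}) (span F {x'})
      have := finrank_two_le (F := F) x w
      have := finrank_one_le (F := F) x'
      have := h.h6
      omega)
  have h1 : ∃ z, (ofQuad Q).Sing z ∧ z ∈ (ofQuad Q).perp (span F {x, w}) ∧ z ∉ span F {x, w} := by
    refine ⟨z, q_sing.2 hz1, (mem_perp_one.1 hz).1, fun k => ?_⟩
    obtain ⟨s, s', rfl⟩ := mem_span_pair.1 k
    have k1 : s' = 0 := by simpa [q_add, q_smul, hx.q_eq, D_orth hx hw, hw0] using hz1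
    have k2 : s = 0 := by simpa [k1, hxx'] using (mem_perp_one.1 hz).2
    exact hz0 (by simp [k1, k2])
  exact ⟨h1, perp_le_of_inv (h.hR ▸ bot_le) h1 (h.inv hx hx0 hw hw0) (h.line hx hx0 hw hw0) hu hu'⟩

theorem O6.cls (h : C.O6 Ω r) (hx : C.Pt x) (hx0 : x ≠ 0) (ω : Ω) : C.Sm x ω ∨ C.Big x ω := by
  by_cases hS : C.Sm x ω
  · exact Or.inl hS
  right
  obtain ⟨w, hw, hw0⟩ : ∃ w ∈ C.D x ω, Q w ≠ 0 := by
    by_contra k
    push Not at k
    obtain ⟨v, hv, hv'⟩ := exists_of_not_sm' hS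
    obtain ⟨u, hu, hu'⟩ := exists_of_not_sm hS hv
    refine hu' (h.wi.aniso hx.q_eq hx0 (k v hv) (D_orth hx hv) hv' (k u hu) (D_orth hx hu) ?_)
    have := q_add (Q := Q) v u
    rw [k v hv, k u hu, k _ (add_mem hv hu)] at this
    simpa using this.symm
  obtain ⟨⟨z, k1, k4, k0⟩, h1⟩ := h.lemI hx hx0 hS hw hw0
  obtain ⟨z', k2, k3, k5⟩ := (ofQuad Q).exists_partner C.nondeg _ k1 k0 ((ofQuad Q).mem_perp'.1 k4)
  replace k5 := (ofQuad Q).mem_perp'.2 k5
  replace k1 := q_sing.1 k1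
  replace k2 := q_sing.1 k2
  have k6 : 𝔅 (z + z') z' = 1 := by
    rw [(ofQuad Q).B_add_left, qB_self, k2, qB_comm, k3]; simp
  have h2 := (h.lemI hx hx0 hS (h1 _ (add_mem k4 k5)) (by
    rw [q_add, k1, k2, qB_comm, k3]; simp)).2
  intro s hs
  have k8 := h2 (s - 𝔅 (z + z') s • z') (mem_perp_pair.2
    ⟨by simp [hs, (mem_perp_pair.1 k5).1], by rw [map_sub, map_smul, k6]; simp⟩)
  simpa using add_mem k8 (h1 _ (smul_mem _ (𝔅 (z + z') s) k5))

theorem O6.rel_of_big (h : C.O6 Ω r) (hx0 : x ≠ 0) {ω ω' : Ω} (hB : C.Big x ω)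
    (hB' : C.Big x ω') : C.rel Ω x ω' ω := by
  have key : ∀ ω : Ω, C.Big x ω → (r + 1) ^ 4 ≤ {ω' | C.rel Ω x ω' ω}.ncard := by
    intro ω hB
    have h1 := pow_le_card (A := C.D x ω) (S := (ofQuad Q).perp (span F {x}))
      fun v hv => hB v ((ofQuad Q).mem_perp_span_singleton.1 hv)
    have h2 := (ofQuad Q).finrank_perp C.nondeg (span F {x})
    rw [finrank_span_singleton hx0, h.h6] at h2
    rw [h.hr, qcard_D, h.fr hx0, show finrank F ((ofQuad Q).perp (span F {x})) = 4 + 1 by omega,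
      pow_succ'] at h1
    exact Nat.le_of_mul_le_mul_left h1 r.succ_pos
  by_contra hne
  have h1 := ncard_add_ncard_le (S := {a | C.rel Ω x a ω}) (T := {a | C.rel Ω x a ω'})
    (Set.disjoint_left.2 fun a k1 k2 => hne ((C.rel Ω x).trans ((C.rel Ω x).symm k2) k1))
  have h2 := key ω hB
  have h3 := key ω' hB'
  have h4 := h.n1
  obtain ⟨s, rfl⟩ : ∃ s, r = s + 1 := ⟨r - 1, by have := h.r_pos; omega⟩
  have h5 : (s + 1 + 2) * ((s + 1 + 1) ^ 3 + 1) ≤ 2 * (s + 1 + 1) ^ 4 := by ring_nf; omega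
  omega

end Ctx

end CfsgLib.MinIdx
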