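import Mathlib
import Cfsg.Agent.Lib.MinIdx.O6B
import Cfsg.Agent.Lib.OrthE.OrderP

/-!
The minimal index of a proper subgroup of the six-dimensional orthogonal group of minus type.
-/

set_option autoImplicit false
set_option linter.unusedSectionVars false

namespace CfsgLib.MinIdx

open CfsgLib.Forms CfsgLib.RootMax Module Submodule

universe u v

variable {F : Type u} [Field F] {V : Type v} [AddCommGroup V] [Module F V]
  {Q : QuadraticForm F V} [FiniteDimensional F V] [Finite F]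

local notation "𝔅" => PQ.B (ofQuad Q)

namespace Ctx

variable {C : Ctx (ofQuad Q)} {Ω : Type*} [MulAction C.K Ω]

variable (C) in
/-- The action of an element of the radical of the stabiliser of a line on its perp. -/
def Typ (x y : V) (g : C.K) (a b : V) : Prop :=
  𝔅 x a = 0 ∧ 𝔅 y a = 0 ∧ 𝔅 x b = 0 ∧ 𝔅 y b = 0 ∧
    ∀ v, 𝔅 x v = 0 → 𝔅 y v = 0 → g.1 v = v + 𝔅 a v • x + 𝔅 b v • y

theorem Typ.mul {x y : V} (hx : C.Pt x) (hy : C.Pt y) (hxy : 𝔅 x y = 0) {g g' : C.K}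
    {a b a' b' : V} (h : C.Typ x y g a b) (h' : C.Typ x y g' a' b') :
    C.Typ x y (g * g') (a + a') (b + b') := by
  obtain ⟨h1, h2, h3, h4, h5⟩ := h
  obtain ⟨k1, k2, k3, k4, k5⟩ := h'
  refine ⟨by simp [h1, k1], by simp [h2, k2], by simp [h3, k3], by simp [h4, k4], fun v j1 j2 => ?_⟩
  rw [mul_apply', k5 v j1 j2, h5 _ (by simp [j1, hx.self_eq, hxy])
    (by simp [j2, hy.self_eq, qz hxy])]
  simp only [map_add, map_smul, LinearMap.add_apply, qz h1, qz h2, qz h3, qz h4, smul_eq_mul]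
  module

theorem Typ.inv {x y : V} (hx : C.Pt x) (hy : C.Pt y) (hxy : 𝔅 x y = 0) {g : C.K}
    {a b : V} (h : C.Typ x y g a b) : C.Typ x y g⁻¹ (-a) (-b) := by
  obtain ⟨h1, h2, h3, h4, h5⟩ := h
  refine ⟨by simp [h1], by simp [h2], by simp [h3], by simp [h4], fun v j1 j2 => inv_apply_eq' ?_⟩
  rw [h5 _ (by simp [j1, hx.self_eq, hxy]) (by simp [j2, hy.self_eq, qz hxy])]
  simp only [map_add, map_smul, map_neg, LinearMap.neg_apply, qz h1, qz h2, qz h3, qz h4,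
    smul_eq_mul]
  module

theorem Typ.conj {x y : V} {g : C.K} {a b : V} (h : C.Typ x y g a b) (k : C.K) {s t : F}
    (h6 : ∀ v, 𝔅 x v = 0 → 𝔅 y v = 0 → ∃ m n : F, k.1 v = v + m • x + n • y)
    (hkx : k.1 x = x + t • y) (hky : k.1 y = y + s • x) :
    C.Typ x y (k * g * k⁻¹) (a + s • b) (b + t • a) := by
  obtain ⟨h1, h2, h3, h4, h5⟩ := h
  refine ⟨by simp [h1, h3], by simp [h2, h4], by simp [h1, h3], by simp [h2, h4], fun v j1 j2 => ?_⟩
  obtain ⟨v, rfl⟩ := k.1.surjective v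
  have i1 : 𝔅 x v = 0 := by rw [← B_map k, hkx]; simp [j1, j2]
  have i2 : 𝔅 y v = 0 := by rw [← B_map k, hky]; simp [j1, j2]
  obtain ⟨m, n, hm⟩ := h6 v i1 i2
  have i3 : 𝔅 a (k.1 v) = 𝔅 a v := by rw [hm]; simp [qz h1, qz h2]
  have i4 : 𝔅 b (k.1 v) = 𝔅 b v := by rw [hm]; simp [qz h3, qz h4]
  rw [mul_apply', mul_apply', inv_apply', h5 v i1 i2]
  simp only [map_add, map_smul, LinearMap.add_apply, LinearMap.smul_apply, hkx, hky, i3, i4,
    smul_eq_mul]
  module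

theorem eq_ρ_of_fix (hR : C.R = ⊥) {x y x' y' : V} (hx : C.Pt x) (hy : C.Pt y) (hxy : 𝔅 x y = 0)
    (hxx : 𝔅 x' x = 1) (hyy : 𝔅 y' y = 1) (hx'y : 𝔅 x' y = 0) (hy'x : 𝔅 y' x = 0) {k : C.K}
    (hk : ∀ v, 𝔅 x v = 0 → 𝔅 y v = 0 → k.1 v = v) : ∃ s : F, k = C.ρ x (s • y) := by
  have h1 : ∀ v, ∃ α β : F, k.1 v = v + α • x + β • y := fun v => by
    have : k.1 v - v ∈ span F {x, y} := by
      rw [← (ofQuad Q).perp_perp C.nondeg (span F {x, y})]
      intro a ha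
      obtain ⟨k1, k2⟩ := mem_perp_pair.1 ha
      rw [map_sub, ← B_map k a v, hk a k1 k2, sub_self]
    obtain ⟨α, β, h⟩ := mem_span_pair.1 this
    exact ⟨α, β, by linear_combination (norm := module) -h⟩
  obtain ⟨α, β, h2⟩ := h1 x'
  obtain ⟨γ, δ, h3⟩ := h1 y'
  have h4 : α = 0 := by
    have := q_map k x'
    simpa [h2, q_add, q_smul, hx.q_eq, hy.q_eq, hxx, hx'y, hxy] using this
  have h5 : δ = 0 := by
    have := q_map k y'
    simpa [h3, q_add, q_smul, hx.q_eq, hy.q_eq, hyy, hy'x, hxy] using this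
  have h6 : γ = -β := by
    have := B_map k x' y'
    simp only [h2, h3, h4, h5, map_add, map_smul, LinearMap.add_apply, LinearMap.smul_apply, hxx,
      qB_comm y y', hyy, qz hxy, smul_eq_mul, zero_smul, add_zero] at this
    linear_combination this
  have hd : C.Dir x ((-β) • y) := dir_of hR (by simp [hxy])
  refine ⟨-β, ext' fun v => ?_⟩
  have h7 := hk (v - 𝔅 x v • x' - 𝔅 y v • y') (by simp [qB_comm x x', hxx, qz hy'x])
    (by simp [qB_comm y y', hyy, qz hx'y])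
  rw [map_sub, map_sub, map_smul, map_smul, h2, h3, h4, h5, h6] at h7
  rw [ρ_apply hx hd]
  simp only [q_smul, hy.q_eq, qB_smul_left]
  linear_combination (norm := module) h7

variable [Finite Ω] {r : ℕ}

theorem O6.not_allT (h : C.O6 Ω r) {ω : Ω} (hT : ∀ z, C.Pt z → z ≠ 0 → C.TyT z ω) {x : V}
    (hx : C.Pt x) (hx0 : x ≠ 0) (hrel : ∀ g : C.K, C.rel Ω x (g • ω) ω) : False := by
  have hR := h.hR
  have h6 := h.h6
  obtain ⟨y, y', hy0, hy'0, hyy', hxy, hxy'⟩ := q_exists_hyp C.nondeg (U := span F {x}) (by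
    have := finrank_one_le (F := F) x; omega)
  rw [PQ.mem_perp_span_singleton] at hxy hxy'
  have hy : C.Pt y := pt_of hR hy0
  have hyx := qz hxy
  have hyx' : y ∉ span F {x} := fun k => by
    obtain ⟨t, rfl⟩ := mem_span_singleton.1 k
    simp [qz hxy'] at hyy'
  obtain ⟨x', -, hxx', hx'T⟩ := (ofQuad Q).exists_partner C.nondeg (span F {y}) hx.1
    (notMem_swap hx0 hyx') fun v hv => by
      obtain ⟨t, rfl⟩ := mem_span_singleton.1 hv
      simp [hxy]
  have hx'y : 𝔅 x' y = 0 := hx'T y (mem_span_singleton_self _)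
  have an : ∀ a, Q a = 0 → 𝔅 x a = 0 → 𝔅 y a = 0 → a ∈ span F {x, y} :=
    fun a => h.wi.aniso hx.q_eq hx0 hy0 hxy hyx'
  have uniq : ∀ a a' (s : C.K), 𝔅 x a = 0 → 𝔅 x a' = 0 → (C.ρ x a * s) • ω = ω →
      (C.ρ x a' * s) • ω = ω → a - a' ∈ span F {x} := by
    intro a a' s ha ha' h1 h2
    refine (hT x hx hx0).mem_span hx hx0 ((dir_of hR ha).sub (dir_of hR ha')) ?_
    have h3 : C.ρ x (a - a') = (C.ρ x a * s) * (C.ρ x a' * s)⁻¹ := by
      rw [sub_eq_add_neg, ← ρ_mul (dir_of hR ha) (dir_of hR ha').neg, ρ_neg (dir_of hR ha')]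
      group
    rw [h3, mul_smul, inv_smul_eq_iff.2 h2.symm, h1]
  have hlift : ∀ g : C.K, ∃ a, 𝔅 x a = 0 ∧ (C.ρ x a * g) • ω = ω := fun g =>
    let ⟨a, h1, h2⟩ := qrel_iff.1 ((C.rel Ω x).symm (hrel g))
    ⟨a, h1.2, by rw [mul_smul, h2]⟩
  have fx : ∀ b, 𝔅 x b = 0 → 𝔅 y b = 0 → (C.ρ y b).1 x = x := fun b h1 h2 =>
    ρ_fix hy (dir_of hR h2) hyx (qz h1)
  have prod : ∀ b a b' a', 𝔅 x b = 0 → 𝔅 y b = 0 → 𝔅 y b' = 0 → 𝔅 x a = 0 → 𝔅 x a' = 0 →
      C.ρ x a * C.ρ y b * (C.ρ x a' * C.ρ y b')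
        = C.ρ x (a + (C.ρ y b).1 a') * C.ρ y (b + b') := by
    intro b a b' a' h1 h2 h3 h4 h5
    have h6 : C.Dir x ((C.ρ y b).1 a') := by
      simpa only [fx b h1 h2] using (dir_of hR h5 : C.Dir x a').map (C.ρ y b)
    rw [mul_assoc, ← mul_assoc (C.ρ y b), mul_ρ _ hx (dir_of hR h5), fx b h1 h2,
      ← ρ_mul (dir_of hR h4) h6, ← ρ_mul (dir_of hR h2) (dir_of hR h3)]
    group
  have hxρ : ∀ b a, 𝔅 x b = 0 → 𝔅 y b = 0 → 𝔅 x a = 0 → 𝔅 x ((C.ρ y b).1 a) = 0 := by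
    intro b a h1 h2 h3
    rw [ρ_apply hy (dir_of hR h2)]; simp [h1, h3, hxy]
  have S3 : ∀ b a, 𝔅 x b = 0 → 𝔅 y b = 0 → 𝔅 x a = 0 → (C.ρ x a * C.ρ y b) • ω = ω →
      𝔅 y a = 0 := by
    intro b a h1 h2 h5 h7
    obtain ⟨b', hb', hb''⟩ := exists_mem_notMem (W := (ofQuad Q).perp (span F {x, y}))
      (W' := span F {x, y, b}) (by
        have := (ofQuad Q).finrank_perp C.nondeg (span F {x, y})
        have := finrank_two_le (F := F) x y
        have := finrank_three_le (F := F) x y b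
        omega)
    obtain ⟨h3, h4⟩ := mem_perp_pair.1 hb'
    obtain ⟨a', h6, h8⟩ := hlift (C.ρ y b')
    obtain ⟨t, ht⟩ := mem_span_singleton.1 (uniq (a + (C.ρ y b).1 a') (a' + (C.ρ y b').1 a)
      (C.ρ y (b + b')) (by rw [map_add, h5, hxρ _ _ h1 h2 h6, add_zero])
      (by rw [map_add, h6, hxρ _ _ h3 h4 h5, add_zero])
      (by rw [← prod b a b' a' h1 h2 h4 h5 h6, mul_smul, h8, h7])
      (by rw [add_comm b, ← prod b' a' b a h3 h4 h2 h6 h5, mul_smul, h7, h8]))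
    rw [ρ_apply hy (dir_of hR h2), ρ_apply hy (dir_of hR h4)] at ht
    by_contra hne
    exact hb'' ((smul_mem_iff _ hne).1 (mem_span_triple.2 ⟨t, -(𝔅 b a' - Q b * 𝔅 y a' -
      (𝔅 b' a - Q b' * 𝔅 y a)), 𝔅 y a', by rw [ht]; module⟩))
  have typ : ∀ a b, 𝔅 x a = 0 → 𝔅 y a = 0 → 𝔅 x b = 0 → 𝔅 y b = 0 →
      C.Typ x y (C.ρ x a * C.ρ y b) a b := fun a b h1 h2 h3 h4 => ⟨h1, h2, h3, h4, fun v j1 j2 => by
    rw [mul_apply', ρ_apply_left hy (dir_of hR h4) j2,
      ρ_apply_left hx (dir_of hR h1) (by simp [j1, hxy])]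
    simp only [map_add, map_smul, qz h2, smul_eq_mul]
    module⟩
  let G : V → V → Prop := fun a b => ∃ g : C.K, g • ω = ω ∧ C.Typ x y g a b
  have Gadd : ∀ a b a' b', G a b → G a' b' → G (a + a') (b + b') := by
    rintro a b a' b' ⟨g, h1, h2⟩ ⟨g', h3, h4⟩
    exact ⟨g * g', by rw [mul_smul, h3, h1], h2.mul hx hy hxy h4⟩
  have Gsub : ∀ a b a' b', G a b → G a' b' → G (a - a') (b - b') := by
    rintro a b a' b' ⟨g, h1, h2⟩ ⟨g', h3, h4⟩
    refine ⟨g * g'⁻¹, by rw [mul_smul, inv_smul_eq_iff.2 h3.symm, h1], ?_⟩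
    simpa only [sub_eq_add_neg] using h2.mul hx hy hxy (h4.inv hx hy hxy)
  have N1 : ∀ a, G a 0 → a ∈ span F {x, y} := by
    rintro a ⟨g, h1, h2⟩
    have da : C.Dir x a := dir_of hR h2.1
    obtain ⟨s, hs⟩ := eq_ρ_of_fix hR hx hy hxy hxx' hyy' hx'y (qz hxy') (k := C.ρ x (-a) * g)
      fun v j1 j2 => by
        rw [mul_apply', h2.2.2.2.2 v j1 j2, ρ_apply_left hx da.neg (by simp [j1, hx.self_eq])]
        simp [qz h2.1]
    have ds : C.Dir x (s • y) := dir_of hR (by simp [hxy])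
    rw [ρ_neg da, inv_mul_eq_iff_eq_mul, ρ_mul da ds] at hs
    obtain ⟨t, ht⟩ := mem_span_singleton.1 ((hT x hx hx0).mem_span hx hx0 (da.add ds) (hs ▸ h1))
    exact mem_span_pair.2 ⟨t, -s, by rw [ht]; module⟩
  have N2 : ∀ a b (t : F), G a b → a - t • b ∈ span F {x, y} → Q b = 0 := by
    rintro a b t ⟨g, h1, h2⟩ h3
    have pz : C.Pt (y + t • x) := hy.add (hx.smul t) (by simp [hyx])
    have hz0 : y + t • x ≠ 0 := fun k => by simpa [hyy', qz hxy'] using congrArg (𝔅 y') k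
    have db : C.Dir (y + t • x) b := dir_of hR (by simp [h2.2.2.1, h2.2.2.2.1])
    obtain ⟨s, hs⟩ := eq_ρ_of_fix hR pz hx (by simp [hyx, hx.self_eq]) (x' := y')
      (y' := x' - t • y') (by simp [hyy', qz hxy']) (by simp [hxx', qz hxy']) (qz hxy')
      (by simp [hyy', hxx', hx'y, qz hxy']) (k := C.ρ (y + t • x) (-b) * g) fun v j1 j2 => by
        have j3 : 𝔅 y v = 0 := by simpa [j2] using j1
        have j4 : 𝔅 a v = t * 𝔅 b v := by
          have := qz (B_span_pair j2 j3 h3)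
          rw [(ofQuad Q).B_sub_left, qB_smul_left] at this
          linear_combination this
        rw [mul_apply', h2.2.2.2.2 v j2 j3, ρ_apply_left pz db.neg
          (by simp [j2, j3, hx.self_eq, hy.self_eq, hxy, hyx])]
        simp only [map_add, map_smul, map_neg, LinearMap.neg_apply, qz h2.2.2.1, qz h2.2.2.2.1, j4,
          smul_eq_mul]
        module
    have ds : C.Dir (y + t • x) (s • x) := dir_of hR (by simp [hyx, hx.self_eq])
    rw [ρ_neg db, inv_mul_eq_iff_eq_mul, ρ_mul db ds] at hs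
    obtain ⟨e, he⟩ := mem_span_singleton.1 ((hT _ pz hz0).mem_span pz hz0 (db.add ds) (hs ▸ h1))
    have := congrArg Q he
    rw [q_smul, pz.q_eq, q_add, q_smul, hx.q_eq] at this
    simpa [qz h2.2.2.1] using this.symm
  have E : ∀ b, 𝔅 x b = 0 → 𝔅 y b = 0 → ∃ a, 𝔅 x a = 0 ∧ 𝔅 y a = 0 ∧
      (C.ρ x a * C.ρ y b) • ω = ω := fun b h1 h2 =>
    let ⟨a, h3, h4⟩ := hlift (C.ρ y b)
    ⟨a, h3, S3 b a h1 h2 h3 h4, h4⟩
  obtain ⟨b, hb, hb0⟩ := q_exists_eq C.nondeg (U := span F {x, y})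
    (by have := finrank_two_le (F := F) x y; omega) 1
  obtain ⟨hxb, hyb⟩ := mem_perp_pair.1 hb
  obtain ⟨a, hxa, hya, hab⟩ := E b hxb hyb
  have Gab : G a b := ⟨_, hab, typ a b hxa hya hxb hyb⟩
  have nb : ∀ t : F, a - t • b ∉ span F {x, y} := fun t k => by
    simpa [hb0] using N2 a b t Gab k
  by_cases h2 : (2 : F) = 0
  · have k6 : ∀ v : V, v + v = 0 := fun v => by rw [← two_smul F, h2, zero_smul]
    have k7 : (C.ρ x a * C.ρ y b * (C.ρ x a * C.ρ y b)) • ω = ω := by rw [mul_smul, hab, hab]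
    rw [prod b a b a hxb hyb hyb hxa hxa, k6, ρ_zero, ρ_apply_left hy (dir_of hR hyb) hya,
      ← add_assoc, k6, zero_add] at k7
    obtain ⟨t, ht⟩ := mem_span_singleton.1 (uniq _ 0 1 (by simp [hxy]) (map_zero _) k7
      (by rw [ρ_zero, one_mul, one_smul]))
    have k8 : 𝔅 b a = 0 := by simpa [hyy', qz hxy'] using congrArg (𝔅 y') ht.symm
    have : Function.Injective fun e : F => e * e := fun a b hab => by
      have : (a - b) ^ 2 = 0 := by
        have hab' : a * a = b * b := hab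
        linear_combination hab' + (b * b - a * b) * h2
      exact sub_eq_zero.1 (pow_eq_zero_iff two_ne_zero |>.1 this)
    obtain ⟨e, he⟩ := Finite.injective_iff_surjective.1 this (Q a)
    refine nb e (an _ ?_ (by simp [hxa, hxb]) (by simp [hya, hyb]))
    have he' : e * e = Q a := he
    rw [q_sub, q_smul, map_smul, qz k8, hb0, he']
    linear_combination Q a * h2
  obtain ⟨a₂, hxa₂, hya₂, ha₂⟩ := E a hxa hya
  have Ga : G a₂ a := ⟨_, ha₂, typ a₂ a hxa₂ hya₂ hxa hya⟩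
  have T : ∀ t : F, ∃ κ : F, G (a + κ • (b + t • a)) (b + t • a) := by
    intro t
    obtain ⟨g, h1, h3⟩ := Gab
    have dt : C.Dir y (t • x') := dir_of hR (by simp [qz hx'y])
    obtain ⟨c, h4, h5⟩ := hlift (C.ρ y (t • x'))
    have h7 := (h3.conj (C.ρ y (t • x')) (s := 0) (t := t) (fun v _ j2 => ⟨0, 𝔅 (t • x') v, by
      rw [ρ_apply_left hy dt j2, zero_smul, add_zero]⟩)
      (by rw [ρ_apply_left hy dt hyx]; simp [hxx']) (by rw [ρ_self hy dt]; simp)).conj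
      (C.ρ x c) (s := 𝔅 c y) (t := 0) (fun v j1 _ => ⟨𝔅 c v, 0, by
        rw [ρ_apply_left hx (dir_of hR h4) j1, zero_smul, add_zero]⟩)
      (by rw [ρ_self hx (dir_of hR h4)]; simp) (ρ_apply_left hx (dir_of hR h4) hxy)
    refine ⟨𝔅 c y, _, ?_, by simpa using h7⟩
    have h8 := inv_smul_eq_iff.2 h5.symm
    rw [mul_inv_rev, mul_smul] at h8
    rw [mul_smul] at h5
    simp only [mul_smul, h8, h1, h5]
  obtain ⟨κ, hκ⟩ := T 1
  obtain ⟨κ', hκ'⟩ := T (-1)
  have k1 := N1 (a₂ - κ • (b + a)) (by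
    convert Gsub _ _ _ _ (Gadd _ _ _ _ Gab Ga) hκ using 1 <;> module)
  have k2 := N1 (-a₂ - κ' • (b - a)) (by
    convert Gsub _ _ _ _ (Gsub _ _ _ _ Gab Ga) hκ' using 1 <;> module)
  have k3 : κ' = κ := by
    by_contra hne
    refine nb ((κ + κ') / (κ' - κ)) ((smul_mem_iff _ (sub_ne_zero.2 hne)).1 ?_)
    have := sub_ne_zero.2 hne
    convert add_mem k1 k2 using 1
    match_scalars <;> field_simp <;> ring
  have k4 : κ = 0 := by
    have k5 : (-2 * κ) • b ∈ span F {x, y} := by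
      convert add_mem k1 k2 using 1
      rw [k3]; module
    have := q_span_pair hx.q_eq hy0 hxy k5
    simpa [q_smul, hb0, h2] using this
  have k5 := N2 a₂ a 0 Ga (by simpa [k4] using k1)
  exact nb 0 (by simpa using an a k5 hxa hya)

theorem O6.main (h : C.O6 Ω r) (ω : Ω) (hnF : ∃ x, C.Pt x ∧ ¬ C.TyF x ω) :
    ∃ v, v ≠ 0 ∧ ∀ g : C.K, g • ω = ω → g.1 v ∈ span F {v} := by
  have h6 := h.h6
  have big : ∀ x (ω : Ω), C.Pt x → x ≠ 0 → C.TyT x ω → C.Big x ω := by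
    intro x ω hx hx0 hT
    refine (h.cls hx hx0 ω).resolve_left ?_
    rintro ⟨w, -, h1⟩
    obtain ⟨a, ha, ha'⟩ := exists_mem_notMem (W := (ofQuad Q).perp (span F {x, w}))
      (W' := span F {x}) (by
        have := (ofQuad Q).finrank_perp C.nondeg (span F {x, w})
        have := finrank_two_le (F := F) x w
        have := finrank_one_le (F := F) x
        omega)
    obtain ⟨k1, k2⟩ := qmem_A.1 (mem_A_of_orth (C := C) (x := x) (ω := ω) (a := a)
      fun v hv => qz (ha v (h1 v hv)))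
    exact ha' (hT.mem_span hx hx0 k1 k2)
  have hrel : ∀ x, C.Pt x → x ≠ 0 → C.TyT x ω → ∀ g : C.K, g.1 x = x → C.rel Ω x (g • ω) ω := by
    intro x hx hx0 hT g hg
    have := (big x ω hx hx0 hT).map hx g
    rw [hg] at this
    exact h.rel_of_big hx0 (big x ω hx hx0 hT) this
  have := geo (C := C) ω (fun y => q_exists_sing C.nondeg (by
      rw [h.hR, bot_sup_eq]; have := finrank_one_le (F := F) y; omega))
    (Or.inr (by rw [h.hR, finrank_bot]; omega)) (fun x _ hx => by rwa [h.hR] at hx)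
    (fun x hx hx0 => ?_) (fun x y y' hx hx0 hT hy hy' h1 h2 h3 h4 => ?_) hnF ?_
  · simpa only [h.hR, bot_sup_eq, mem_bot] using this
  · rcases h.cls hx hx0 ω with ⟨w, h1, h2⟩ | h1
    · by_cases hw : w ∈ span F {x}
      · exact Or.inl (tyF_of_D fun v hv => (span_le.2 (by
          rintro _ (rfl | rfl)
          exacts [mem_span_singleton_self _, hw])) (h2 v hv))
      · refine Or.inr (Or.inr ⟨w, D_orth hx h1, by rwa [h.hR, bot_sup_eq], fun a c ha haw => ?_,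
          fun g hg hgx => mem_sup_right (h2 _ (hg ▸ D_fix hx hgx h1))⟩)
        rw [ha.q_eq]
        exact (qmem_A.1 (mem_A_of_orth fun v hv => B_span_pair ha.2.1 haw (h2 v hv))).2
    · refine Or.inr (Or.inl fun a c ha hω => ?_)
      have h2 : a ∈ span F {x} := by
        rw [← (ofQuad Q).perp_perp C.nondeg (span F {x})]
        exact fun v hv => qz (B_eq_zero_of_mem_A
          (fun s hs => h1 s ((ofQuad Q).mem_perp_span_singleton.1 hs)) ⟨c, ha, hω⟩ hv)
      obtain ⟨t, rfl⟩ := mem_span_singleton.1 h2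
      have := ρ_add_self hx (dir_zero x) t
      rw [zero_add, ρ_zero] at this
      rw [ha.q_eq]
      exact this
  · rw [h.hR, bot_sup_eq] at h3 h4
    obtain ⟨g, k1, k2⟩ := h.tr1 x y y' h3 h4 (by rw [h1, h2]) (by rw [hy.q_eq, hy'.q_eq])
    obtain ⟨a, k3, k4⟩ := qrel_iff.1 ((C.rel Ω x).symm (hrel x hx hx0 hT g k1))
    exact ⟨C.ρ x a * g, _, by rw [mul_smul, k4], by rw [mul_apply', k2, ρ_apply_left hx k3 h2]⟩
  · by_contra hall
    push Not at hall
    obtain ⟨x, hx, -, hx0⟩ := q_exists_sing C.nondeg (U := ⊥) (by rw [finrank_bot]; omega)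
    have px : C.Pt x := pt_of h.hR (q_sing.1 hx)
    refine h.not_allT hall px hx0 fun g => h.rel_of_big hx0 (big x ω px hx0 (hall x px hx0))
      (big x _ px hx0 ?_)
    have := (hall _ (px.map g⁻¹) (by simpa using hx0)).map (px.map g⁻¹) g
    rwa [apply_inv'] at this

end Ctx

theorem om_lower6 (hQ : OrthE.Nondeg Q) (h6 : finrank F V = 6) (hw : WI2 Q) {r : ℕ}
    (hr : Nat.card F = r + 1)
    (hs : (r + 2) * ((r + 1) ^ 3 + 1) * r + 1 ≤ Nat.card {u // Q u = 0})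
    (H : Subgroup (Om Q)) (hH : H ≠ ⊤) : (r + 2) * ((r + 1) ^ 3 + 1) ≤ H.index := by
  by_contra hlt
  push Not at hlt
  have hK := rootGroup_quad (hQ.E_eq_commutator_of_finite (by omega))
  have hfin : Finite (Om Q) := Ctx.finite_K (C := ctxOf hQ.ofQuad hK)
  have hr1 : 1 ≤ r := by have := one_lt_q F; omega
  have h : (ctxOf hQ.ofQuad hK).O6 (Om Q ⧸ H) r :=
    { hR := rfl
      h6 := h6
      wi := hw
      hr := hr
      tr0 := fun u u' h1 h2 h3 => om_tr0 hQ (by omega) h1 h2 h3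
      tr1 := fun x u u' h1 h2 h3 h4 => by
        obtain ⟨g, k1, k2, k3⟩ := om_witt6 hQ (by omega) (span F {x}) (by
          have := finrank_one_le (F := F) x; omega) h1 h2 (fun h hh => by
            obtain ⟨t, rfl⟩ := mem_span_singleton.1 hh
            rw [qB_smul_left, qB_smul_left, h3]) h4
        exact ⟨⟨g, k1⟩, k2 x (mem_span_singleton_self x), k3⟩
      n1 := hlt }
  obtain ⟨v, hv, h1⟩ := h.main ((1 : Om Q) : Om Q ⧸ H) (ctxOf_not_tyF hQ.ofQuad hK hH _)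
  have h2 : (lineStab (Om Q).subtype v).index ≤ H.index := index_le_of_le (le_lineStab_of hv h1)
  by_cases hv0 : Q v = 0
  · have := om_index_sing hQ (by omega) hv hv0 hr
    nlinarith
  · obtain ⟨k1, k2⟩ := om_index_ns hQ (by omega) hv0
    have k3 := level_ge_even hv0 2 Q hQ h6
    rw [hr] at k3
    by_cases k : (2 : F) = 0
    · have := k1 k
      obtain ⟨s, rfl⟩ : ∃ s, r = s + 1 := ⟨r - 1, by omega⟩
      have : (s + 1 + 2) * ((s + 1 + 1) ^ 3 + 1) + (s + 1 + 1) ^ 2 ≤ (s + 1 + 1) ^ (2 * 2 + 1) := by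
        ring_nf; omega
      omega
    · have := k2 k
      have h9 : 2 ≤ r := by
        have := Fintype.ofFinite F
        have := OrthE.odd_card_of_two_ne_zero k
        rw [← Nat.card_eq_fintype_card, hr, Nat.odd_iff] at this
        omega
      obtain ⟨s, rfl⟩ : ∃ s, r = s + 2 := ⟨r - 2, by omega⟩
      have : (s + 2 + 2) * ((s + 2 + 1) ^ 3 + 1) * 2 + (s + 2 + 1) ^ 2 ≤
          (s + 2 + 1) ^ (2 * 2 + 1) := by
        ring_nf; omega
      omega

end CfsgLib.MinIdx
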